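import Cfsg.Agent.H737.SK.GoodTwo

/-!
# S3010, characteristic two: graph automorphisms (helper737)

`Gra cs h e γ σ` : `γ (e x a) = e (x ∘ σ) a`, `σ` an involutory diagram symmetry.

* `Gra.frA` : `γ` is a frame automorphism;
* `o2_big_gra`, `o2_two_gra` : `C(v) ∩ C(x) ∩ Fix γ` has no nontrivial normal 2-subgroup.
-/

set_option autoImplicit false
set_option linter.unusedSectionVars false

namespace Cfsg.Agent.H737.SK.Gen

open CoxeterSystem Cfsg.Agent.ChevalleyStructure.CoxeterGeom Cfsg.Agent.Tits.Roots Cfsg.Agent.Tits.Core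
  Cfsg.Agent.Tits.Exchange Cfsg.Agent.Nodes.Reps Cfsg.Agent.Nodes.BNOf Cfsg.Agent.Nodes.StabComb
  Cfsg.Agent.Nodes.Bruhat Cfsg.Agent.Nodes.OppDec Cfsg.Agent.Nodes.LeviDec Cfsg.Agent.Nodes.NormalForm
  Cfsg.Agent.Nodes.Coroot Cfsg.Agent.Nodes.Comb
  Cfsg.Agent.KFacts.RgdField Cfsg.Agent.BpExc.TorCent Cfsg.Agent.KFacts.RgdOpp Cfsg.Agent.KFacts.RgdCent
  Cfsg.Agent.KFacts.ChevTwo Cfsg.Agent.KFacts.RgdSys Cfsg.Agent.H737.SK.O2 Cfsg.Agent.H282.SK
  Cfsg.Agent.KFacts.RgdRigid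

variable {I W Y K : Type*} [Fintype I] [DecidableEq I] [Group W] [Group Y] [Field K] {M : CoxeterMatrix I}
variable {cs : CoxeterSystem M W} {A : I → I → ℤ} {h : IsCartan M A} {e : (I → ℤ) → K → Y}
  {p : ℕ} {T : Subgroup Y} {n : I → Y} {X : (I → ℤ) → Subgroup Y}

/-- the standard graph automorphism -/
structure Gra (cs : CoxeterSystem M W) (h : IsCartan M A) (e : (I → ℤ) → K → Y) (γ : MulAut Y) (σ : I → I) :
    Prop where
  invol : ∀ i, σ (σ i) = i
  cart : ∀ i j, A (σ i) (σ j) = A i j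
  map : ∀ x, IsRoot cs h x → ∀ a, γ (e x a) = e (fun i => x (σ i)) a

theorem sr_comp {σ : I → I} (hσ : ∀ i, σ (σ i) = i) (i : I) : (fun k => (sr i : I → ℤ) (σ k)) = sr (σ i) := by
  funext k
  by_cases hk : σ k = i
  · have : k = σ i := by rw [← hk, hσ]
    subst this
    rw [hk, sr_self, sr_self]
  · rw [sr_ne hk, sr_ne fun h0 => hk (by rw [h0, hσ])]

theorem pairing_comp {σ : I → I} (hσ : ∀ i, σ (σ i) = i) (hA : ∀ i j, A (σ i) (σ j) = A i j) (i : I) (x : I → ℤ) :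
    pairing A (σ i) (fun k => x (σ k)) = pairing A i x := by
  unfold pairing
  refine Finset.sum_bij' (fun k _ => σ k) (fun k _ => σ k) (fun _ _ => Finset.mem_univ _)
    (fun _ _ => Finset.mem_univ _) (fun k _ => hσ k) (fun k _ => hσ k) fun k _ => ?_
  have h1 := hA i (σ k)
  rw [hσ] at h1
  rw [h1]

theorem rep_comp {σ : I → I} (hσ : ∀ i, σ (σ i) = i) (hA : ∀ i j, A (σ i) (σ j) = A i j) (ω : List I) (x : I → ℤ) :
    rep cs h (cs.wordProd (ω.map σ)) (fun k => x (σ k)) = fun k => rep cs h (cs.wordProd ω) x (σ k) := by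
  induction ω with
  | nil => rw [List.map_nil, wordProd_nil, map_one, Module.End.one_apply, Module.End.one_apply]
  | cons i ω ih =>
    rw [List.map_cons, wordProd_cons, wordProd_cons, rep_mul_apply, rep_mul_apply, ih, rep_simple_eq, rep_simple_eq,
      pairing_comp hσ hA, ← sr_comp hσ]
    rfl

section

variable [Finite W] {R : RGD cs h p T n X} (S : Sys R e) {γ : MulAut Y} {σ : I → I} (hγ : Gra cs h e γ σ)

include hγ

theorem Gra.root {x : I → ℤ} (hx : IsRoot cs h x) : IsRoot cs h (fun k => x (σ k)) := by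
  obtain ⟨w, i, rfl⟩ := hx
  obtain ⟨ω, rfl⟩ := cs.wordProd_surjective w
  rw [← rep_comp hγ.invol hγ.cart, sr_comp hγ.invol]
  exact (isRoot_sr cs h _).act _

theorem Gra.nel (j : I) : γ (nel e (sr j)) = nel e (sr (σ j)) := by
  rw [nel_def, nel_def, map_mul, map_mul, hγ.map _ (isRoot_sr cs h j), hγ.map _ (isRoot_sr cs h j).neg,
    sr_comp hγ.invol]
  have : (fun k => (-sr j : I → ℤ) (σ k)) = -sr (σ j) := by
    rw [← sr_comp hγ.invol]; rfl
  rw [this]

theorem Gra.nc (j : I) (c : K) : γ (nc e (sr j) c) = nc e (sr (σ j)) c := by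
  rw [nc_def, nc_def, map_mul, map_mul, hγ.map _ (isRoot_sr cs h j), hγ.map _ (isRoot_sr cs h j).neg,
    sr_comp hγ.invol]
  have : (fun k => (-sr j : I → ℤ) (σ k)) = -sr (σ j) := by
    rw [← sr_comp hγ.invol]; rfl
  rw [this]

theorem Gra.hel (j : I) (c : K) : γ (hel e (sr j) c) = hel e (sr (σ j)) c := by
  rw [hel_def, hel_def, map_mul, hγ.nc, hγ.nel]

include S in
theorem Gra.map_T (hG1 : RGD.Sup X {x | IsRoot cs h x} = ⊤) {t : Y} (ht : t ∈ T) : γ t ∈ T := by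
  refine mem_T_of_norm S hG1 fun r hr => ?_
  obtain ⟨χ, hχ⟩ := S.chi t ht
  refine ⟨((χ (fun k => r (σ k))).toMul : Kˣ), Units.ne_zero _, fun a => ?_⟩
  have h1 := congrArg γ (hχ _ (hγ.root hr) a)
  have h2 : (fun k => (fun k => r (σ k)) (σ k)) = r := by
    funext k
    show r (σ (σ k)) = r k
    rw [hγ.invol]
  rw [map_mul, map_mul, map_inv, hγ.map _ (hγ.root hr), hγ.map _ (hγ.root hr), h2] at h1
  exact h1

/-- the permutation of the Weyl group -/
noncomputable def th (cs : CoxeterSystem M W) (σ : I → I) (w : W) : W :=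
  cs.wordProd ((cs.wordProd_surjective w).choose.map σ)

omit hγ in
theorem th_spec (σ : I → I) (w : W) : ∃ ω, cs.wordProd ω = w ∧ th cs σ w = cs.wordProd (ω.map σ) :=
  ⟨_, (cs.wordProd_surjective w).choose_spec, rfl⟩

include S in
theorem Gra.frA (hG1 : RGD.Sup X {x | IsRoot cs h x} = ⊤) : FrA R γ (fun x k => x (σ k)) (th cs σ) where
  root _ ha := hγ.root ha
  map a ha z hz := by
    obtain ⟨c, rfl⟩ := (S.mem_X a ha z).1 hz
    rw [hγ.map a ha]
    exact S.mem (hγ.root ha) _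
  rp w k hk := by
    obtain ⟨ω, hω, h1⟩ := th_spec (cs := cs) σ w
    rw [h1]
    subst hω
    have key : ∀ ω : List I, Rp cs R.nsys (cs.wordProd ω) (pr ω fun j => KFacts.ChevTwo.nel e (sr j)) ∧
        γ (pr ω fun j => KFacts.ChevTwo.nel e (sr j)) = pr (ω.map σ) fun j => KFacts.ChevTwo.nel e (sr j) := by
      intro ω
      refine ⟨nJ_rp S ω, ?_⟩
      unfold pr
      rw [map_list_prod, List.map_map, List.map_map]
      congr 1
      exact List.map_congr_left fun j _ => hγ.nel j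
    obtain ⟨h2, h3⟩ := key ω
    have h4 : k = (pr ω fun j => KFacts.ChevTwo.nel e (sr j)) * ((pr ω fun j => KFacts.ChevTwo.nel e (sr j))⁻¹ * k) := by group
    rw [h4, map_mul, h3]
    exact (nJ_rp S (ω.map σ)).mul_mem_right (hγ.map_T S hG1 (h2.unique hk))
  rep' w a ha := by
    obtain ⟨ω, hω, h1⟩ := th_spec (cs := cs) σ w
    rw [h1, rep_comp hγ.invol hγ.cart, hω]
  neg a := rfl

omit hγ S in
/-- products over permuted lists -/
theorem pr_perm {J J' : List I} (hp : J'.Perm J) {f : I → Y} (hc : CommL J f f) : pr J' f = pr J f := by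
  unfold pr
  refine List.Perm.prod_eq' (hp.map f) ?_
  rw [List.pairwise_map]
  have h1 : ∀ i ∈ J', ∀ j ∈ J', Commute (f i) (f j) := by
    intro i hi j hj
    by_cases hij : i = j
    · rw [hij]
    · exact hc i (hp.subset hi) j (hp.subset hj) hij
  exact List.pairwise_iff_forall_sublist.2 fun {a b} hab =>
    h1 a (hab.subset (by simp)) b (hab.subset (by simp))

include S in
theorem Gra.pr {J : List I} (hJ : Orth cs h J) (hJσ : (J.map σ).Perm J) {f : I → Y} (hf : ∀ j ∈ J, f j ∈ SS X j)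
    (hfγ : ∀ j, γ (f j) = f (σ j)) : γ (pr J f) = pr J f := by
  have h1 : γ (Gen.pr J f) = Gen.pr (J.map σ) f := by
    unfold Gen.pr
    rw [map_list_prod, List.map_map, List.map_map]
    congr 1
    exact List.map_congr_left fun j _ => hfγ j
  rw [h1]
  exact pr_perm hJσ (commL S hJ hf hf)

end

/-! ### Admissibility -/

section

variable [Finite W] [Finite Y] [Finite K] {R : RGD cs h 2 T n X} (S : Sys R e) {J : List I} (hJ : Orth cs h J)
  (hG1 : RGD.Sup X {x | IsRoot cs h x} = ⊤) (hN : NoCent cs h T X)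

theorem cent_of_inv {φ : MulAut Y} {t : Y} (ht : φ t = t⁻¹ ∨ φ t = t) {z : Y} (hz : z ∈ Subgroup.centralizer {t}) :
    φ z ∈ Subgroup.centralizer {t} := by
  rw [Subgroup.mem_centralizer_singleton_iff] at hz ⊢
  have h1 : φ z * φ t = φ t * φ z := by rw [← map_mul, ← map_mul, hz]
  rcases ht with ht | ht
  · rw [ht] at h1
    have h2 : Commute (φ z) t⁻¹ := h1
    exact (Commute.inv_right_iff.1 h2).eq
  · rwa [ht] at h1

omit [Finite W] [Finite Y] [Finite K] in
theorem mem_top_fix {v z : Y} : z ∈ (⊤ : Subgroup Y) ⊓ FixA (MulAut.conj v) ↔ z * v = v * z := by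
  rw [top_inf_eq, mem_FixA, MulAut.conj_apply, mul_inv_eq_iff_eq_mul]
  exact eq_comm

include S hJ hG1 hN

theorem adm_v {c : K} (hc : c ≠ 0) (hc2 : c ^ (2 : ℤ) ≠ 1) :
    Adm2 R (chS e) (pr J fun j => hel e (sr j) c) (⊤ ⊓ FixA (MulAut.conj (pr J fun j => nel e (sr j)))) := by
  have : Fact (Nat.Prime 2) := ⟨Nat.prime_two⟩
  have C := coords S hG1
  have htT := tJ_mem S hG1 hc J
  have hvt : MulAut.conj (pr J fun j => nel e (sr j)) (pr J fun j => hel e (sr j) c) =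
      (pr J fun j => hel e (sr j) c)⁻¹ := by
    rw [MulAut.conj_apply, nJ_tJ S hJ hG1 hN hc, tJ_inv S hJ hG1 hN hc]
  refine Adm2.fix C htT (frA_conj (nJ_rp S J)) (fun z hz => cent_of_inv (Or.inl hvt) hz) ?_ ?_ (Adm2.top C htT)
    (fun _ _ => Subgroup.mem_top _) ⟨1, ?_⟩
  · intro a ha h0
    exact nonneg_conv hJ ha.1 (fun j hj h1 => sr_not_mem_Sx S hJ hG1 hc hc2 hj (h1 ▸ ha)) h0
  · intro a ha h0
    exact nonpos_conv hJ ha.1 (fun j hj h1 => neg_sr_not_mem_Sx S hJ hG1 hc hc2 hj (h1 ▸ ha)) h0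
  · intro z _
    rw [pow_one, pow_two, ← map_mul, nJ_sq S hJ, map_one, MulAut.one_apply]

omit [Finite Y] [Finite K] hN in
/-- automorphisms of order 2 -/
theorem Gra.sq {γ : MulAut Y} {σ : I → I} (hγ : Gra cs h e γ σ) : γ * γ = 1 := by
  have h1 : (RGD.Sup X {x | IsRoot cs h x}) ≤ FixA (γ * γ) := by
    refine RGD.Sup_le fun y hy u hu => ?_
    obtain ⟨c, rfl⟩ := (S.mem_X y hy u).1 hu
    show γ (γ (e y c)) = e y c
    rw [hγ.map y hy, hγ.map _ (hγ.root hy)]
    congr 1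
    funext k
    show y (σ (σ k)) = y k
    rw [hγ.invol]
  rw [hG1] at h1
  exact MulEquiv.ext fun z => h1 (Subgroup.mem_top z)

/-- adding a graph automorphism -/
theorem adm_gra {γ : MulAut Y} {σ : I → I} (hγ : Gra cs h e γ σ) (hJσ : (J.map σ).Perm J) {c : K} (hc : c ≠ 0)
    {L : Subgroup Y} (hL : Adm2 R (chS e) (pr J fun j => hel e (sr j) c) L) (hγL : ∀ z ∈ L, γ z ∈ L) :
    Adm2 R (chS e) (pr J fun j => hel e (sr j) c) (L ⊓ FixA γ) := by
  have : Fact (Nat.Prime 2) := ⟨Nat.prime_two⟩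
  have C := coords S hG1
  have htT := tJ_mem S hG1 hc J
  have hγt : γ (pr J fun j => hel e (sr j) c) = pr J fun j => hel e (sr j) c :=
    hγ.pr S hJ hJσ (fun j _ => hel_memS S j c) fun j => hγ.hel j c
  refine Adm2.fix C htT (hγ.frA S hG1) (fun z hz => cent_of_inv (Or.inr hγt) hz) ?_ ?_ hL hγL ⟨1, ?_⟩
  · intro a _ h0 k
    exact h0 (σ k)
  · intro a _ h0 k
    exact h0 (σ k)
  · intro z _
    rw [pow_one, pow_two, Gra.sq S hJ hG1 hγ, MulAut.one_apply]

/-- **`q ≥ 4`: `C(nJ) ∩ C(tJ) ∩ Fix γ` has no nontrivial normal 2-subgroup.** -/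
theorem o2_big_gra {γ : MulAut Y} {σ : I → I} (hγ : Gra cs h e γ σ) (hJσ : (J.map σ).Perm J) {l : ℕ} (hl : l.Prime)
    (hl2 : l ≠ 2) {c : K} (hc : c ≠ 0) (hc1 : c ≠ 1) (hcl : c ^ l = 1) {N : Subgroup Y} (hNp : IsPGroup 2 N)
    (hNH : N ≤ Subgroup.centralizer {pr J fun j => nel e (sr j)} ⊓ Subgroup.centralizer {pr J fun j => hel e (sr j) c})
    (hNγ : ∀ z ∈ N, γ z = z)
    (hn : ∀ g ∈ Subgroup.centralizer {pr J fun j => nel e (sr j)} ⊓ Subgroup.centralizer {pr J fun j => hel e (sr j) c},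
      γ g = g → ∀ z ∈ N, g * z * g⁻¹ ∈ N) : N = ⊥ := by
  have : Fact (Nat.Prime 2) := ⟨Nat.prime_two⟩
  have C := coords S hG1
  have htT := tJ_mem S hG1 hc J
  have hc2 : c ^ (2 : ℤ) ≠ 1 := by
    intro h0
    have h1 : c ^ 2 = 1 := by exact_mod_cast h0
    exact hc1 (orderOf_eq_one_iff.1 (Nat.eq_one_of_dvd_coprimes ((Nat.coprime_primes hl Nat.prime_two).2 hl2)
      (orderOf_dvd_of_pow_eq_one hcl) (orderOf_dvd_of_pow_eq_one h1)))
  have hγv : γ (pr J fun j => nel e (sr j)) = pr J fun j => nel e (sr j) :=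
    hγ.pr S hJ hJσ (fun j _ => nel_mem S j) fun j => hγ.nel j
  have hA := adm_gra S hJ hG1 hN hγ hJσ hc (adm_v S hJ hG1 hN hc hc2) fun z hz => by
    rw [mem_top_fix] at hz ⊢
    have h1 := congrArg γ hz
    rwa [map_mul, map_mul, hγv] at h1
  refine hA.eq_bot C htT (chAdd S) hl hl2 ?_ (GG_eq_top (T := T) hG1) hNp (fun z hz => ?_) ?_
  · intro a ha
    rw [chi_tJ S hG1 ha hc, ← zpow_natCast, ← zpow_mul, mul_comm, zpow_mul, zpow_natCast, hcl, one_zpow]
  · obtain ⟨h1, h2⟩ := hNH hz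
    exact ⟨⟨mem_top_fix.2 (Subgroup.mem_centralizer_singleton_iff.1 h1), hNγ z hz⟩, h2⟩
  · rintro g ⟨⟨h1, h2⟩, h3⟩ z hz
    exact hn g ⟨Subgroup.mem_centralizer_singleton_iff.2 (mem_top_fix.1 h1), h3⟩ h2 z hz

/-- **`q = 2`: in the fixed points of `α` and `γ`, `C(nJ) ∩ C(xJ)` has no nontrivial normal 2-subgroup.** -/
theorem o2_two_gra {α : MulAut Y} (hα : Frb cs h e α) {ζ : K} (hζ : ζ ^ 2 = ζ + 1) {γ : MulAut Y} {σ : I → I}
    (hγ : Gra cs h e γ σ) (hJσ : (J.map σ).Perm J) {N : Subgroup Y} (hNp : IsPGroup 2 N)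
    (hNH : N ≤ FixA α ⊓ (Subgroup.centralizer {pr J fun j => nel e (sr j)} ⊓ Subgroup.centralizer {pr J (xl e)}))
    (hNγ : ∀ z ∈ N, γ z = z)
    (hn : ∀ g ∈ FixA α ⊓ (Subgroup.centralizer {pr J fun j => nel e (sr j)} ⊓ Subgroup.centralizer {pr J (xl e)}),
      γ g = g → ∀ z ∈ N, g * z * g⁻¹ ∈ N) : N = ⊥ := by
  have : Fact (Nat.Prime 2) := ⟨Nat.prime_two⟩
  have hζ0 : ζ ≠ 0 := by
    rintro rfl
    rw [zero_pow two_ne_zero, zero_add] at hζ
    exact zero_ne_one hζ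
  have h2K : (2 : K) = 0 := by
    have := S.data.two (1 : K)
    rwa [one_add_one_eq_two] at this
  have hζ3 : ζ ^ 3 = 1 := by linear_combination (ζ + 1) * hζ + ζ * h2K
  have hζi : ζ ^ 2 = ζ⁻¹ := eq_inv_of_mul_eq_one_left (by linear_combination hζ3)
  have hc2 : ζ ^ (2 : ℤ) ≠ 1 := by
    intro h0
    have h1 : ζ ^ 2 = 1 := by exact_mod_cast h0
    exact hζ0 (by linear_combination h1 - hζ)
  have hαt := map_tJ S hJ hG1 hN hα hζ0 hζi
  have hγv : γ (pr J fun j => nel e (sr j)) = pr J fun j => nel e (sr j) :=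
    hγ.pr S hJ hJσ (fun j _ => nel_mem S j) fun j => hγ.nel j
  have hγa : γ (pr J (al e ζ)) = pr J (al e ζ) := by
    refine hγ.pr S hJ hJσ (fun j _ => al_mem S ζ j) fun j => ?_
    unfold al
    rw [map_mul, map_mul, hγ.map _ (isRoot_sr cs h j), hγ.map _ (isRoot_sr cs h j).neg, sr_comp hγ.invol]
    have : (fun k => (-sr j : I → ℤ) (σ k)) = -sr (σ j) := by
      rw [← sr_comp hγ.invol]; rfl
    rw [this]
  set v : Y := pr J fun j => nel e (sr j) with hv
  set t : Y := pr J fun j => hel e (sr j) ζ with ht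
  set a : Y := pr J (al e ζ) with ha
  set x : Y := pr J (xl e) with hx
  have ha2 : a * a = 1 := alJ_sq S hJ ζ
  have hv2 : v * v = 1 := nJ_sq S hJ
  have hav : a * v = v * a := alJ_nJ S hJ hζ
  have hαa : α a = a * v := map_alJ S hJ hα hζ
  have hαv : α v = v := map_nJ hα
  have haxa : a * x * a = t := alJ_xlJ S hJ hG1 hN hζ
  have hata : a * t * a = x := by
    rw [← haxa]
    calc a * (a * x * a) * a = (a * a) * x * (a * a) := by group
      _ = x := by rw [ha2, one_mul, mul_one]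
  have C := coords S hG1
  have htT : t ∈ T := tJ_mem S hG1 hζ0 J
  have hα2 : ∀ z, α (α z) = z := by
    intro z
    have h1 : (RGD.Sup X {x | IsRoot cs h x}) ≤ FixA (α * α) := by
      refine RGD.Sup_le fun y hy u hu => ?_
      obtain ⟨c, rfl⟩ := (S.mem_X y hy u).1 hu
      show α (α (e y c)) = e y c
      rw [hα.map y hy, hα.map y hy, ← pow_mul, hα.four]
    rw [hG1] at h1
    exact h1 (Subgroup.mem_top z)
  have hαγ : ∀ z, α (γ z) = γ (α z) := by
    intro z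
    have h1 : (RGD.Sup X {x | IsRoot cs h x}) ≤ FixA ((γ * α)⁻¹ * (α * γ)) := by
      refine RGD.Sup_le fun y hy u hu => ?_
      obtain ⟨c, rfl⟩ := (S.mem_X y hy u).1 hu
      have h2 : (α * γ) (e y c) = (γ * α) (e y c) := by
        show α (γ (e y c)) = γ (α (e y c))
        rw [hγ.map y hy, hα.map _ (hγ.root hy), hα.map y hy, hγ.map y hy]
      show (γ * α)⁻¹ ((α * γ) (e y c)) = e y c
      rw [h2, MulAut.inv_apply_self]
    rw [hG1] at h1
    have h2 : (γ * α)⁻¹ ((α * γ) z) = z := h1 (Subgroup.mem_top z)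
    have h3 := congrArg (γ * α) h2
    rwa [MulAut.apply_inv_self] at h3
  have hB : Adm2 R (chS e) t ((⊤ ⊓ FixA (MulAut.conj v)) ⊓ FixA α) := by
    refine Adm2.fix C htT (hα.frA S hG1) (fun z hz => cent_of_inv (Or.inl hαt) hz) (fun _ _ h0 => h0)
      (fun _ _ h0 => h0) (adm_v S hJ hG1 hN hζ0 hc2) ?_ ⟨1, ?_⟩
    · intro z hz
      rw [mem_top_fix] at hz ⊢
      have h1 := congrArg α hz
      rwa [map_mul, map_mul, hαv] at h1
    · intro z _
      rw [pow_one, pow_two, MulAut.mul_apply, hα2]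
  have hB' := adm_gra S hJ hG1 hN hγ hJσ hζ0 hB (by
    rintro z ⟨h1, h2⟩
    refine ⟨?_, ?_⟩
    · have h1' : z * v = v * z := mem_top_fix.1 h1
      have h3 := congrArg γ h1'
      rw [map_mul, map_mul, hγv] at h3
      exact mem_top_fix.2 h3
    · show α (γ z) = γ z
      rw [hαγ, (h2 : α z = z)])
  -- conjugation by `a`
  have key : ∀ z s, z ∈ FixA α → z * v = v * z → z * s = s * z → γ z = z →
      α (a * z * a) = a * z * a ∧ (a * z * a) * v = v * (a * z * a) ∧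
        (a * z * a) * (a * s * a) = (a * s * a) * (a * z * a) ∧ γ (a * z * a) = a * z * a := by
    intro z s h1 h2 h3 h4
    refine ⟨conj_fix hv2 hav hαa h1 h2, ?_, conj_comm ha2 h3, by rw [map_mul, map_mul, hγa, h4]⟩
    calc a * z * a * v = a * z * (a * v) := by group
      _ = a * (z * v) * a := by rw [hav]; group
      _ = a * (v * z) * a := by rw [h2]
      _ = (a * v) * z * a := by group
      _ = v * (a * z * a) := by rw [hav]; group
  have hconj : ∀ z : Y, MulAut.conj a z = a * z * a := by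
    intro z
    rw [MulAut.conj_apply, inv_eq_of_mul_eq_one_right ha2]
  have h0 : N.map (MulAut.conj a).toMonoidHom = ⊥ := by
    refine hB'.eq_bot C htT (chAdd S) Nat.prime_three (by norm_num) ?_ (GG_eq_top (T := T) hG1) (hNp.map _) ?_ ?_
    · intro b hb
      rw [ht, chi_tJ S hG1 hb hζ0, ← zpow_natCast, ← zpow_mul, mul_comm, zpow_mul, zpow_natCast, hζ3, one_zpow]
    · rintro _ ⟨z, hz, rfl⟩
      obtain ⟨h1, h2, h3⟩ := hNH hz
      obtain ⟨h4, h5, h6, h7⟩ := key z x h1 (Subgroup.mem_centralizer_singleton_iff.1 h2)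
        (Subgroup.mem_centralizer_singleton_iff.1 h3) (hNγ z hz)
      rw [haxa] at h6
      show MulAut.conj a z ∈ _
      rw [hconj]
      exact ⟨⟨⟨mem_top_fix.2 h5, h4⟩, h7⟩, Subgroup.mem_centralizer_singleton_iff.2 h6⟩
    · rintro g ⟨⟨⟨h1, h2⟩, h2'⟩, h3⟩ _ ⟨z, hz, rfl⟩
      have h1' : g * v = v * g := mem_top_fix.1 h1
      obtain ⟨h4, h5, h6, h6'⟩ := key g t h2 h1' (Subgroup.mem_centralizer_singleton_iff.1 h3) h2'
      rw [hata] at h6
      have h7 := hn (a * g * a) ⟨h4, Subgroup.mem_centralizer_singleton_iff.2 h5,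
        Subgroup.mem_centralizer_singleton_iff.2 h6⟩ h6' z hz
      refine ⟨_, h7, ?_⟩
      show MulAut.conj a _ = g * MulAut.conj a z * g⁻¹
      have hai : a⁻¹ = a := inv_eq_of_mul_eq_one_right ha2
      rw [hconj, hconj]
      calc a * (a * g * a * z * (a * g * a)⁻¹) * a = (a * a) * g * (a * z * a⁻¹) * g⁻¹ * (a⁻¹ * a) := by group
        _ = g * (a * z * a) * g⁻¹ := by rw [ha2, hai, ha2, one_mul, mul_one]
  rw [Subgroup.map_eq_bot_iff_of_injective _ (MulEquiv.injective _)] at h0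
  exact h0

end

end Cfsg.Agent.H737.SK.Gen
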