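import Cfsg.Agent.H737.SK.Two

/-!
# S3010, characteristic two, `q = 2`: the involutions `∏ e (sr j) 1` are good (helper737)
-/

set_option autoImplicit false
set_option linter.unusedSectionVars false

namespace Cfsg.Agent.H737.SK.Gen

open CoxeterSystem Cfsg.Agent.ChevalleyStructure.CoxeterGeom Cfsg.Agent.Tits.Roots Cfsg.Agent.Tits.Core
  Cfsg.Agent.Tits.Exchange Cfsg.Agent.Nodes.Reps Cfsg.Agent.Nodes.BNOf Cfsg.Agent.Nodes.StabComb
  Cfsg.Agent.Nodes.Bruhat Cfsg.Agent.Nodes.OppDec Cfsg.Agent.Nodes.LeviDec Cfsg.Agent.Nodes.NormalForm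
  Cfsg.Agent.Nodes.Coroot Cfsg.Agent.Nodes.Comb
  Cfsg.Agent.KFacts.RgdField Cfsg.Agent.BpExc.TorCent Cfsg.Agent.KFacts.RgdOpp Cfsg.Agent.KFacts.RgdCent
  Cfsg.Agent.KFacts.ChevTwo Cfsg.Agent.KFacts.RgdSys Cfsg.Agent.H737.SK.O2 Cfsg.Agent.H282.SK
  Cfsg.Agent.KFacts.RgdRigid

variable {I W Y K : Type*} [Fintype I] [DecidableEq I] [Group W] [Group Y] [Field K] {M : CoxeterMatrix I}
variable {cs : CoxeterSystem M W} {A : I → I → ℤ} {h : IsCartan M A} {e : (I → ℤ) → K → Y}
  {T : Subgroup Y} {n : I → Y} {X : (I → ℤ) → Subgroup Y}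
variable {Y' K' : Type*} [Group Y'] [Field K'] {e' : (I → ℤ) → K' → Y'}
  {T' : Subgroup Y'} {n' : I → Y'} {X' : (I → ℤ) → Subgroup Y'}

/-- `xl` is inverted by `nel` -/
theorem nJ_xlJ [Finite W] {R : RGD cs h 2 T n X} (S : Sys R e) {J : List I} (hJ : Orth cs h J) :
    pr J (fun j => nel e (sr j)) * pr J (xl e) * (pr J fun j => nel e (sr j))⁻¹ = (pr J (xl e))⁻¹ := by
  rw [pr_conj hJ.nodup (commL S hJ (fun j _ => nel_mem S j) fun j _ => xl_mem S j)
    (commL S hJ (fun j _ => nel_mem S j) fun j _ => nel_mem S j),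
    pr_inv hJ.nodup (commL S hJ (fun j _ => xl_mem S j) fun j _ => xl_mem S j)]
  refine pr_congr fun j _ => ?_
  have hr := isRoot_sr cs h j
  have h1 := S.data.refl j _ hr 1
  have h2 := S.data.refl j _ hr.neg 1
  rw [rep_simple_sr] at h1
  rw [map_neg, rep_simple_sr, neg_neg] at h2
  unfold xl
  rw [mul_inv_rev, S.data.inv hr, S.data.inv hr.neg]
  calc nel e (sr j) * (e (sr j) 1 * e (-sr j) 1) * (nel e (sr j))⁻¹ =
      (nel e (sr j) * e (sr j) 1 * (nel e (sr j))⁻¹) * (nel e (sr j) * e (-sr j) 1 * (nel e (sr j))⁻¹) := by group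
    _ = _ := by rw [h1, h2]

/-- **`q = 2`: `∏ e (sr j) 1` is good, given the condition on outer automorphisms.** `Y` is the group over the field
of two elements, `Y'` the group over the field of four elements. -/
theorem good_two [Finite W] [Finite Y'] [Finite K'] {R : RGD cs h 2 T n X} (S : Sys R e) {J : List I}
    (hJ : Orth cs h J) {R' : RGD cs h 2 T' n' X'} (S' : Sys R' e') (hG1 : RGD.Sup X' {x | IsRoot cs h x} = ⊤)
    (hN : NoCent cs h T' X') {α : MulAut Y'} (hα : Frb cs h e' α) {ζ : K'} (hζ : ζ ^ 2 = ζ + 1)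
    {f : Y →* Y'} (hf : Function.Injective f) (hfe : ∀ x, IsRoot cs h x → f (e x 1) = e' x 1)
    (hfα : ∀ y, α (f y) = f y)
    (hout : ∀ α : MulAut Y, α * α = 1 → α (pr J fun j => nel e (sr j)) = pr J (fun j => nel e (sr j)) →
      α (pr J (xl e)) = pr J (xl e) →
      (∀ z ∈ Subgroup.centralizer {pr J fun j => nel e (sr j)} ⊓ Subgroup.centralizer {pr J (xl e)}, α z = z) →
      ∃ g, α = MulAut.conj g) :
    Good (pr J fun j => e (sr j) 1) := by
  have hrange : ∀ y ∈ FixA α, ∃ x, f x = y := by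
    intro y hy
    rw [hα.fix_eq S' hG1 hN] at hy
    have h1 : E1 cs h e' ≤ f.range := by
      unfold E1
      rw [Subgroup.closure_le]
      rintro _ ⟨x, hx, rfl⟩
      exact ⟨e x 1, hfe x hx⟩
    exact h1 hy
  have hfn : ∀ j, f (nel e (sr j)) = nel e' (sr j) := by
    intro j
    rw [nel_def, nel_def, map_mul, map_mul, hfe _ (isRoot_sr cs h j), hfe _ (isRoot_sr cs h j).neg]
  have hfx : ∀ j, f (xl e j) = xl e' j := by
    intro j
    unfold xl
    rw [map_mul, hfe _ (isRoot_sr cs h j), hfe _ (isRoot_sr cs h j).neg]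
  have hv : f (pr J fun j => nel e (sr j)) = pr J fun j => nel e' (sr j) := by
    rw [pr_map]; exact pr_congr fun j _ => hfn j
  have hx : f (pr J (xl e)) = pr J (xl e') := by
    rw [pr_map]; exact pr_congr fun j _ => hfx j
  have h1 : Good (pr J fun j => nel e (sr j)) := by
    refine ⟨pr J (xl e), ?_, nJ_xlJ S hJ, ?_, hout⟩
    · -- the order is odd
      have hζ0 : ζ ≠ 0 := by
        rintro rfl
        rw [zero_pow two_ne_zero, zero_add] at hζ
        exact zero_ne_one hζ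
      have h2K : (2 : K') = 0 := by
        have := S'.data.two (1 : K')
        rwa [one_add_one_eq_two] at this
      have hζ3 : ζ ^ 3 = 1 := by linear_combination (ζ + 1) * hζ + ζ * h2K
      have h2 : (pr J (xl e')) ^ 3 = 1 := by
        have h3 := alJ_xlJ S' hJ hG1 hN hζ
        have h4 := alJ_sq S' hJ ζ
        have h5 : (pr J (al e' ζ))⁻¹ = pr J (al e' ζ) := inv_eq_of_mul_eq_one_right h4
        have h6 : pr J (xl e') = pr J (al e' ζ) * pr J (fun j => hel e' (sr j) ζ) * (pr J (al e' ζ))⁻¹ := by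
          rw [← h3, h5]
          calc pr J (xl e') = (pr J (al e' ζ) * pr J (al e' ζ)) * pr J (xl e') * (pr J (al e' ζ) * pr J (al e' ζ)) := by
                rw [h4, one_mul, mul_one]
            _ = _ := by group
        rw [h6, conj_pow, tJ_pow S' hJ hG1 hN hζ0, hζ3,
          pr_congr (g := fun _ => 1) fun j _ => hel_one S' hG1 hN j, pr_one, mul_one, mul_inv_cancel]
      have h3 : (pr J (xl e)) ^ 3 = 1 := by
        apply hf
        rw [map_pow, hx, h2, map_one]
      exact Odd.of_dvd_nat (by decide) (orderOf_dvd_of_pow_eq_one h3)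
    · intro N hNp hNc hNn
      have h2 : N.map f = ⊥ := by
        refine o2_two S' hJ hG1 hN hα hζ (hNp.map f) ?_ ?_
        · rintro _ ⟨z, hz, rfl⟩
          obtain ⟨h2, h3⟩ := mem_cc.1 (hNc hz)
          refine ⟨hfα z, Subgroup.mem_centralizer_singleton_iff.2 ?_, Subgroup.mem_centralizer_singleton_iff.2 ?_⟩
          · rw [← hv, ← map_mul, ← map_mul, h2]
          · rw [← hx, ← map_mul, ← map_mul, h3]
        · rintro g ⟨h2, h3, h4⟩ _ ⟨z, hz, rfl⟩
          obtain ⟨g, rfl⟩ := hrange g h2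
          refine ⟨g * z * g⁻¹, hNn g (mem_cc.2 ⟨hf ?_, hf ?_⟩) z hz, by rw [map_mul, map_mul, map_inv]⟩
          · rw [map_mul, map_mul, hv]
            exact Subgroup.mem_centralizer_singleton_iff.1 h3
          · rw [map_mul, map_mul, hx]
            exact Subgroup.mem_centralizer_singleton_iff.1 h4
      rwa [Subgroup.map_eq_bot_iff_of_injective _ hf] at h2
  have h2 := h1.conj (pr J (fun j => e (sr j) 1 * nel e (sr j)))⁻¹
  have h3 := nJ_conj S hJ
  rw [h3] at h2
  have h4 : ∀ a b : Y, a⁻¹ * (a * b * a⁻¹) * a⁻¹⁻¹ = b := fun a b => by group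
  rwa [h4] at h2

/-- `X b ≤ C(nJ) ∩ C(xJ)` for `b` orthogonal to `J`. -/
theorem perp_le_xl [Finite W] {R : RGD cs h 2 T n X} (S : Sys R e) {J : List I}
    {b : I → ℤ} (hb : IsRoot cs h b) (hbJ : ∀ j ∈ J, cpr cs h b (sr j) = 0) :
    X b ≤ Subgroup.centralizer {pr J fun j => nel e (sr j)} ⊓ Subgroup.centralizer {pr J (xl e)} := by
  intro z hz
  rw [Subgroup.mem_inf, Subgroup.mem_centralizer_singleton_iff, Subgroup.mem_centralizer_singleton_iff]
  exact ⟨(perp_comm S hb hbJ hz fun j _ => nel_mem S j).eq, (perp_comm S hb hbJ hz fun j _ => xl_mem S j).eq⟩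

end Cfsg.Agent.H737.SK.Gen
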