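import Cfsg.Agent.H737.SK.Gen
import Cfsg.Agent.H282.SK.Good
import Cfsg.Agent.KFacts.ChevTwoAut

/-!
# S3010, characteristic two, `q ≥ 4`: the involutions `∏ e (sr j) 1` are good (helper737)
-/

set_option autoImplicit false
set_option linter.unusedSectionVars false

namespace Cfsg.Agent.H737.SK.Gen

open CoxeterSystem Cfsg.Agent.ChevalleyStructure.CoxeterGeom Cfsg.Agent.Tits.Roots Cfsg.Agent.Tits.Core
  Cfsg.Agent.Tits.Exchange Cfsg.Agent.Nodes.Reps Cfsg.Agent.Nodes.BNOf Cfsg.Agent.Nodes.StabComb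
  Cfsg.Agent.Nodes.Bruhat Cfsg.Agent.Nodes.OppDec Cfsg.Agent.Nodes.LeviDec Cfsg.Agent.Nodes.NormalForm
  Cfsg.Agent.Nodes.Coroot Cfsg.Agent.Nodes.Comb
  Cfsg.Agent.KFacts.RgdField Cfsg.Agent.BpExc.TorCent Cfsg.Agent.KFacts.RgdOpp Cfsg.Agent.KFacts.RgdCent
  Cfsg.Agent.KFacts.ChevTwo Cfsg.Agent.KFacts.RgdSys Cfsg.Agent.H737.SK.O2 Cfsg.Agent.H282.SK
  Cfsg.Agent.KFacts.RgdRigid

variable {I W Y K : Type*} [Fintype I] [DecidableEq I] [Group W] [Group Y] [Field K] {M : CoxeterMatrix I}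
variable {cs : CoxeterSystem M W} {A : I → I → ℤ} {h : IsCartan M A} {e : (I → ℤ) → K → Y}
  {p : ℕ} {T : Subgroup Y} {n : I → Y} {X : (I → ℤ) → Subgroup Y}

/-- conjugation by a representative is a frame automorphism -/
theorem frA_conj {R : RGD cs h p T n X} [Finite W] {w' : W} {v : Y} (hv : Rp cs R.nsys w' v) :
    FrA R (MulAut.conj v) (fun a => rep cs h w' a) (fun w => w' * w * w'⁻¹) where
  root a ha := ha.act w'
  map a ha z hz := by
    have h1 := R.conj_rp hv ha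
    rw [← h1, MulAut.conj_apply]
    rw [mem_cj]
    have h2 : v⁻¹ * (v * z * v⁻¹) * v = z := by group
    rwa [h2]
  rp w k hk := (hv.mul hk).mul hv.inv
  rep' w a ha := by
    rw [rep_mul_apply, rep_mul_apply, rep_inv_apply]
  neg a := map_neg _ _

theorem nonneg_conv [Finite W] {J : List I} (hJ : Orth cs h J) {a : I → ℤ} (ha : IsRoot cs h a)
    (hne : ∀ j ∈ J, a ≠ sr j) (h0 : 0 ≤ a) : 0 ≤ rep cs h (cs.wordProd J) a :=
  wJ_nonneg hJ J (List.Sublist.refl J) ha hne h0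

theorem nonpos_conv [Finite W] {J : List I} (hJ : Orth cs h J) {a : I → ℤ} (ha : IsRoot cs h a)
    (hne : ∀ j ∈ J, a ≠ -sr j) (h0 : a ≤ 0) : rep cs h (cs.wordProd J) a ≤ 0 := by
  have h1 := nonneg_conv hJ ha.neg (fun j hj h2 => hne j hj (by rw [← h2, neg_neg])) (neg_nonneg.2 h0)
  rw [map_neg] at h1
  exact neg_nonneg.1 h1

/-- the sum of the Cartan numbers with `J` -/
theorem sum_self [Finite W] {J : List I} (hJ : Orth cs h J) {j : I} (hj : j ∈ J) :
    (J.map fun i => cpr cs h (sr j) (sr i)).sum = 2 := by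
  have key : ∀ J' : List I, J'.Sublist J → (J'.map fun i => cpr cs h (sr j) (sr i)).sum = if j ∈ J' then 2 else 0 := by
    intro J'
    induction J' with
    | nil => intro _; simp
    | cons i J' ih =>
      intro hs
      have hs' : J'.Sublist J := (List.sublist_cons_self i J').trans hs
      have hnd : (i :: J').Nodup := hs.nodup hJ.nodup
      rw [List.nodup_cons] at hnd
      rw [List.map_cons, List.sum_cons, ih hs']
      by_cases h1 : j = i
      · subst h1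
        rw [if_neg hnd.1, if_pos (by simp), add_zero, cpr_self cs h (isRoot_sr cs h j)]
      · rw [hJ.zero j hj i (hs.subset (by simp)) h1, zero_add]
        simp [h1]
  rw [key J (List.Sublist.refl J), if_pos hj]

section

variable [Finite W] [Finite Y] [Finite K] {R : RGD cs h 2 T n X} (S : Sys R e) {J : List I} (hJ : Orth cs h J)
  (hG1 : RGD.Sup X {x | IsRoot cs h x} = ⊤) (hN : NoCent cs h T X)

include S hJ hG1 in
theorem sr_not_mem_Sx {c : K} (hc : c ≠ 0) (hc2 : c ^ (2 : ℤ) ≠ 1) {j : I} (hj : j ∈ J) :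
    sr j ∉ Sx cs h (chS e) (pr J fun j => hel e (sr j) c) := by
  rintro ⟨h1, h2⟩
  rw [chi_tJ S hG1 h1 hc, sum_self hJ hj] at h2
  exact hc2 h2

include S hJ hG1 in
theorem neg_sr_not_mem_Sx {c : K} (hc : c ≠ 0) (hc2 : c ^ (2 : ℤ) ≠ 1) {j : I} (hj : j ∈ J) :
    -sr j ∉ Sx cs h (chS e) (pr J fun j => hel e (sr j) c) := by
  rintro ⟨h1, h2⟩
  have h3 : (J.map fun i => cpr cs h (-sr j) (sr i)).sum = -2 := by
    have key : ∀ J' : List I, (J'.map fun i => cpr cs h (-sr j) (sr i)).sum =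
        -(J'.map fun i => cpr cs h (sr j) (sr i)).sum := by
      intro J'
      induction J' with
      | nil => simp
      | cons i J' ih => rw [List.map_cons, List.map_cons, List.sum_cons, List.sum_cons, ih,
          cpr_neg cs h _ (isRoot_sr cs h i)]; ring
    rw [key, sum_self hJ hj]
  rw [chi_tJ S hG1 h1 hc, h3, zpow_neg, inv_eq_one] at h2
  exact hc2 h2

include S hJ hG1 hN in
/-- **`q ≥ 4`: `C(nJ) ∩ C(tJ)` has no nontrivial normal 2-subgroup.** -/
theorem o2_big {l : ℕ} (hl : l.Prime) (hl2 : l ≠ 2) {c : K} (hc : c ≠ 0) (hc1 : c ≠ 1) (hcl : c ^ l = 1)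
    {N : Subgroup Y} (hNp : IsPGroup 2 N)
    (hNH : N ≤ Subgroup.centralizer {pr J fun j => nel e (sr j)} ⊓ Subgroup.centralizer {pr J fun j => hel e (sr j) c})
    (hn : ∀ g ∈ Subgroup.centralizer {pr J fun j => nel e (sr j)} ⊓ Subgroup.centralizer {pr J fun j => hel e (sr j) c},
      ∀ z ∈ N, g * z * g⁻¹ ∈ N) : N = ⊥ := by
  have : Fact (Nat.Prime 2) := ⟨Nat.prime_two⟩
  set v : Y := pr J fun j => nel e (sr j) with hv
  set t : Y := pr J fun j => hel e (sr j) c with ht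
  have C := coords S hG1
  have htT : t ∈ T := tJ_mem S hG1 hc J
  have hc2 : c ^ (2 : ℤ) ≠ 1 := by
    intro h0
    have h1 : c ^ 2 = 1 := by exact_mod_cast h0
    exact hc1 (orderOf_eq_one_iff.1 (Nat.eq_one_of_dvd_coprimes ((Nat.coprime_primes hl Nat.prime_two).2 hl2)
      (orderOf_dvd_of_pow_eq_one hcl) (orderOf_dvd_of_pow_eq_one h1)))
  have hvt : v * t * v⁻¹ = t⁻¹ := by
    rw [hv, ht, nJ_tJ S hJ hG1 hN hc, tJ_inv S hJ hG1 hN hc]
  have hcen : ∀ z ∈ Subgroup.centralizer {t}, MulAut.conj v z ∈ Subgroup.centralizer {t} := by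
    intro z hz
    rw [Subgroup.mem_centralizer_singleton_iff] at hz ⊢
    rw [MulAut.conj_apply]
    have h1 : Commute (v * z * v⁻¹) t⁻¹ := by
      rw [← hvt]
      show v * z * v⁻¹ * (v * t * v⁻¹) = v * t * v⁻¹ * (v * z * v⁻¹)
      calc v * z * v⁻¹ * (v * t * v⁻¹) = v * (z * t) * v⁻¹ := by group
        _ = v * (t * z) * v⁻¹ := by rw [hz]
        _ = v * t * v⁻¹ * (v * z * v⁻¹) := by group
    exact (Commute.inv_right_iff.1 h1).eq
  have hfix : (⊤ : Subgroup Y) ⊓ FixA (MulAut.conj v) = Subgroup.centralizer {v} := by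
    ext z
    rw [top_inf_eq, mem_FixA, Subgroup.mem_centralizer_singleton_iff, MulAut.conj_apply, mul_inv_eq_iff_eq_mul]
    exact eq_comm
  have hA : Adm2 R (chS e) t (⊤ ⊓ FixA (MulAut.conj v)) := by
    refine Adm2.fix C htT (frA_conj (nJ_rp S J)) hcen ?_ ?_ (Adm2.top C htT) (fun _ _ => Subgroup.mem_top _) ⟨1, ?_⟩
    · intro a ha h0
      exact nonneg_conv hJ ha.1 (fun j hj h1 => sr_not_mem_Sx S hJ hG1 hc hc2 hj (h1 ▸ ha)) h0
    · intro a ha h0
      exact nonpos_conv hJ ha.1 (fun j hj h1 => neg_sr_not_mem_Sx S hJ hG1 hc hc2 hj (h1 ▸ ha)) h0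
    · intro z _
      rw [pow_one, pow_two, ← map_mul, nJ_sq S hJ, map_one, MulAut.one_apply]
  rw [hfix] at hA
  refine hA.eq_bot C htT (chAdd S) hl hl2 ?_ (GG_eq_top (T := T) hG1) hNp hNH hn
  intro a ha
  rw [ht, chi_tJ S hG1 ha hc, ← zpow_natCast, ← zpow_mul, mul_comm, zpow_mul, zpow_natCast, hcl, one_zpow]

/-- an element of odd prime order -/
theorem exists_unit {K : Type*} [Field K] [Finite K] [CharP K 2] (hK : Nat.card K ≠ 2) :
    ∃ (l : ℕ) (c : K), l.Prime ∧ l ≠ 2 ∧ c ≠ 0 ∧ c ≠ 1 ∧ c ^ l = 1 := by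
  have h1 : 1 < Nat.card K := Finite.one_lt_card
  have h2 : Nat.card K - 1 ≠ 1 := by omega
  obtain ⟨l, hl, hd⟩ := Nat.exists_prime_and_dvd h2
  have hl2 : l ≠ 2 := by
    rintro rfl
    have := Fintype.ofFinite K
    obtain ⟨n, hn, h3⟩ := FiniteField.card K 2
    rw [Nat.card_eq_fintype_card] at hd h1
    have h4 : 2 ∣ Fintype.card K := by
      rw [h3]; exact dvd_pow_self 2 (PNat.ne_zero n)
    omega
  have : Fact l.Prime := ⟨hl⟩
  rw [← Nat.card_units] at hd
  obtain ⟨x, hx⟩ := exists_prime_orderOf_dvd_card' l hd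
  refine ⟨l, (x : K), hl, hl2, x.ne_zero, ?_, ?_⟩
  · intro h0
    have h3 : x = 1 := Units.ext h0
    rw [h3, orderOf_one] at hx
    exact hl.one_lt.ne hx
  · rw [← Units.val_pow_eq_pow_val, ← hx, pow_orderOf_eq_one, Units.val_one]

include S hJ hG1 hN in
/-- **`q ≥ 4`: `∏ e (sr j) 1` is good, given the condition on outer automorphisms.** -/
theorem good_big {l : ℕ} (hl : l.Prime) (hl2 : l ≠ 2) {c : K} (hc : c ≠ 0) (hc1 : c ≠ 1) (hcl : c ^ l = 1)
    (hout : ∀ α : MulAut Y, α * α = 1 → α (pr J fun j => nel e (sr j)) = pr J (fun j => nel e (sr j)) →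
      α (pr J fun j => hel e (sr j) c) = pr J (fun j => hel e (sr j) c) →
      (∀ z ∈ Subgroup.centralizer {pr J fun j => nel e (sr j)} ⊓
        Subgroup.centralizer {pr J fun j => hel e (sr j) c}, α z = z) → ∃ g, α = MulAut.conj g) :
    Good (pr J fun j => e (sr j) 1) := by
  have h1 : Good (pr J fun j => nel e (sr j)) := by
    refine ⟨pr J fun j => hel e (sr j) c, ?_, ?_, ?_, hout⟩
    · have h2 : orderOf (pr J fun j => hel e (sr j) c) ∣ l := by
        refine orderOf_dvd_of_pow_eq_one ?_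
        rw [tJ_pow S hJ hG1 hN hc, hcl, pr_congr (g := fun _ => 1) fun j _ => hel_one S hG1 hN j, pr_one]
      exact Odd.of_dvd_nat (hl.odd_of_ne_two hl2) h2
    · rw [nJ_tJ S hJ hG1 hN hc, tJ_inv S hJ hG1 hN hc]
    · intro N h2 h3 h4
      exact o2_big S hJ hG1 hN hl hl2 hc hc1 hcl h2 h3 h4
  have h2 := h1.conj (pr J (fun j => e (sr j) 1 * nel e (sr j)))⁻¹
  have h3 := nJ_conj S hJ
  rw [h3] at h2
  have h4 : ∀ a b : Y, a⁻¹ * (a * b * a⁻¹) * a⁻¹⁻¹ = b := fun a b => by group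
  rwa [h4] at h2

omit [Finite Y] [Finite K] in
include S in
/-- A root group orthogonal to `J` commutes with the products over `J`. -/
theorem perp_comm {b : I → ℤ} (hb : IsRoot cs h b) (hbJ : ∀ j ∈ J, cpr cs h b (sr j) = 0) {z : Y} (hz : z ∈ X b)
    {f : I → Y} (hf : ∀ j ∈ J, f j ∈ SS X j) : Commute z (pr J f) := by
  refine commute_pr fun j hj => ?_
  obtain ⟨s, rfl⟩ := (S.mem_X b hb z).1 hz
  have h1 : SS X j ≤ Subgroup.centralizer {e b s} := by
    have hrj := isRoot_sr cs h j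
    refine sup_le ?_ ?_
    · intro y hy
      obtain ⟨u, rfl⟩ := (S.mem_X _ hrj y).1 hy
      rw [Subgroup.mem_centralizer_singleton_iff]
      exact (S.data.comm_of_nonneg hb hrj (le_of_eq (hbJ j hj).symm) s u).symm
    · intro y hy
      obtain ⟨u, rfl⟩ := (S.mem_X _ hrj.neg y).1 hy
      rw [Subgroup.mem_centralizer_singleton_iff]
      exact (S.data.comm_of_nonneg hb hrj.neg (le_of_eq (by rw [cpr_neg_right cs h _ hrj, hbJ j hj, neg_zero])) s u).symm
  exact (Subgroup.mem_centralizer_singleton_iff.1 (h1 (hf j hj))).symm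

include S in
/-- `X b ≤ C(nJ) ∩ C(tJ)` for `b` orthogonal to `J`. -/
theorem perp_le {b : I → ℤ} (hb : IsRoot cs h b) (hbJ : ∀ j ∈ J, cpr cs h b (sr j) = 0) (c : K) :
    X b ≤ Subgroup.centralizer {pr J fun j => nel e (sr j)} ⊓
      Subgroup.centralizer {pr J fun j => hel e (sr j) c} := by
  intro z hz
  rw [Subgroup.mem_inf, Subgroup.mem_centralizer_singleton_iff, Subgroup.mem_centralizer_singleton_iff]
  exact ⟨(perp_comm S hb hbJ hz fun j _ => nel_mem S j).eq, (perp_comm S hb hbJ hz fun j _ => hel_memS S j c).eq⟩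

end

end Cfsg.Agent.H737.SK.Gen
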