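import Cfsg.Agent.H737.SK.GoodTwo
import Cfsg.Agent.KFacts.ChevTwoSysInst
import Cfsg.Agent.KFacts.ChevTwoInstE
import Cfsg.Agent.ChevalleyStructure.FieldIso
import Cfsg.Agent.S1054
import Mathlib.FieldTheory.Finite.Extension

/-!
# S3010, characteristic two: the groups `D.group K` (helper737)

* `baseChange`, `frob` : the base change homomorphism and the field automorphism on root elements;
* `good_chev` : `∏ e (sr j) 1` is good in `D.group K`, given the condition on outer automorphisms;
* `htor_of` : all characters of the simple roots, from the inverse Cartan matrix.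
-/

set_option autoImplicit false
set_option linter.unusedSectionVars false

namespace Cfsg.Agent.H737.SK.Chev

open CoxeterSystem Cfsg.Agent.ChevalleyStructure.CoxeterGeom Cfsg.Agent.Tits.Roots Cfsg.Agent.Tits.Core
  Cfsg.Agent.Tits.Exchange Cfsg.Agent.Nodes.Reps Cfsg.Agent.Nodes.BNOf Cfsg.Agent.Nodes.Coroot Cfsg.Agent.Nodes.Comb
  Cfsg.Agent.KFacts.RgdField Cfsg.Agent.KFacts.RgdCent Cfsg.Agent.KFacts.ChevTwo Cfsg.Agent.KFacts.RgdSys
  Cfsg.Agent.KFacts.ChevTwoInst Cfsg.Agent.H737.SK.O2 Cfsg.Agent.H282.SK Cfsg.Agent.H737.SK.Gen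
open Cfsg.Lie Cfsg.Agent.ChevalleyStructure Cfsg.Agent.ChevalleyStructure.Elts
  Cfsg.Agent.ChevalleyStructure.RootVec Cfsg.Agent.ChevalleyStructure.FieldIso
  Cfsg.Agent.ChevalleyStructure.CoxeterGeomTypes
open Cfsg.Agent.Nodes Cfsg.Agent.Nodes.RGDChev

universe u v

variable {D : ChevalleyDatum} {l : ℕ} {M : CoxeterMatrix (Fin l)} (hp : IsType D l M)

theorem map_group_le (D : ChevalleyDatum) {F : Type u} {K : Type v} [Field F] [Field K] (φ : F →+* K) :
    (D.group F).map (Matrix.GeneralLinearGroup.map (n := D.Idx) φ) ≤ D.group K := by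
  rw [ChevalleyDatum.group, MonoidHom.map_closure, ChevalleyDatum.group]
  refine Subgroup.closure_mono ?_
  rintro _ ⟨h, ⟨r, t, hh⟩, rfl⟩
  refine ⟨r, φ t, ?_⟩
  change ((h : Matrix D.Idx D.Idx F)).map φ = _
  rw [hh]
  exact map_xMat D φ r t

/-- the base change homomorphism -/
noncomputable def baseChange (D : ChevalleyDatum) {F : Type u} {K : Type v} [Field F] [Field K] (φ : F →+* K) :
    ↥(D.group F) →* ↥(D.group K) :=
  ((Matrix.GeneralLinearGroup.map (n := D.Idx) φ).comp (D.group F).subtype).codRestrict (D.group K)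
    fun x => map_group_le D φ ⟨x, x.2, rfl⟩

theorem coe_baseChange {F : Type u} {K : Type v} [Field F] [Field K] (φ : F →+* K) (g : ↥(D.group F)) :
    (((baseChange D φ g : ↥(D.group K)) : GL D.Idx K) : Matrix D.Idx D.Idx K) =
      (((g : GL D.Idx F) : Matrix D.Idx D.Idx F)).map φ := rfl

theorem baseChange_injective (D : ChevalleyDatum) {F : Type u} {K : Type v} [Field F] [Field K] (φ : F →+* K) :
    Function.Injective (baseChange D φ) := by
  intro x y h
  have h1 := congrArg (fun g : ↥(D.group K) => ((g : GL D.Idx K) : Matrix D.Idx D.Idx K)) h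
  change (((x : GL D.Idx F) : Matrix D.Idx D.Idx F)).map φ = (((y : GL D.Idx F) : Matrix D.Idx D.Idx F)).map φ at h1
  apply Subtype.ext
  apply Units.ext
  exact Matrix.map_injective φ.injective h1

theorem coe_eg_vec {K : Type u} [Field K] {r : ℕ} (hr : r < D.nroots) (t : K) :
    (((eg hp K (vec D l r) t : ↥(D.group K)) : GL D.Idx K) : Matrix D.Idx D.Idx K) = D.xMat K ⟨r, hr⟩ t := by
  rw [coe_eg, ev_vec hp hr, coe_xG, x_of_lt hr]

theorem baseChange_eg {F : Type u} {K : Type v} [Field F] [Field K] (φ : F →+* K) {W : Type*} [Group W]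
    (cs : CoxeterSystem M W) {x : Fin l → ℤ} (hx : IsRoot cs hp.isCartan x) (t : F) :
    baseChange D φ (eg hp F x t) = eg hp K x (φ t) := by
  obtain ⟨r, hr, rfl⟩ := (isRoot_iff hp cs x).1 hx
  apply Subtype.ext
  apply Units.ext
  rw [coe_baseChange, coe_eg_vec hp hr, coe_eg_vec hp hr]
  exact map_xMat D φ _ t

theorem groupEquiv_eg {K : Type u} [Field K] (φ : K ≃+* K) {W : Type*} [Group W]
    (cs : CoxeterSystem M W) {x : Fin l → ℤ} (hx : IsRoot cs hp.isCartan x) (t : K) :
    groupEquiv D φ (eg hp K x t) = eg hp K x (φ t) := by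
  obtain ⟨r, hr, rfl⟩ := (isRoot_iff hp cs x).1 hx
  apply Subtype.ext
  apply Units.ext
  change (((eg hp K (vec D l r) t : ↥(D.group K)) : GL D.Idx K) : Matrix D.Idx D.Idx K).map φ = _
  rw [coe_eg_vec hp hr, coe_eg_vec hp hr]
  exact map_xMat D (φ : K →+* K) _ t

section Two

variable {K : Type u} [Field K] [Finite K] [CharP K 2]

theorem noCent (hD : D ∈ [chevD4, chevF4, chevE6, chevE7, chevE8]) {W : Type*} [Group W] (cs : CoxeterSystem M W) :
    NoCent cs hp.isCartan ((D.diagonalSubgroup K).subgroupOf (D.group K))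
      (fun x => (XV D l K x).subgroupOf (D.group K)) := by
  have : Fact (Nat.Prime 2) := ⟨Nat.prime_two⟩
  have := finite_W hp cs
  refine Cfsg.Agent.KFacts.RgdCent.noCent_of_center (rgd (K := K) hp cs 2) (G1_eq_top hp _) ?_
  obtain ⟨hs, hna⟩ := Cfsg.Agent.S1054.result (F := K) D hD
  rcases (inferInstance : (Subgroup.center ↥(D.group K)).Normal).eq_bot_or_eq_top with h | h
  · exact h
  · exfalso
    apply hna
    refine ⟨⟨fun a b => ?_⟩⟩
    have : b ∈ Subgroup.center ↥(D.group K) := by rw [h]; exact Subgroup.mem_top b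
    rw [Subgroup.mem_center_iff] at this
    exact this a

end Two

/-- the field of four elements over a field of two elements -/
theorem exists_four {F : Type u} [Field F] [Finite F] [CharP F 2] (hF : Nat.card F = 2) :
    ∃ (K : Type) (_ : Field K) (_ : Finite K) (_ : CharP K 2) (_ : F →+* K) (ζ : K), ζ ^ 2 = ζ + 1 ∧
      (∀ a : K, a ^ 4 = a) := by
  have : Fact (Nat.Prime 2) := ⟨Nat.prime_two⟩
  have hch : CharP (FiniteField.Extension F 2 2) 2 :=
    charP_of_injective_algebraMap (algebraMap F (FiniteField.Extension F 2 2)).injective 2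
  have hcard : Nat.card (FiniteField.Extension F 2 2) = 4 := by
    rw [FiniteField.natCard_extension, hF]
    norm_num
  have h4 : ∀ a : FiniteField.Extension F 2 2, a ^ 4 = a := by
    intro a
    have := Fintype.ofFinite (FiniteField.Extension F 2 2)
    have h1 := FiniteField.pow_card a
    rwa [← Nat.card_eq_fintype_card, hcard] at h1
  obtain ⟨ζ, h0, h1⟩ : ∃ ζ : FiniteField.Extension F 2 2, ζ ≠ 0 ∧ ζ ≠ 1 := by
    classical
    by_contra hcon
    push Not at hcon
    have := Fintype.ofFinite (FiniteField.Extension F 2 2)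
    have h5 : (Finset.univ : Finset (FiniteField.Extension F 2 2)) ⊆ {0, 1} := by
      intro a _
      by_cases ha : a = 0
      · simp [ha]
      · simp [hcon a ha]
    have h6 := Finset.card_le_card h5
    rw [Finset.card_univ, ← Nat.card_eq_fintype_card, hcard] at h6
    have h7 : ({0, 1} : Finset (FiniteField.Extension F 2 2)).card ≤ 2 := Finset.card_le_two
    omega
  refine ⟨FiniteField.Extension F 2 2, inferInstance, inferInstance, hch,
    algebraMap F (FiniteField.Extension F 2 2), ζ, ?_, h4⟩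
  have h2 : (2 : FiniteField.Extension F 2 2) = 0 := CharTwo.two_eq_zero
  have h5 : ζ * ((ζ - 1) * (ζ ^ 2 + ζ + 1)) = 0 := by
    have := h4 ζ
    linear_combination this
  have h6 : ζ ^ 2 + ζ + 1 = 0 :=
    ((mul_eq_zero.1 ((mul_eq_zero.1 h5).resolve_left h0)).resolve_left (sub_ne_zero.2 h1))
  linear_combination h6 - (ζ + 1) * h2

theorem prod_zpow' {G ι : Type*} [CommGroup G] (a : G) (f : ι → ℤ) (s : Finset ι) :
    ∏ j ∈ s, a ^ f j = a ^ ∑ j ∈ s, f j := by
  classical
  induction s using Finset.induction_on with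
  | empty => rw [Finset.prod_empty, Finset.sum_empty, zpow_zero]
  | insert i s hi ih => rw [Finset.prod_insert hi, Finset.sum_insert hi, zpow_add, ih]

section Good

variable {K : Type u} [Field K] [Finite K] [CharP K 2] (hOK : TwoOK D)
  (hD : D ∈ [chevD4, chevF4, chevE6, chevE7, chevE8]) {W : Type*} [Group W] (cs : CoxeterSystem M W)

include hOK hD in
/-- **The product of orthogonal simple root elements is good**, given the condition on outer automorphisms. -/
theorem good_chev {J : List (Fin l)} (hJ : Orth cs hp.isCartan J)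
    (hout : ∀ f : Fin l → ↥(D.group K), (∀ j ∈ J, f j ∈ SS (fun x => (XV D l K x).subgroupOf (D.group K)) j) →
      ∀ α : MulAut ↥(D.group K), α * α = 1 →
      α (pr J fun j => nel (eg hp K) (sr j)) = pr J (fun j => nel (eg hp K) (sr j)) → α (pr J f) = pr J f →
      (∀ z ∈ Subgroup.centralizer {pr J fun j => nel (eg hp K) (sr j)} ⊓ Subgroup.centralizer {pr J f}, α z = z) →
      ∃ g, α = MulAut.conj g) :
    Good (pr J fun j => eg hp K (sr j) 1) := by
  have := finite_W hp cs
  have S := sys (K := K) hp hOK cs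
  by_cases hK : Nat.card K = 2
  · obtain ⟨K', _, _, _, φ, ζ, hζ, h4⟩ := exists_four hK
    have S' := sys (K := K') hp hOK cs
    have hα : Frb cs hp.isCartan (eg hp K') (groupEquiv D (frobeniusEquiv K' 2)) := by
      refine ⟨fun x hx a => ?_, h4⟩
      rw [groupEquiv_eg hp _ cs hx]
      rfl
    refine good_two S hJ S' (G1_eq_top hp cs) (noCent hp hD cs) hα hζ (f := baseChange D φ)
      (baseChange_injective D φ) (fun x hx => by rw [baseChange_eg hp φ cs hx, map_one]) ?_
      (hout _ fun j _ => xl_mem S j)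
    intro y
    apply Subtype.ext
    apply Units.ext
    change ((((y : GL D.Idx K) : Matrix D.Idx D.Idx K)).map φ).map (frobeniusEquiv K' 2) =
      (((y : GL D.Idx K) : Matrix D.Idx D.Idx K)).map φ
    ext i j
    simp only [Matrix.map_apply]
    have h1 : ∀ c : K, c ^ 2 = c := by
      intro c
      have := Fintype.ofFinite K
      have h1 := FiniteField.pow_card c
      rwa [← Nat.card_eq_fintype_card, hK] at h1
    show (φ _) ^ 2 = _
    rw [← map_pow, h1]
  · obtain ⟨r, c, hr, hr2, hc, hc1, hcr⟩ := exists_unit hK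
    exact good_big S hJ (G1_eq_top hp cs) (noCent hp hD cs) hr hr2 hc hc1 hcr (hout _ fun j _ => hel_memS S j c)

include hOK in
/-- all characters of the simple roots -/
theorem htor_of {d : ℕ} {B : Fin l → Fin l → ℤ} (hB : ∀ m i, ∑ j, B m j * cartanOf D l j i = if m = i then (d : ℤ) else 0)
    (hd : ∀ b : Kˣ, ∃ a : Kˣ, a ^ d = b) (c : Fin l → Kˣ) :
    ∃ t ∈ (D.diagonalSubgroup K).subgroupOf (D.group K), ∀ i u,
      t * eg hp K (sr i) u * t⁻¹ = eg hp K (sr i) (c i * u) := by
  obtain ⟨cs, -⟩ : ∃ cs : CoxeterSystem M M.Group, cs = M.toCoxeterSystem := ⟨_, rfl⟩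
  have := finite_W hp cs
  have S := sys (K := K) hp hOK cs
  have hG1 := G1_eq_top (K := K) hp cs
  choose a ha using fun i => hd (c i)
  -- products over a list
  have key : ∀ (L : List (Fin l)) (b : Fin l → Kˣ),
      (L.map fun j => hel (eg hp K) (sr j) (b j : K)).prod ∈ (D.diagonalSubgroup K).subgroupOf (D.group K) ∧
      ∀ i u, (L.map fun j => hel (eg hp K) (sr j) (b j : K)).prod * eg hp K (sr i) u *
        ((L.map fun j => hel (eg hp K) (sr j) (b j : K)).prod)⁻¹ =
        eg hp K (sr i) (((L.map fun j => b j ^ cartanOf D l j i).prod : Kˣ) * u) := by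
    intro L b
    induction L with
    | nil => exact ⟨one_mem _, fun i u => by simp⟩
    | cons j L ih =>
      refine ⟨?_, fun i u => ?_⟩
      · rw [List.map_cons, List.prod_cons]
        exact mul_mem (hel_mem S hG1 (isRoot_sr cs hp.isCartan j) (Units.ne_zero _)) ih.1
      · have h1 := ih.2 i u
        have h2 := S.data.hel_conj (isRoot_sr cs hp.isCartan i) (isRoot_sr cs hp.isCartan j) (Units.ne_zero (b j))
          (((L.map fun j => b j ^ cartanOf D l j i).prod : Kˣ) * u)
        rw [cpr_sr, show pairing (cartanOf D l) j (sr i) = cartanOf D l j i by rw [sr, pairing_single, mul_one]] at h2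
        rw [List.map_cons, List.prod_cons, List.map_cons, List.prod_cons, Units.val_mul, mul_assoc (_ : K),
          Units.val_zpow_eq_zpow_val, ← h2, ← h1]
        group
  obtain ⟨h1, h2⟩ := key Finset.univ.toList fun j => ∏ m, a m ^ B m j
  refine ⟨_, h1, fun i u => ?_⟩
  rw [h2, Finset.prod_map_toList]
  congr 3
  calc ∏ j, (∏ m, a m ^ B m j) ^ cartanOf D l j i = ∏ j, ∏ m, a m ^ (B m j * cartanOf D l j i) := by
        refine Finset.prod_congr rfl fun j _ => ?_
        rw [← Finset.prod_zpow]
        exact Finset.prod_congr rfl fun m _ => (zpow_mul _ _ _).symm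
    _ = ∏ m, ∏ j, a m ^ (B m j * cartanOf D l j i) := Finset.prod_comm
    _ = ∏ m, a m ^ (∑ j, B m j * cartanOf D l j i) := by
        refine Finset.prod_congr rfl fun m _ => ?_
        exact prod_zpow' _ _ _
    _ = c i := by
        rw [Finset.prod_eq_single i]
        · rw [hB, if_pos rfl, zpow_natCast, ha]
        · intro m _ hm
          rw [hB, if_neg hm, zpow_zero]
        · intro h0; exact absurd (Finset.mem_univ i) h0

end Good

end Cfsg.Agent.H737.SK.Chev
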