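import Cfsg.Agent.H737.SK.Chev
import Cfsg.Agent.KFacts.ChevTwoAut
import Cfsg.Agent.H167.SK.Reps
import Mathlib.Data.Fintype.Powerset

/-!
# S3010: involutions of `E₇(q)`, `E₈(q)`, `q` even, are good (helper737)
-/

set_option autoImplicit false
set_option linter.unusedSectionVars false

namespace Cfsg.Agent.H737.SK.E78

open CoxeterSystem Cfsg.Agent.ChevalleyStructure.CoxeterGeom Cfsg.Agent.Tits.Roots Cfsg.Agent.Tits.Core
  Cfsg.Agent.Tits.Exchange Cfsg.Agent.Nodes.Reps Cfsg.Agent.Nodes.BNOf Cfsg.Agent.Nodes.Coroot Cfsg.Agent.Nodes.Comb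
  Cfsg.Agent.KFacts.RgdField Cfsg.Agent.KFacts.RgdCent Cfsg.Agent.KFacts.ChevTwo Cfsg.Agent.KFacts.RgdSys
  Cfsg.Agent.KFacts.ChevTwoInst Cfsg.Agent.H737.SK.O2 Cfsg.Agent.H282.SK Cfsg.Agent.H737.SK.Gen
  Cfsg.Agent.H737.SK.Chev
open Cfsg.Lie Cfsg.Agent.ChevalleyStructure Cfsg.Agent.ChevalleyStructure.Elts
  Cfsg.Agent.ChevalleyStructure.RootVec Cfsg.Agent.ChevalleyStructure.FieldIso
  Cfsg.Agent.ChevalleyStructure.CoxeterGeomTypes
open Cfsg.Agent.Nodes Cfsg.Agent.Nodes.RGDChev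

universe u v

/-! ### no diagram symmetries -/

theorem inv_step {l : ℕ} {M : CoxeterMatrix (Fin l)} {σ : Equiv.Perm (Fin l)}
    (hσ : ∀ i j, M (σ i) (σ j) = M i j) {g g' : Fin l → ℕ} (hg : ∀ i, g (σ i) = g i)
    (h : ∀ i, g' i = ∑ j, if M i j = 2 ∨ M i j = 1 then 0 else g j) (i : Fin l) : g' (σ i) = g' i := by
  rw [h, h, ← Equiv.sum_comp σ]
  refine Finset.sum_congr rfl fun j _ => ?_
  rw [hσ, hg]

theorem sym_one {l : ℕ} {g : Fin l → ℕ} {σ : Equiv.Perm (Fin l)}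
    (hg : ∀ i, g (σ i) = g i) (hf : ∀ i j, g i = g j → i = j) : σ = 1 := by
  ext i
  rw [Equiv.Perm.one_apply, hf _ _ (hg i)]

theorem sym_E7 (σ : Equiv.Perm (Fin 7)) (hσ : ∀ i j, CoxeterMatrix.E₇ (σ i) (σ j) = CoxeterMatrix.E₇ i j) :
    σ = 1 := by
  have h1 : ∀ i, (![1, 1, 2, 3, 2, 2, 1] : Fin 7 → ℕ) (σ i) = (![1, 1, 2, 3, 2, 2, 1] : Fin 7 → ℕ) i :=
    inv_step hσ (g := fun _ => 1) (fun _ => rfl) (by decide)
  have h2 : ∀ i, (![2, 3, 4, 5, 5, 3, 2] : Fin 7 → ℕ) (σ i) = (![2, 3, 4, 5, 5, 3, 2] : Fin 7 → ℕ) i :=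
    inv_step hσ h1 (by decide)
  have h3 : ∀ i, (![4, 5, 7, 12, 8, 7, 3] : Fin 7 → ℕ) (σ i) = (![4, 5, 7, 12, 8, 7, 3] : Fin 7 → ℕ) i :=
    inv_step hσ h2 (by decide)
  refine sym_one (g := ![4, 5, 7, 12, 8, 7, 3] + 100 • ![2, 3, 4, 5, 5, 3, 2])
    (fun i => ?_) (by decide)
  rw [Pi.add_apply, Pi.add_apply, Pi.smul_apply, Pi.smul_apply, h2, h3]

theorem sym_E8 (σ : Equiv.Perm (Fin 8)) (hσ : ∀ i j, CoxeterMatrix.E₈ (σ i) (σ j) = CoxeterMatrix.E₈ i j) :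
    σ = 1 := by
  have h1 : ∀ i, (![1, 1, 2, 3, 2, 2, 2, 1] : Fin 8 → ℕ) (σ i) = (![1, 1, 2, 3, 2, 2, 2, 1] : Fin 8 → ℕ) i :=
    inv_step hσ (g := fun _ => 1) (fun _ => rfl) (by decide)
  have h2 : ∀ i, (![2, 3, 4, 5, 5, 4, 3, 2] : Fin 8 → ℕ) (σ i) = (![2, 3, 4, 5, 5, 4, 3, 2] : Fin 8 → ℕ) i :=
    inv_step hσ h1 (by decide)
  exact sym_one (g := ![4, 5, 7, 12, 9, 8, 6, 3])
    (fun i => inv_step hσ h2 (by decide) i) (by decide)

/-- connectedness from the diagram path -/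
theorem conn_of {l : ℕ} {M : CoxeterMatrix (Fin l)} (hM : ∀ J : Finset (Fin l), (∃ a, a ∈ J) → (∃ a, a ∉ J) →
    ∃ a ∈ J, ∃ b, b ∉ J ∧ M a b ≠ 2) (J : Set (Fin l)) (h1 : J.Nonempty) (h2 : J ≠ Set.univ) :
    ∃ a ∈ J, ∃ b, b ∉ J ∧ M a b ≠ 2 := by
  classical
  have h3 : ∃ a, a ∉ J := by
    by_contra hcon
    push Not at hcon
    exact h2 (Set.eq_univ_of_forall hcon)
  have := hM J.toFinset (by simpa using (show ∃ a, a ∈ J from h1)) (by simpa using h3)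
  simpa using this

set_option backward.isDefEq.respectTransparency false in
theorem conn_E7 : ∀ J : Finset (Fin 7), (∃ a, a ∈ J) → (∃ a, a ∉ J) →
    ∃ a ∈ J, ∃ b, b ∉ J ∧ CoxeterMatrix.E₇ a b ≠ 2 := by decide +kernel

set_option backward.isDefEq.respectTransparency false in
theorem conn_E8 : ∀ J : Finset (Fin 8), (∃ a, a ∈ J) → (∃ a, a ∉ J) →
    ∃ a ∈ J, ∃ b, b ∉ J ∧ CoxeterMatrix.E₈ a b ≠ 2 := by decide +kernel

section

variable {D : ChevalleyDatum} {l : ℕ} {M : CoxeterMatrix (Fin l)} (hp : IsType D l M) {W : Type*} [Group W]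
  (cs : CoxeterSystem M W)

theorem cpr_simple (i j : Fin l) : cpr cs hp.isCartan (sr i) (sr j) = D.cartan j (D.simple i) := by
  have := finite_W hp cs
  rw [cpr_sr, ← vec_simple hp i, pairing_vec hp j (NPerm.simple_lt hp.inList (lt_rank hp i))]

theorem orth_of {J : List (Fin l)} (hJ : J.Pairwise fun i j : Fin l => i ≠ j ∧ D.cartan (i : ℕ) (D.simple (j : ℕ)) = 0) :
    Orth cs hp.isCartan J := by
  have := finite_W hp cs
  refine ⟨hJ.imp fun h => h.1, fun i hi j hj hij => ?_⟩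
  have h1 : J.Pairwise fun i j => cpr cs hp.isCartan (sr i) (sr j) = 0 := by
    refine hJ.imp fun {i j} h => ?_
    rw [cpr_zero_comm cs hp.isCartan (isRoot_sr cs hp.isCartan i) (isRoot_sr cs hp.isCartan j), cpr_simple hp cs]
    exact h.2
  have h2 : ∀ a b : Fin l, cpr cs hp.isCartan (sr a) (sr b) = 0 → cpr cs hp.isCartan (sr b) (sr a) = 0 := by
    intro a b h
    rwa [cpr_zero_comm cs hp.isCartan (isRoot_sr cs hp.isCartan b) (isRoot_sr cs hp.isCartan a)]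
  have : Std.Symm fun a b : Fin l => cpr cs hp.isCartan (sr a) (sr b) = 0 := ⟨h2⟩
  exact h1.forall hi hj hij

variable {K : Type u} [Field K] [Finite K] [CharP K 2] (hOK : TwoOK D)
  (hD : D ∈ [chevD4, chevF4, chevE6, chevE7, chevE8])

include hOK hD in
/-- **Goodness for types without diagram symmetries** -/
theorem good_of_perp [Nonempty (Fin l)]
    (hconn : ∀ J : Set (Fin l), J.Nonempty → J ≠ Set.univ → ∃ a ∈ J, ∃ b, b ∉ J ∧ M a b ≠ 2)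
    {d : ℕ} {B : Fin l → Fin l → ℤ} (hB : ∀ m i, ∑ j, B m j * cartanOf D l j i = if m = i then (d : ℤ) else 0)
    (hd : ∀ b : Kˣ, ∃ a : Kˣ, a ^ d = b)
    (hsym : ∀ σ : Equiv.Perm (Fin l), (∀ i j, M (σ i) (σ j) = M i j) → σ = 1)
    {J : List (Fin l)} (hJ : J.Pairwise fun i j : Fin l => i ≠ j ∧ D.cartan (i : ℕ) (D.simple (j : ℕ)) = 0)
    (hr : ∃ r < D.nroots, ∀ j ∈ J, D.cartan (j : ℕ) r = 0) :
    Good (J.map fun j => eg hp K (sr j) 1).prod := by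
  obtain ⟨cs, -⟩ : ∃ cs : CoxeterSystem M M.Group, cs = M.toCoxeterSystem := ⟨_, rfl⟩
  have := finite_W hp cs
  have S := sys (K := K) hp hOK cs
  have hJ' := orth_of hp cs hJ
  obtain ⟨r, hr, hrJ⟩ := hr
  have hb := isRoot_vec hp cs hr
  have hbJ : ∀ j ∈ J, cpr cs hp.isCartan (vec D l r) (sr j) = 0 := by
    intro j hj
    rw [cpr_sr, pairing_vec hp j hr, hrJ j hj]
  refine good_chev hp hOK hD cs hJ' fun f hf α _ _ _ hα => ?_
  obtain ⟨g, -, hg⟩ := KFacts.ChevTwoAut.inner_of_fix S (G1_eq_top hp cs) (Chev.noCent hp hD cs) hconn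
    (htor_of hp hOK hB hd) hsym hb (α := α) fun z hz => hα z (by
      rw [Subgroup.mem_inf, Subgroup.mem_centralizer_singleton_iff, Subgroup.mem_centralizer_singleton_iff]
      exact ⟨(perp_comm S hb hbJ hz fun j _ => nel_mem S j).eq, (perp_comm S hb hbJ hz hf).eq⟩)
  exact ⟨g, hg⟩

end

theorem sq_surj {K : Type u} [Field K] [Finite K] [CharP K 2] (b : Kˣ) : ∃ a : Kˣ, a ^ 2 = b := by
  obtain ⟨a, ha⟩ := (frobeniusEquiv K 2).surjective (b : K)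
  have ha' : a ^ 2 = b := ha
  have h0 : a ≠ 0 := by
    rintro rfl
    rw [zero_pow two_ne_zero] at ha'
    exact b.ne_zero ha'.symm
  exact ⟨Units.mk0 a h0, Units.ext ha'⟩

theorem invE7 : ∀ m i : Fin 7, ∑ j, (![![4, 4, 6, 8, 6, 4, 2], ![4, 7, 8, 12, 9, 6, 3], ![6, 8, 12, 16, 12, 8, 4],
    ![8, 12, 16, 24, 18, 12, 6], ![6, 9, 12, 18, 15, 10, 5], ![4, 6, 8, 12, 10, 8, 4],
    ![2, 3, 4, 6, 5, 4, 3]] : Fin 7 → Fin 7 → ℤ) m j * cartanOf chevE7 7 j i = if m = i then ((2 : ℕ) : ℤ) else 0 := by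
  decide +kernel

theorem invE8 : ∀ m i : Fin 8, ∑ j, (![![4, 5, 7, 10, 8, 6, 4, 2], ![5, 8, 10, 15, 12, 9, 6, 3],
    ![7, 10, 14, 20, 16, 12, 8, 4], ![10, 15, 20, 30, 24, 18, 12, 6], ![8, 12, 16, 24, 20, 15, 10, 5],
    ![6, 9, 12, 18, 15, 12, 8, 4], ![4, 6, 8, 12, 10, 8, 6, 3], ![2, 3, 4, 6, 5, 4, 3, 2]] : Fin 8 → Fin 8 → ℤ) m j *
    cartanOf chevE8 8 j i = if m = i then ((1 : ℕ) : ℤ) else 0 := by
  decide +kernel

theorem perp7 : ∀ J ∈ Cfsg.Agent.H167.SK.Reps.J7, ∃ r < chevE7.nroots, ∀ j ∈ J, chevE7.cartan (j : ℕ) r = 0 := by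
  decide +kernel

theorem perp8 : ∀ J ∈ Cfsg.Agent.H167.SK.Reps.J8, ∃ r < chevE8.nroots, ∀ j ∈ J, chevE8.cartan (j : ℕ) r = 0 := by
  decide +kernel

theorem orth7 : ∀ J ∈ Cfsg.Agent.H167.SK.Reps.J7,
    J.Pairwise fun i j : Fin 7 => i ≠ j ∧ chevE7.cartan (i : ℕ) (chevE7.simple (j : ℕ)) = 0 := by
  decide +kernel

theorem orth8 : ∀ J ∈ Cfsg.Agent.H167.SK.Reps.J8,
    J.Pairwise fun i j : Fin 8 => i ≠ j ∧ chevE8.cartan (i : ℕ) (chevE8.simple (j : ℕ)) = 0 := by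
  decide +kernel

theorem isType_E7 : IsType chevE7 7 CoxeterMatrix.E₇ := by simp [IsType, typeList]
theorem isType_E8 : IsType chevE8 8 CoxeterMatrix.E₈ := by simp [IsType, typeList]

theorem orderOf_two {G : Type*} [Group G] {y : G} (h1 : y ≠ 1) (h2 : y * y = 1) : orderOf y = 2 :=
  orderOf_eq_prime (by rw [pow_two, h2]) h1

theorem good_E7 {F : Type u} [Field F] [Finite F] [CharP F 2] (y : ↥(chevE7.group F)) (h1 : y ≠ 1) (h2 : y * y = 1) :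
    Good y := by
  obtain ⟨J, hJ, x, e⟩ := Cfsg.Agent.H167.SK.Reps.reps_E7 isType_E7 y (orderOf_two h1 h2)
  have h3 : Good (J.map fun j => eg isType_E7 F (sr j) 1).prod :=
    good_of_perp isType_E7 twoOK_E7 (by simp) (conn_of conn_E7) invE7 sq_surj sym_E7
      (orth7 J hJ) (perp7 J hJ)
  rw [← e] at h3
  have h4 := h3.conj x⁻¹
  have h5 : x⁻¹ * (x * y * x⁻¹) * x⁻¹⁻¹ = y := by group
  rwa [h5] at h4

theorem good_E8 {F : Type u} [Field F] [Finite F] [CharP F 2] (y : ↥(chevE8.group F)) (h1 : y ≠ 1) (h2 : y * y = 1) :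
    Good y := by
  obtain ⟨J, hJ, x, e⟩ := Cfsg.Agent.H167.SK.Reps.reps_E8 isType_E8 y (orderOf_two h1 h2)
  have h3 : Good (J.map fun j => eg isType_E8 F (sr j) 1).prod :=
    good_of_perp isType_E8 twoOK_E8 (by simp) (conn_of conn_E8) invE8 (fun b => ⟨b, pow_one b⟩) sym_E8
      (orth8 J hJ) (perp8 J hJ)
  rw [← e] at h3
  have h4 := h3.conj x⁻¹
  have h5 : x⁻¹ * (x * y * x⁻¹) * x⁻¹⁻¹ = y := by group
  rwa [h5] at h4

end Cfsg.Agent.H737.SK.E78
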