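import Cfsg.Agent.H737.SK.PBGen
import Cfsg.Agent.H737.SK.GoodE78

/-!
# S3010, `E₆(q)`, `q` even: explicit elements (helper737)

* `step`, `rep_word`, `isRoot_word`, `cpr_word` : computations with words;
* `pair_comm` : `e b 1 * e b' 1` with `b' = w_J b` commutes with `nJ` and `tJ`;
* `ne_gra_1`, `ne_gra_124` : the graph automorphism moves elements of `C`;
* `noncomm_05` : two elements of `C(v)` for `J = [0, 5]`.
-/

set_option autoImplicit false
set_option linter.unusedSectionVars false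

namespace Cfsg.Agent.H737.SK.Gen

open CoxeterSystem Cfsg.Agent.ChevalleyStructure.CoxeterGeom Cfsg.Agent.Tits.Roots Cfsg.Agent.Tits.Core
  Cfsg.Agent.Tits.Exchange Cfsg.Agent.Nodes.Reps Cfsg.Agent.Nodes.BNOf Cfsg.Agent.Nodes.StabComb
  Cfsg.Agent.Nodes.Bruhat Cfsg.Agent.Nodes.OppDec Cfsg.Agent.Nodes.LeviDec Cfsg.Agent.Nodes.NormalForm
  Cfsg.Agent.Nodes.Coroot Cfsg.Agent.Nodes.Comb
  Cfsg.Agent.KFacts.RgdField Cfsg.Agent.BpExc.TorCent Cfsg.Agent.KFacts.RgdOpp Cfsg.Agent.KFacts.RgdCent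
  Cfsg.Agent.KFacts.ChevTwo Cfsg.Agent.KFacts.RgdSys Cfsg.Agent.H737.SK.O2 Cfsg.Agent.H282.SK
  Cfsg.Agent.KFacts.RgdRigid Cfsg.Agent.H297.SK
open scoped commutatorElement

section word

variable {I W : Type*} [Fintype I] [DecidableEq I] [Group W] {M : CoxeterMatrix I}
variable {cs : CoxeterSystem M W} {A : I → I → ℤ} {h : IsCartan M A}

/-- one reflection -/
def step (A : I → I → ℤ) (i : I) (x : I → ℤ) : I → ℤ := x - pairing A i x • sr i

theorem rep_word (ω : List I) (x : I → ℤ) : rep cs h (cs.wordProd ω) x = ω.foldr (step A) x := by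
  induction ω with
  | nil => rw [wordProd_nil, map_one, Module.End.one_apply, List.foldr_nil]
  | cons i ω ih => rw [wordProd_cons, rep_mul_apply, ih, rep_simple_eq, List.foldr_cons, step]

theorem isRoot_word {ω : List I} {i : I} {y : I → ℤ} (hy : ω.foldr (step A) (sr i) = y) : IsRoot cs h y := by
  rw [← hy, ← rep_word (cs := cs) (h := h)]
  exact (isRoot_sr cs h i).act _

theorem cpr_word [Finite W] {ω : List I} {i : I} {x y : I → ℤ} (hy : ω.foldr (step A) (sr i) = y) {c : ℤ}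
    (hc : pairing A i (ω.reverse.foldr (step A) x) = c) : cpr cs h x y = c := by
  rw [← hy, ← rep_word (cs := cs) (h := h), cpr_rep_sr, ← cs.wordProd_reverse, rep_word, hc]

end word

variable {I W Y K : Type*} [Fintype I] [DecidableEq I] [Group W] [Group Y] [Field K] {M : CoxeterMatrix I}
variable {cs : CoxeterSystem M W} {A : I → I → ℤ} {h : IsCartan M A} {e : (I → ℤ) → K → Y}
  {T : Subgroup Y} {n : I → Y} {X : (I → ℤ) → Subgroup Y}

/-- a pair of orthogonal roots exchanged by `w_J` -/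
theorem pair_comm [Finite W] {R : RGD cs h 2 T n X} (S : Sys R e) {J : List I}
    {b b' : I → ℤ} (hb : IsRoot cs h b) (hb' : IsRoot cs h b') (h0 : cpr cs h b b' = 0)
    (hw : rep cs h (cs.wordProd J) b = b') (hw' : rep cs h (cs.wordProd J) b' = b)
    (hs : (J.map fun j => cpr cs h b (sr j)).sum = 0) (hs' : (J.map fun j => cpr cs h b' (sr j)).sum = 0) {c : K}
    (hc : c ≠ 0) : e b 1 * e b' 1 ∈ Subgroup.centralizer {pr J fun j => nel e (sr j)} ⊓
      Subgroup.centralizer {pr J fun j => hel e (sr j) c} := by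
  have hcm := S.data.comm_of_nonneg hb hb' (le_of_eq h0.symm) 1 1
  rw [Subgroup.mem_inf, Subgroup.mem_centralizer_singleton_iff, Subgroup.mem_centralizer_singleton_iff]
  constructor
  · have h1 := word_act S J hb (1 : K)
    have h2 := word_act S J hb' (1 : K)
    rw [hw] at h1
    rw [hw'] at h2
    have h3 : pr J (fun j => nel e (sr j)) * (e b 1 * e b' 1) * (pr J fun j => nel e (sr j))⁻¹ = e b 1 * e b' 1 := by
      calc pr J (fun j => nel e (sr j)) * (e b 1 * e b' 1) * (pr J fun j => nel e (sr j))⁻¹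
          = (pr J (fun j => nel e (sr j)) * e b 1 * (pr J fun j => nel e (sr j))⁻¹) *
            (pr J (fun j => nel e (sr j)) * e b' 1 * (pr J fun j => nel e (sr j))⁻¹) := by group
        _ = e b 1 * e b' 1 := by rw [h1, h2, hcm]
    exact (mul_inv_eq_iff_eq_mul.1 h3).symm
  · have h1 := tJ_act S hb hc J (1 : K)
    have h2 := tJ_act S hb' hc J (1 : K)
    rw [hs, zpow_zero, one_mul] at h1
    rw [hs', zpow_zero, one_mul] at h2
    have h3 : pr J (fun j => hel e (sr j) c) * (e b 1 * e b' 1) * (pr J fun j => hel e (sr j) c)⁻¹ = e b 1 * e b' 1 := by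
      calc pr J (fun j => hel e (sr j) c) * (e b 1 * e b' 1) * (pr J fun j => hel e (sr j) c)⁻¹
          = (pr J (fun j => hel e (sr j) c) * e b 1 * (pr J fun j => hel e (sr j) c)⁻¹) *
            (pr J (fun j => hel e (sr j) c) * e b' 1 * (pr J fun j => hel e (sr j) c)⁻¹) := by group
        _ = e b 1 * e b' 1 := by rw [h1, h2]
    exact (mul_inv_eq_iff_eq_mul.1 h3).symm

end Cfsg.Agent.H737.SK.Gen

namespace Cfsg.Agent.H737.SK.E6

open CoxeterSystem Cfsg.Agent.ChevalleyStructure.CoxeterGeom Cfsg.Agent.Tits.Roots Cfsg.Agent.Tits.Core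
  Cfsg.Agent.Tits.Exchange Cfsg.Agent.Nodes.Reps Cfsg.Agent.Nodes.BNOf Cfsg.Agent.Nodes.Coroot Cfsg.Agent.Nodes.Comb
  Cfsg.Agent.KFacts.RgdField Cfsg.Agent.KFacts.RgdCent Cfsg.Agent.KFacts.ChevTwo Cfsg.Agent.KFacts.RgdSys
  Cfsg.Agent.KFacts.ChevTwoInst Cfsg.Agent.H737.SK.O2 Cfsg.Agent.H282.SK Cfsg.Agent.H737.SK.Gen
  Cfsg.Agent.H737.SK.Chev
open Cfsg.Lie Cfsg.Agent.ChevalleyStructure Cfsg.Agent.ChevalleyStructure.Elts
  Cfsg.Agent.ChevalleyStructure.RootVec Cfsg.Agent.ChevalleyStructure.FieldIso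
  Cfsg.Agent.ChevalleyStructure.CoxeterGeomTypes
open Cfsg.Agent.Nodes Cfsg.Agent.Nodes.RGDChev

universe u

abbrev A6 : Fin 6 → Fin 6 → ℤ := cartanOf chevE6 6

def s6 : Fin 6 → Fin 6 := ![5, 1, 4, 3, 2, 0]

theorem s6_invol : ∀ i, s6 (s6 i) = i := by decide
theorem s6_cart : ∀ i j, A6 (s6 i) (s6 j) = A6 i j := by decide +kernel

variable {W Y K : Type*} [Group W] [Group Y] [Field K] {M : CoxeterMatrix (Fin 6)}
variable {cs : CoxeterSystem M W} {h : IsCartan M A6} {e : (Fin 6 → ℤ) → K → Y}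
  {T : Subgroup Y} {n : Fin 6 → Y} {X : (Fin 6 → ℤ) → Subgroup Y}

/-- `α₁+α₃+α₄+α₅` -/
def b1 : Fin 6 → ℤ := ![0, 1, 0, 1, 1, 1]
/-- `α₂+α₃+α₄+α₅` -/
def b2 : Fin 6 → ℤ := ![0, 0, 1, 1, 1, 1]

theorem w_b1 : [5, 4, 3].foldr (step A6) (sr 1) = b1 := by decide +kernel
theorem w_b2 : [5, 4, 3].foldr (step A6) (sr 2) = b2 := by decide +kernel
theorem w_b1g : [0, 2, 3].foldr (step A6) (sr 1) = (fun i => b1 (s6 i)) := by decide +kernel
theorem w_b2g : [0, 2, 3].foldr (step A6) (sr 4) = (fun i => b2 (s6 i)) := by decide +kernel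

theorem r_b1 : IsRoot cs h b1 := isRoot_word w_b1
theorem r_b2 : IsRoot cs h b2 := isRoot_word w_b2
theorem r_b1g : IsRoot cs h (fun i => b1 (s6 i)) := isRoot_word w_b1g
theorem r_b2g : IsRoot cs h (fun i => b2 (s6 i)) := isRoot_word w_b2g

/-- the orthogonal root for `J = [1, 2, 4]` -/
def b4 : Fin 6 → ℤ := ![0, 1, 1, 2, 1, 0]
theorem w_b4 : [3, 4, 2, 3].foldr (step A6) (sr 1) = b4 := by decide +kernel
theorem r_b4 : IsRoot cs h b4 := isRoot_word w_b4
theorem perp_b4 [Finite W] : ∀ j ∈ [(1 : Fin 6), 2, 4], cpr cs h b4 (sr j) = 0 := by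
  have key : ∀ j ∈ [(1 : Fin 6), 2, 4], pairing A6 j b4 = 0 := by decide +kernel
  intro j hj
  rw [cpr_sr]
  exact key j hj

section

variable [Finite W] {R : RGD cs h 2 T n X} (S : Sys R e)

include S

theorem mem_U {x : Fin 6 → ℤ} (hx : IsRoot cs h x) (h0 : 0 ≤ x) (a : K) : e x a ∈ RGD.Sup X (RGD.Pos cs h) :=
  RGD.le_Sup (S := RGD.Pos cs h) (X := X) ⟨hx, h0⟩ (S.mem hx a)

/-- different simple root elements are different -/
theorem ne_sr {i j : Fin 6} (hij : i ≠ j) : e (sr j) 1 ≠ e (sr i) 1 := by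
  intro h1
  have h2 := S.data.refl i _ (isRoot_sr cs h i) 1
  have h3 := S.data.refl i _ (isRoot_sr cs h j) 1
  rw [h1, h2, rep_simple_sr] at h3
  have h4 : (0 : Fin 6 → ℤ) ≤ rep cs h (cs.simple i) (sr j) := by
    refine (isRoot_sr cs h j).simple_nonneg (sr_nonneg j) i fun h0 => hij ?_
    by_contra hne
    have h5 := congrFun h0 j
    rw [sr_self, sr_ne (Ne.symm hij)] at h5
    exact one_ne_zero h5
  exact ne_of_neg S (isRoot_sr cs h i).neg (neg_nonpos.2 (sr_nonneg i))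
    (mem_U S ((isRoot_sr cs h j).act _) h4 1) h3

variable {γ : MulAut Y} (hγ : Gra cs h e γ s6)

include hγ

/-- `J = [1]` -/
theorem ne_gra_1 : γ (e (sr 0) 1) ≠ e (sr 0) 1 := by
  rw [hγ.map _ (isRoot_sr cs h 0), sr_comp hγ.invol]
  exact ne_sr S (show (0 : Fin 6) ≠ s6 0 by decide)

/-- `J = [1, 2, 4]` -/
theorem ne_gra_124 : γ (e b1 1 * e b2 1) ≠ e b1 1 * e b2 1 := by
  rw [map_mul, hγ.map _ r_b1, hγ.map _ r_b2]
  intro h1
  have k1 : ∀ k, ([5, 4, 3, 1] : List (Fin 6)).foldr (step A6) b1 k ≤ 0 := by decide +kernel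
  have k2 : ∀ k, 0 ≤ ([5, 4, 3, 1] : List (Fin 6)).foldr (step A6) b2 k := by decide +kernel
  have k3 : ∀ k, 0 ≤ ([5, 4, 3, 1] : List (Fin 6)).foldr (step A6) (fun i => b1 (s6 i)) k := by decide +kernel
  have k4 : ∀ k, 0 ≤ ([5, 4, 3, 1] : List (Fin 6)).foldr (step A6) (fun i => b2 (s6 i)) k := by decide +kernel
  have a1 := word_act S [5, 4, 3, 1] (r_b1 (cs := cs) (h := h)) (1 : K)
  have a2 := word_act S [5, 4, 3, 1] (r_b2 (cs := cs) (h := h)) (1 : K)
  have a3 := word_act S [5, 4, 3, 1] (r_b1g (cs := cs) (h := h)) (1 : K)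
  have a4 := word_act S [5, 4, 3, 1] (r_b2g (cs := cs) (h := h)) (1 : K)
  obtain ⟨g, hg⟩ : ∃ g, g = pr [5, 4, 3, 1] fun j => nel e (sr j) := ⟨_, rfl⟩
  rw [← hg] at a1 a2 a3 a4
  have h2 : g * e b1 1 * g⁻¹ = (g * e (fun i => b1 (s6 i)) 1 * g⁻¹) * (g * e (fun i => b2 (s6 i)) 1 * g⁻¹) *
      (g * e b2 1 * g⁻¹)⁻¹ := by
    have h3 : e b1 1 = e (fun i => b1 (s6 i)) 1 * e (fun i => b2 (s6 i)) 1 * (e b2 1)⁻¹ := by
      rw [h1]; group
    rw [h3]; group
  rw [a1, a2, a3, a4] at h2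
  refine ne_of_neg S ((r_b1 (cs := cs) (h := h)).act _) (by rw [rep_word]; exact k1) ?_ h2
  exact mul_mem (mul_mem (mem_U S ((r_b1g (cs := cs) (h := h)).act _) (by rw [rep_word]; exact k3) 1)
    (mem_U S ((r_b2g (cs := cs) (h := h)).act _) (by rw [rep_word]; exact k4) 1))
    (inv_mem (mem_U S ((r_b2 (cs := cs) (h := h)).act _) (by rw [rep_word]; exact k2) 1))

omit hγ in
/-- the pair `b1`, `b2` for `J = [1, 2, 4]` -/
theorem pair_124 {c : K} (hc : c ≠ 0) : e b1 1 * e b2 1 ∈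
    Subgroup.centralizer {pr [(1 : Fin 6), 2, 4] fun j => nel e (sr j)} ⊓
      Subgroup.centralizer {pr [(1 : Fin 6), 2, 4] fun j => hel e (sr j) c} := by
  refine pair_comm S r_b1 r_b2 (cpr_word w_b2 (by decide +kernel)) ?_ ?_ ?_ ?_ hc
  · rw [rep_word]; decide +kernel
  · rw [rep_word]; decide +kernel
  · simp only [cpr_sr]; decide +kernel
  · simp only [cpr_sr]; decide +kernel

omit hγ in
/-- the commutator of two root elements -/
theorem mul_of_neg {x y z : Fin 6 → ℤ} (hx : IsRoot cs h x) (hy : IsRoot cs h y) (h1 : cpr cs h x y = -1)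
    (h2 : cpr cs h y x = -1) (hz : x + y = z) : e x 1 * e y 1 = e z 1 * (e y 1 * e x 1) := by
  have h3 := S.data.comm1 x y hx hy h1 h2 1 1
  rw [hz, mul_one, commutatorElement_def] at h3
  rw [← h3]; group

omit hγ in
theorem comm_of_zero {x y : Fin 6 → ℤ} (hx : IsRoot cs h x) (hy : IsRoot cs h y) (h1 : 0 ≤ cpr cs h x y) :
    e x 1 * e y 1 = e y 1 * e x 1 := S.data.comm_of_nonneg hx hy h1 1 1

/-- `J = [0, 5]`: two elements of `C(v)` whose "commutators" with `γ` do not commute. -/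
theorem noncomm_05 : ∃ c₁ c₂ : Y,
    c₁ * (pr [(0 : Fin 6), 5] fun j => nel e (sr j)) = (pr [(0 : Fin 6), 5] fun j => nel e (sr j)) * c₁ ∧
    c₂ * (pr [(0 : Fin 6), 5] fun j => nel e (sr j)) = (pr [(0 : Fin 6), 5] fun j => nel e (sr j)) * c₂ ∧
    (c₁ * (γ c₁)⁻¹) * (c₂ * (γ c₂)⁻¹) ≠ (c₂ * (γ c₂)⁻¹) * (c₁ * (γ c₁)⁻¹) := by
  have hJ : Orth cs h [(0 : Fin 6), 5] := by
    refine ⟨by decide, ?_⟩
    have key : ∀ i ∈ [(0 : Fin 6), 5], ∀ j ∈ [(0 : Fin 6), 5], i ≠ j → pairing A6 j (sr i) = 0 := by decide +kernel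
    intro i hi j hj hij
    rw [cpr_sr]
    exact key i hi j hj hij
  -- roots
  have wa : ([2] : List (Fin 6)).foldr (step A6) (sr 0) = ![1, 0, 1, 0, 0, 0] := by decide +kernel
  have wb : ([4] : List (Fin 6)).foldr (step A6) (sr 5) = ![0, 0, 0, 0, 1, 1] := by decide +kernel
  have ra : IsRoot cs h ![1, 0, 1, 0, 0, 0] := isRoot_word wa
  have rb : IsRoot cs h ![0, 0, 0, 0, 1, 1] := isRoot_word wb
  have r0 := isRoot_sr cs h (0 : Fin 6)
  have r2 := (isRoot_sr cs h (2 : Fin 6)).neg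
  have r4 := (isRoot_sr cs h (4 : Fin 6)).neg
  have r5 := isRoot_sr cs h (5 : Fin 6)
  have w2 : ([2] : List (Fin 6)).foldr (step A6) (sr 2) = -sr 2 := by decide +kernel
  have w4 : ([4] : List (Fin 6)).foldr (step A6) (sr 4) = -sr 4 := by decide +kernel
  obtain ⟨g, hg⟩ : ∃ g, g = pr [(0 : Fin 6), 5] fun j => e (sr j) 1 * nel e (sr j) := ⟨_, rfl⟩
  have hγg : γ g = g := by
    rw [hg]
    refine hγ.pr S hJ (by decide) (fun j _ => mul_mem (e_mem S j _) (nel_mem S j)) fun j => ?_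
    rw [map_mul, hγ.nel, hγ.map _ (isRoot_sr cs h j), sr_comp hγ.invol]
  have hv : (pr [(0 : Fin 6), 5] fun j => nel e (sr j)) = g * (e (sr 0) 1 * e (sr 5) 1) * g⁻¹ := by
    have h1 : (pr [(0 : Fin 6), 5] fun j => e (sr j) 1) = e (sr 0) 1 * e (sr 5) 1 := by
      rw [pr_cons, pr_cons, pr_nil, mul_one]
    rw [nJ_conj S hJ, hg, h1]
  have hgr : ∀ c, c * (e (sr 0) 1 * e (sr 5) 1) = (e (sr 0) 1 * e (sr 5) 1) * c →
      (g * c * g⁻¹) * (pr [(0 : Fin 6), 5] fun j => nel e (sr j)) =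
        (pr [(0 : Fin 6), 5] fun j => nel e (sr j)) * (g * c * g⁻¹) := by
    intro c hc
    rw [hv]
    calc (g * c * g⁻¹) * (g * (e (sr 0) 1 * e (sr 5) 1) * g⁻¹) = g * (c * (e (sr 0) 1 * e (sr 5) 1)) * g⁻¹ := by group
      _ = g * ((e (sr 0) 1 * e (sr 5) 1) * c) * g⁻¹ := by rw [hc]
      _ = _ := by group
  have g4 : γ (e (-sr 4) 1) = e (-sr 2) 1 := by
    rw [hγ.map _ r4]
    congr 1
    decide
  have ga : γ (e ![1, 0, 1, 0, 0, 0] 1) = e ![0, 0, 0, 0, 1, 1] 1 := by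
    rw [hγ.map _ ra]
    congr 1
    decide
  refine ⟨g * e (-sr 4) 1 * g⁻¹, g * e ![1, 0, 1, 0, 0, 0] 1 * g⁻¹, hgr _ ?_, hgr _ ?_, ?_⟩
  · have h1 := comm_of_zero S r4 r0 (le_of_eq (Eq.symm (by rw [cpr_sr]; decide +kernel)))
    have h2 := comm_of_zero S r4 r5 (by rw [cpr_sr]; decide +kernel)
    rw [← mul_assoc, h1, mul_assoc, h2, mul_assoc]
  · have h1 := comm_of_zero S ra r0 (by rw [cpr_sr]; decide +kernel)
    have h2 := comm_of_zero S ra r5 (by rw [cpr_sr]; decide +kernel)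
    rw [← mul_assoc, h1, mul_assoc, h2, mul_assoc]
  · rw [map_mul, map_mul, map_inv, hγg, g4, map_mul, map_mul, map_inv, hγg, ga]
    intro h0
    -- the reduced equation
    have i2 := S.data.inv r2 1
    have ib := S.data.inv rb 1
    have h1 : (e (-sr 4) 1 * e (-sr 2) 1) * (e ![1, 0, 1, 0, 0, 0] 1 * e ![0, 0, 0, 0, 1, 1] 1) =
        (e ![1, 0, 1, 0, 0, 0] 1 * e ![0, 0, 0, 0, 1, 1] 1) * (e (-sr 4) 1 * e (-sr 2) 1) := by
      have h2 : ∀ a b c d : Y, g * a * g⁻¹ * (g * b * g⁻¹)⁻¹ * (g * c * g⁻¹ * (g * d * g⁻¹)⁻¹) =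
          g * ((a * b⁻¹) * (c * d⁻¹)) * g⁻¹ := fun a b c d => by group
      rw [h2, h2] at h0
      have h3 := mul_left_cancel (mul_right_cancel h0)
      rwa [i2, ib] at h3
    -- commutation rules
    have c2a : e (-sr 2) 1 * e ![1, 0, 1, 0, 0, 0] 1 = e (sr 0) 1 * (e ![1, 0, 1, 0, 0, 0] 1 * e (-sr 2) 1) :=
      mul_of_neg S r2 ra (cpr_word wa (by decide +kernel)) (cpr_word w2 (by decide +kernel)) (by decide)
    have c4b : e (-sr 4) 1 * e ![0, 0, 0, 0, 1, 1] 1 = e (sr 5) 1 * (e ![0, 0, 0, 0, 1, 1] 1 * e (-sr 4) 1) :=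
      mul_of_neg S r4 rb (cpr_word wb (by decide +kernel)) (cpr_word w4 (by decide +kernel)) (by decide)
    have c40 := comm_of_zero S r4 r0 (le_of_eq (Eq.symm (by rw [cpr_sr]; decide +kernel)))
    have c4a := comm_of_zero S r4 ra (le_of_eq (Eq.symm (cpr_word wa (by decide +kernel))))
    have c2b := comm_of_zero S r2 rb (le_of_eq (Eq.symm (cpr_word wb (by decide +kernel))))
    have ca5 := comm_of_zero S ra r5 (le_of_eq (Eq.symm (by rw [cpr_sr]; decide +kernel)))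
    have c42 := comm_of_zero S r4 r2 (le_of_eq (Eq.symm (cpr_word w2 (by decide +kernel))))
    obtain ⟨p, hp⟩ : ∃ p, p = e (-sr 4) (1 : K) := ⟨_, rfl⟩
    obtain ⟨q, hq⟩ : ∃ q, q = e (-sr 2) (1 : K) := ⟨_, rfl⟩
    obtain ⟨a, ha⟩ : ∃ a, a = e ![1, 0, 1, 0, 0, 0] (1 : K) := ⟨_, rfl⟩
    obtain ⟨b, hb⟩ : ∃ b, b = e ![0, 0, 0, 0, 1, 1] (1 : K) := ⟨_, rfl⟩
    obtain ⟨x, hx⟩ : ∃ x, x = e (sr 0) (1 : K) := ⟨_, rfl⟩
    obtain ⟨y, hy⟩ : ∃ y, y = e (sr 5) (1 : K) := ⟨_, rfl⟩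
    rw [← hp, ← hq, ← ha, ← hb] at h1
    rw [← hq, ← ha, ← hx] at c2a
    rw [← hp, ← hb, ← hy] at c4b
    rw [← hp, ← hx] at c40
    rw [← hp, ← ha] at c4a
    rw [← hq, ← hb] at c2b
    rw [← ha, ← hy] at ca5
    rw [← hp, ← hq] at c42
    have h3 : p * q * (a * b) = x * y * (a * b * (p * q)) := by
      calc p * q * (a * b) = p * (q * a) * b := by group
        _ = p * (x * (a * q)) * b := by rw [c2a]
        _ = (p * x) * a * (q * b) := by group
        _ = (x * p) * a * (b * q) := by rw [c40, c2b]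
        _ = x * (p * a) * b * q := by group
        _ = x * (a * p) * b * q := by rw [c4a]
        _ = x * a * (p * b) * q := by group
        _ = x * a * (y * (b * p)) * q := by rw [c4b]
        _ = x * (a * y) * b * p * q := by group
        _ = x * (y * a) * b * p * q := by rw [ca5]
        _ = x * y * (a * b * (p * q)) := by group
    rw [h3] at h1
    have h4 : x * y = 1 := mul_eq_right.1 h1
    have h5 : x = y := by
      have h6 : y * y = 1 := by rw [hy]; exact S.data.sq r5 1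
      calc x = x * y * y⁻¹ := by group
        _ = y⁻¹ := by rw [h4, one_mul]
        _ = y := inv_eq_of_mul_eq_one_right h6
    rw [hx, hy] at h5
    exact ne_sr S (show (0 : Fin 6) ≠ 5 by decide) h5.symm

end

end Cfsg.Agent.H737.SK.E6
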