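import Cfsg.Agent.H737.SK.O2G
import Cfsg.Agent.KFacts.RgdSys

/-!
# S3010, characteristic two: products over pairwise orthogonal simple roots (helper737)

`Sys R e` (characteristic two, no signs), `J` a list of pairwise orthogonal simple roots: `vJ = ∏ e (sr j) 1`,
`nJ = ∏ nel e (sr j)`, `tJ c = ∏ hel e (sr j) c`, `wJ = ∏ s_j`.
-/

set_option autoImplicit false
set_option linter.unusedSectionVars false

namespace Cfsg.Agent.H737.SK.Gen

open CoxeterSystem Cfsg.Agent.ChevalleyStructure.CoxeterGeom Cfsg.Agent.Tits.Roots Cfsg.Agent.Tits.Core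
  Cfsg.Agent.Tits.Exchange Cfsg.Agent.Nodes.Reps Cfsg.Agent.Nodes.BNOf Cfsg.Agent.Nodes.StabComb
  Cfsg.Agent.Nodes.Bruhat Cfsg.Agent.Nodes.OppDec Cfsg.Agent.Nodes.LeviDec Cfsg.Agent.Nodes.NormalForm
  Cfsg.Agent.Nodes.Coroot Cfsg.Agent.Nodes.Comb
  Cfsg.Agent.KFacts.RgdField Cfsg.Agent.BpExc.TorCent Cfsg.Agent.KFacts.RgdOpp Cfsg.Agent.KFacts.RgdCent
  Cfsg.Agent.KFacts.ChevTwo Cfsg.Agent.KFacts.RgdSys Cfsg.Agent.H737.SK.O2

/-! ### Products of commuting families over a list -/

section Prod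

variable {I Y : Type*} [Group Y]

/-- `f` and `g` commute at different places of `J` -/
def CommL (J : List I) (f g : I → Y) : Prop := ∀ i ∈ J, ∀ j ∈ J, i ≠ j → Commute (f i) (g j)

def pr (J : List I) (f : I → Y) : Y := (J.map f).prod

theorem pr_cons (j : I) (J : List I) (f : I → Y) : pr (j :: J) f = f j * pr J f := by
  unfold pr; rw [List.map_cons, List.prod_cons]

theorem pr_nil (f : I → Y) : pr [] f = 1 := rfl

theorem commute_pr {J : List I} {f : I → Y} {y : Y} (hy : ∀ j ∈ J, Commute y (f j)) : Commute y (pr J f) := by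
  induction J with
  | nil => exact Commute.one_right y
  | cons j J ih =>
    rw [pr_cons]
    exact (hy j (by simp)).mul_right (ih fun i hi => hy i (by simp [hi]))

theorem pr_mul {J : List I} (hJ : J.Nodup) {f g : I → Y} (hc : CommL J f g) :
    pr J f * pr J g = pr J (fun j => f j * g j) := by
  induction J with
  | nil => rw [pr_nil, pr_nil, pr_nil, one_mul]
  | cons j J ih =>
    rw [List.nodup_cons] at hJ
    have h1 : Commute (g j) (pr J f) := commute_pr fun i hi =>
      (hc i (by simp [hi]) j (by simp) (by rintro rfl; exact hJ.1 hi)).symm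
    rw [pr_cons, pr_cons, pr_cons, ← ih hJ.2 fun i hi k hk => hc i (by simp [hi]) k (by simp [hk])]
    calc f j * pr J f * (g j * pr J g) = f j * (pr J f * g j) * pr J g := by group
      _ = f j * (g j * pr J f) * pr J g := by rw [h1.eq]
      _ = f j * g j * (pr J f * pr J g) := by group

theorem pr_one (J : List I) : pr J (fun _ => (1 : Y)) = 1 := by
  induction J with
  | nil => rfl
  | cons j J ih => rw [pr_cons, ih, one_mul]

theorem pr_congr {J : List I} {f g : I → Y} (hfg : ∀ j ∈ J, f j = g j) : pr J f = pr J g := by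
  unfold pr
  rw [List.map_congr_left hfg]

theorem pr_inv {J : List I} (hJ : J.Nodup) {f : I → Y} (hc : CommL J f f) :
    (pr J f)⁻¹ = pr J (fun j => (f j)⁻¹) := by
  rw [inv_eq_iff_mul_eq_one, pr_mul hJ fun i hi j hj hij => (hc i hi j hj hij).inv_right]
  rw [pr_congr (g := fun _ => 1) fun j _ => mul_inv_cancel _, pr_one]

theorem pr_conj {J : List I} (hJ : J.Nodup) {f g : I → Y} (hc : CommL J g f) (hg : CommL J g g) :
    pr J g * pr J f * (pr J g)⁻¹ = pr J (fun j => g j * f j * (g j)⁻¹) := by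
  rw [pr_inv hJ hg, pr_mul hJ hc, pr_mul hJ]
  intro i hi j hj hij
  exact ((hg i hi j hj hij).inv_right).mul_left ((hc j hj i hi (Ne.symm hij)).symm.inv_right)

theorem pr_map {Z : Type*} [Group Z] (φ : Y →* Z) (J : List I) (f : I → Y) : φ (pr J f) = pr J (fun j => φ (f j)) := by
  unfold pr
  rw [map_list_prod, List.map_map]
  rfl

end Prod

variable {I W Y K : Type*} [Fintype I] [DecidableEq I] [Group W] [Group Y] [Field K] {M : CoxeterMatrix I}
variable {cs : CoxeterSystem M W} {A : I → I → ℤ} {h : IsCartan M A} {e : (I → ℤ) → K → Y}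
  {p : ℕ} {T : Subgroup Y} {n : I → Y} {X : (I → ℤ) → Subgroup Y}

/-- pairwise orthogonal simple roots -/
structure Orth (cs : CoxeterSystem M W) (h : IsCartan M A) (J : List I) : Prop where
  nodup : J.Nodup
  zero : ∀ i ∈ J, ∀ j ∈ J, i ≠ j → cpr cs h (sr i) (sr j) = 0

/-- the rank one group of the simple root `j` -/
def SS (X : (I → ℤ) → Subgroup Y) (j : I) : Subgroup Y := X (sr j) ⊔ X (-sr j)

section

variable [Finite W] {R : RGD cs h p T n X} (S : Sys R e) {J : List I} (hJ : Orth cs h J)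

include S hJ

theorem SS_comm {i j : I} (hi : i ∈ J) (hj : j ∈ J) (hij : i ≠ j) {a b : Y} (ha : a ∈ SS X i) (hb : b ∈ SS X j) :
    Commute a b := by
  have hri := isRoot_sr cs h i
  have hrj := isRoot_sr cs h j
  have h0 := hJ.zero i hi j hj hij
  have key : SS X i ≤ Subgroup.centralizer (SS X j : Set Y) := by
    have h1 : ∀ x y : I → ℤ, IsRoot cs h x → IsRoot cs h y → cpr cs h x y = 0 → X x ≤ Subgroup.centralizer (X y : Set Y) := by
      intro x y hx hy hc u hu
      rw [Subgroup.mem_centralizer_iff]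
      intro v hv
      obtain ⟨s, rfl⟩ := (S.mem_X x hx u).1 hu
      obtain ⟨t, rfl⟩ := (S.mem_X y hy v).1 hv
      exact (S.data.comm_of_nonneg hx hy (le_of_eq hc.symm) s t).symm
    have h2 : ∀ x : I → ℤ, X x ≤ Subgroup.centralizer (X (sr j) : Set Y) → X x ≤ Subgroup.centralizer (X (-sr j) : Set Y) →
        X x ≤ Subgroup.centralizer (SS X j : Set Y) := by
      intro x h3 h4 u hu
      have h5 : SS X j ≤ Subgroup.centralizer ({u} : Set Y) := by
        refine sup_le ?_ ?_
        · intro v hv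
          rw [Subgroup.mem_centralizer_singleton_iff]
          exact Subgroup.mem_centralizer_iff.1 (h3 hu) v hv
        · intro v hv
          rw [Subgroup.mem_centralizer_singleton_iff]
          exact Subgroup.mem_centralizer_iff.1 (h4 hu) v hv
      rw [Subgroup.mem_centralizer_iff]
      intro v hv
      exact Subgroup.mem_centralizer_singleton_iff.1 (h5 hv)
    refine sup_le (h2 _ (h1 _ _ hri hrj h0) (h1 _ _ hri hrj.neg ?_)) (h2 _ (h1 _ _ hri.neg hrj ?_) (h1 _ _ hri.neg hrj.neg ?_))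
    · rw [cpr_neg_right cs h _ hrj, h0, neg_zero]
    · rw [cpr_neg cs h _ hrj, h0, neg_zero]
    · rw [cpr_neg_right cs h _ hrj, cpr_neg cs h _ hrj, h0, neg_zero, neg_zero]
  exact (Subgroup.mem_centralizer_iff.1 (key ha) b hb).symm

theorem commL {f g : I → Y} (hf : ∀ j ∈ J, f j ∈ SS X j) (hg : ∀ j ∈ J, g j ∈ SS X j) : CommL J f g :=
  fun i hi j hj hij => SS_comm S hJ hi hj hij (hf i hi) (hg j hj)

omit hJ in
theorem e_mem (j : I) (c : K) : e (sr j) c ∈ SS X j := Subgroup.mem_sup_left (S.mem (isRoot_sr cs h j) c)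

omit hJ in
theorem e_neg_mem (j : I) (c : K) : e (-sr j) c ∈ SS X j := Subgroup.mem_sup_right (S.mem (isRoot_sr cs h j).neg c)

omit hJ in
theorem nc_mem (j : I) (c : K) : nc e (sr j) c ∈ SS X j := by
  rw [nc_def]; exact mul_mem (mul_mem (e_mem S j _) (e_neg_mem S j _)) (e_mem S j _)

omit hJ in
theorem nel_mem (j : I) : nel e (sr j) ∈ SS X j := nc_mem S j 1

omit hJ in
theorem hel_memS (j : I) (c : K) : hel e (sr j) c ∈ SS X j := mul_mem (nc_mem S j c) (nel_mem S j)

omit hJ in
theorem nel_eq_conj (j : I) :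
    nel e (sr j) = (e (sr j) 1 * nel e (sr j)) * e (sr j) 1 * (e (sr j) 1 * nel e (sr j))⁻¹ := by
  have hr := isRoot_sr cs h j
  have h1 := S.data.refl j _ hr 1
  rw [rep_simple_sr] at h1
  have h2 : e (sr j) 1 * nel e (sr j) * e (sr j) 1 * (e (sr j) 1 * nel e (sr j))⁻¹ =
      e (sr j) 1 * (nel e (sr j) * e (sr j) 1 * (nel e (sr j))⁻¹) * (e (sr j) 1)⁻¹ := by group
  rw [h2, h1, S.data.inv hr, nel_def]

/-- **`nJ` is conjugate to `vJ`.** -/
theorem nJ_conj : pr J (fun j => nel e (sr j)) =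
    pr J (fun j => e (sr j) 1 * nel e (sr j)) * pr J (fun j => e (sr j) 1) *
      (pr J (fun j => e (sr j) 1 * nel e (sr j)))⁻¹ := by
  rw [pr_conj hJ.nodup (commL S hJ (fun j _ => mul_mem (e_mem S j _) (nel_mem S j)) fun j _ => e_mem S j _)
    (commL S hJ (fun j _ => mul_mem (e_mem S j _) (nel_mem S j)) fun j _ => mul_mem (e_mem S j _) (nel_mem S j))]
  exact pr_congr fun j _ => nel_eq_conj S j

theorem nJ_sq : pr J (fun j => nel e (sr j)) * pr J (fun j => nel e (sr j)) = 1 := by
  rw [pr_mul hJ.nodup (commL S hJ (fun j _ => nel_mem S j) fun j _ => nel_mem S j),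
    pr_congr (g := fun _ => 1) fun j _ => nel_mul_nel S (isRoot_sr cs h j), pr_one]

theorem nJ_inv : (pr J (fun j => nel e (sr j)))⁻¹ = pr J (fun j => nel e (sr j)) :=
  inv_eq_of_mul_eq_one_right (nJ_sq S hJ)

theorem nJ_tJ (hG1 : RGD.Sup X {x | IsRoot cs h x} = ⊤) (hN : NoCent cs h T X) {c : K} (hc : c ≠ 0) :
    pr J (fun j => nel e (sr j)) * pr J (fun j => hel e (sr j) c) * (pr J (fun j => nel e (sr j)))⁻¹ =
      pr J (fun j => hel e (sr j) c⁻¹) := by
  rw [pr_conj hJ.nodup (commL S hJ (fun j _ => nel_mem S j) fun j _ => hel_memS S j c)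
    (commL S hJ (fun j _ => nel_mem S j) fun j _ => nel_mem S j)]
  refine pr_congr fun j _ => ?_
  rw [nel_hel S hG1 hN (isRoot_sr cs h j) hc, mul_inv_cancel_right]

theorem tJ_mul (hG1 : RGD.Sup X {x | IsRoot cs h x} = ⊤) (hN : NoCent cs h T X) {c d : K} (hc : c ≠ 0) (hd : d ≠ 0) :
    pr J (fun j => hel e (sr j) c) * pr J (fun j => hel e (sr j) d) = pr J (fun j => hel e (sr j) (c * d)) := by
  rw [pr_mul hJ.nodup (commL S hJ (fun j _ => hel_memS S j c) fun j _ => hel_memS S j d)]
  exact pr_congr fun j _ => hel_mul S hG1 hN (isRoot_sr cs h j) hc hd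

omit hJ in
theorem hel_one (hG1 : RGD.Sup X {x | IsRoot cs h x} = ⊤) (hN : NoCent cs h T X) (j : I) : hel e (sr j) 1 = 1 := by
  have h1 := hel_mul S hG1 hN (isRoot_sr cs h j) (one_ne_zero (α := K)) one_ne_zero
  rw [mul_one] at h1
  exact mul_eq_left.1 h1

theorem tJ_inv (hG1 : RGD.Sup X {x | IsRoot cs h x} = ⊤) (hN : NoCent cs h T X) {c : K} (hc : c ≠ 0) :
    (pr J (fun j => hel e (sr j) c))⁻¹ = pr J (fun j => hel e (sr j) c⁻¹) := by
  rw [inv_eq_iff_mul_eq_one, tJ_mul S hJ hG1 hN hc (inv_ne_zero hc), mul_inv_cancel₀ hc,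
    pr_congr (g := fun _ => 1) fun j _ => hel_one S hG1 hN j, pr_one]

theorem tJ_pow (hG1 : RGD.Sup X {x | IsRoot cs h x} = ⊤) (hN : NoCent cs h T X) {c : K} (hc : c ≠ 0) (m : ℕ) :
    (pr J (fun j => hel e (sr j) c)) ^ m = pr J (fun j => hel e (sr j) (c ^ m)) := by
  induction m with
  | zero => rw [pow_zero, pow_zero, pr_congr (g := fun _ => 1) fun j _ => hel_one S hG1 hN j, pr_one]
  | succ m ih => rw [pow_succ, ih, tJ_mul S hJ hG1 hN (pow_ne_zero m hc) hc, pow_succ]

omit hJ in
theorem tJ_mem (hG1 : RGD.Sup X {x | IsRoot cs h x} = ⊤) {c : K} (hc : c ≠ 0) (J : List I) :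
    pr J (fun j => hel e (sr j) c) ∈ T := by
  induction J with
  | nil => exact one_mem _
  | cons j J ih => rw [pr_cons]; exact mul_mem (hel_mem S hG1 (isRoot_sr cs h j) hc) ih

omit hJ in
theorem nJ_rp (J : List I) : Rp cs R.nsys (cs.wordProd J) (pr J (fun j => nel e (sr j))) := by
  induction J with
  | nil => exact rp_one
  | cons j J ih =>
    rw [pr_cons, wordProd_cons, ← S.n_eq]
    exact (rp_simple cs R.nsys j).mul ih

omit hJ in
/-- the action of `tJ` on the root elements -/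
theorem tJ_act {x : I → ℤ} (hx : IsRoot cs h x) {c : K} (hc : c ≠ 0) (J : List I) (a : K) :
    pr J (fun j => hel e (sr j) c) * e x a * (pr J (fun j => hel e (sr j) c))⁻¹ =
      e x (c ^ (J.map fun j => cpr cs h x (sr j)).sum * a) := by
  induction J with
  | nil => rw [pr_nil, List.map_nil, List.sum_nil, zpow_zero, one_mul, one_mul, inv_one, mul_one]
  | cons j J ih =>
    have h1 : (hel e (sr j) c * pr J fun j => hel e (sr j) c) * e x a * (hel e (sr j) c * pr J fun j => hel e (sr j) c)⁻¹ =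
        hel e (sr j) c * (pr J (fun j => hel e (sr j) c) * e x a * (pr J fun j => hel e (sr j) c)⁻¹) *
          (hel e (sr j) c)⁻¹ := by group
    rw [pr_cons, List.map_cons, List.sum_cons, zpow_add₀ hc, mul_assoc (c ^ _) (c ^ _) a, h1, ih,
      S.data.hel_conj hx (isRoot_sr cs h j) hc]

omit hJ in
theorem chi_tJ (hG1 : RGD.Sup X {x | IsRoot cs h x} = ⊤) {x : I → ℤ} (hx : IsRoot cs h x) {c : K} (hc : c ≠ 0)
    (J : List I) : chS e x (pr J (fun j => hel e (sr j) c)) = c ^ (J.map fun j => cpr cs h x (sr j)).sum :=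
  chS_eq S hx (tJ_mem S hG1 hc J) fun a => tJ_act S hx hc J a

end

/-- the characters extend to the root lattice -/
theorem chAdd [Finite W] {R : RGD cs h p T n X} (S : Sys R e) : ChAdd cs h T (chS e) := by
  intro t ht
  obtain ⟨χ, hχ⟩ := S.chi t ht
  refine ⟨fun x => (((χ x).toMul : Kˣ) : K), ?_, fun x y => ?_, fun a ha => chS_eq S ha ht (hχ a ha)⟩
  · show (((χ 0).toMul : Kˣ) : K) = 1
    rw [map_zero, toMul_zero, Units.val_one]
  · show (((χ (x + y)).toMul : Kˣ) : K) = _
    rw [map_add, toMul_add, Units.val_mul]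

/-- `wJ` preserves the sign of the roots other than `±sr j`, `j ∈ J`. -/
theorem wJ_nonneg [Finite W] {J : List I} (hJ : Orth cs h J) : ∀ (J' : List I), J'.Sublist J → ∀ {a : I → ℤ},
    IsRoot cs h a → (∀ j ∈ J', a ≠ sr j) → 0 ≤ a → 0 ≤ rep cs h (cs.wordProd J') a := by
  have hfix : ∀ (J' : List I), (∀ i ∈ J', i ∈ J) → ∀ j ∈ J, j ∉ J' → rep cs h (cs.wordProd J') (sr j) = sr j := by
    intro J'
    induction J' with
    | nil => intro _ j _ _; rw [wordProd_nil, map_one, Module.End.one_apply]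
    | cons i J' ih =>
      intro hs j hj hjn
      rw [wordProd_cons, rep_mul_apply, ih (fun k hk => hs k (by simp [hk])) j hj (fun h0 => hjn (by simp [h0])),
        rep_simple_eq, ← cpr_sr cs h, hJ.zero j hj i (hs i (by simp)) (by rintro rfl; exact hjn (by simp)),
        zero_smul, sub_zero]
  intro J'
  induction J' with
  | nil => intro _ a _ _ h0; rwa [wordProd_nil, map_one, Module.End.one_apply]
  | cons j J' ih =>
    intro hs a ha hne h0
    have hs' : J'.Sublist J := (List.sublist_cons_self j J').trans hs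
    have h1 := ih hs' ha (fun i hi => hne i (by simp [hi])) h0
    rw [wordProd_cons, rep_mul_apply]
    refine (ha.act (cs.wordProd J')).simple_nonneg h1 j fun h2 => ?_
    have hnd : (j :: J').Nodup := hs.nodup hJ.nodup
    rw [List.nodup_cons] at hnd
    have h3 := hfix J' (fun i hi => hs'.subset hi) j (hs.subset (by simp)) hnd.1
    rw [← h3] at h2
    have h4 := congrArg (rep cs h (cs.wordProd J')⁻¹) h2
    rw [rep_inv_apply, rep_inv_apply] at h4
    exact hne j (by simp) h4

end Cfsg.Agent.H737.SK.Gen
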