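import Cfsg.Agent.BpExc.TorCent

/-!
# S3010, characteristic two: `O_p(C_K(⟨t, v⟩)) = 1` (helper737)

`Y` a group with root group data and coordinates, `t ∈ T` of prime order `l` (on the characters), `v` a `p`-element over
`w' ∈ W` inverting `t`, such that `w'` preserves the sign of every root of `Sx t`. `K ≤ Y` is closed under the Bruhat normal
form. Then every normal `p`-subgroup of `K ∩ C(t) ∩ C(v)` is trivial.
-/

set_option autoImplicit false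
set_option linter.unusedSectionVars false

namespace Cfsg.Agent.H737.SK.O2

open CoxeterSystem Cfsg.Agent.ChevalleyStructure.CoxeterGeom Cfsg.Agent.Tits.Roots Cfsg.Agent.Tits.Core
  Cfsg.Agent.Tits.Exchange Cfsg.Agent.Nodes.Reps Cfsg.Agent.Nodes.BNOf Cfsg.Agent.Nodes.StabComb
  Cfsg.Agent.Nodes.Bruhat Cfsg.Agent.Nodes.OppDec Cfsg.Agent.Nodes.LeviDec Cfsg.Agent.Nodes.NormalForm
  Cfsg.Agent.KFacts.RgdField Cfsg.Agent.BpExc.TorCent

/-! ### A `p`-element acting on a `p`-group has fixed points -/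

theorem exists_fixed {Y : Type*} [Group Y] [Finite Y] {p : ℕ} [Fact p.Prime] {Q : Subgroup Y} (hQ : IsPGroup p Q)
    (hQ1 : Q ≠ ⊥) {v : Y} (hv : ∃ m : ℕ, v ^ p ^ m = 1) (hn : ∀ z ∈ Q, v * z * v⁻¹ ∈ Q) :
    ∃ z ∈ Q, z ≠ 1 ∧ v * z = z * v := by
  have hvN : v ∈ Subgroup.normalizer (Q : Set Y) := by
    rw [mem_normalizer_iff_cj]
    refine Subgroup.eq_of_le_of_card_ge ?_ ?_
    · intro z hz
      obtain ⟨y, hy, rfl⟩ := hz
      exact hn y hy
    · exact le_of_eq (Subgroup.card_map_of_injective (MulEquiv.injective _)).symm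
  have hle : Subgroup.zpowers v ≤ Subgroup.normalizer (Q : Set Y) := by
    rw [Subgroup.zpowers_le]; exact hvN
  have hH : IsPGroup p (Subgroup.zpowers v) := by
    obtain ⟨m, hm⟩ := hv
    rintro ⟨g, j, rfl⟩
    refine ⟨m, Subtype.ext ?_⟩
    show (v ^ j) ^ p ^ m = 1
    rw [← zpow_natCast, ← zpow_mul, mul_comm, zpow_mul, zpow_natCast, hm, one_zpow]
  let _ : MulAction (Subgroup.zpowers v) Q :=
    MulAction.compHom Q ((Subgroup.normalizerMonoidHom Q).comp (Subgroup.inclusion hle))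
  have hsm : ∀ (g : Subgroup.zpowers v) (z : Q), ((g • z : Q) : Y) = (g : Y) * z * (g : Y)⁻¹ := fun g z => rfl
  have h1 : (1 : Q) ∈ MulAction.fixedPoints (Subgroup.zpowers v) Q := by
    intro g
    apply Subtype.ext
    rw [hsm]
    simp
  have hd : p ∣ Nat.card Q := by
    obtain ⟨k, hk⟩ := IsPGroup.iff_card.1 hQ
    rw [hk]
    rcases k with _ | k
    · exfalso
      rw [pow_zero] at hk
      exact hQ1 (Subgroup.card_eq_one.1 hk)
    · exact dvd_pow_self p (Nat.succ_ne_zero k)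
  obtain ⟨b, hb, hb1⟩ := hH.exists_fixed_point_of_prime_dvd_card_of_fixed_point Q hd h1
  refine ⟨b, b.2, fun h0 => hb1 (Subtype.ext h0.symm), ?_⟩
  have h2 := congrArg Subtype.val (hb ⟨v, Subgroup.mem_zpowers v⟩)
  rw [hsm] at h2
  exact mul_inv_eq_iff_eq_mul.1 h2

variable {I W Y : Type*} [Fintype I] [DecidableEq I] [Group W] [Group Y] {M : CoxeterMatrix I}
  {cs : CoxeterSystem M W} {A : I → I → ℤ} {h : IsCartan M A} {p : ℕ} {T : Subgroup Y} {n : I → Y}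
  {X : (I → ℤ) → Subgroup Y} {F : Type*} [Field F] {xx : (I → ℤ) → F → Y} {χ : (I → ℤ) → Y → F}

theorem NW_eq_PW [Finite W] (w : W) : NW cs h w = PW cs h (w0 cs * w) := by
  ext x
  constructor
  · rintro ⟨h1, h2, h3⟩
    refine ⟨h1, h2, ?_⟩
    rw [rep_mul_apply]
    have h4 := rep_w0_nonpos (cs := cs) (h := h) (h1.act w).neg (neg_nonneg.2 h3)
    rw [map_neg] at h4
    exact neg_nonpos.1 h4
  · rintro ⟨h1, h2, h3⟩
    refine ⟨h1, h2, ?_⟩
    rcases (h1.act w).pos_or_neg with h4 | h4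
    · exfalso
      rw [rep_mul_apply] at h3
      exact ((h1.act w).act (w0 cs)).not_pos_neg h3 (rep_w0_nonpos (h1.act w) h4)
    · exact h4

/-- The normal form of an element of the centraliser of `t ∈ T`, with `v` in the right place. -/
theorem exists_cform [Finite W] (R : RGD cs h p T n X) {t : Y} (ht : t ∈ T) {g : Y} (hg : g ∈ GG cs h T X)
    (hc : g ∈ Subgroup.centralizer {t}) :
    ∃ u ∈ RGD.Sup (fun x => X x ⊓ Subgroup.centralizer {t}) (RGD.Pos cs h),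
      ∃ w k, Rp cs R.nsys w k ∧ k ∈ Subgroup.centralizer {t} ∧
      ∃ v ∈ RGD.Sup (fun x => X x ⊓ Subgroup.centralizer {t}) (NW cs h w), g = u * k * v := by
  have hS : ({t} : Set Y) ⊆ T := Set.singleton_subset_iff.2 ht
  obtain ⟨w, hw⟩ := (mem_GG R).1 hg
  obtain ⟨u, hu, k, hk, v, hv, rfl⟩ := exists_normal_form R hw
  obtain ⟨h1, h2, h3⟩ := centralizer_form R hS hu hk hv hc
  refine ⟨u, ?_, w, k, hk, h2, v, ?_, rfl⟩
  · rw [← centralizer_U R hS]; exact ⟨hu, h1⟩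
  · rw [NW_eq_PW] at hv ⊢
    exact centralizer_PW R _ hS hv h3

section Main

variable (R : RGD cs h p T n X) (C : Coords cs h T n X xx χ)

/-- conjugation by `v` of the groups `Sup (X ⊓ C(t)) S` -/
theorem conj_Sup_mem {t v : Y} {w' : W} (hv : Rp cs R.nsys w' v) (hc : ∀ z, z ∈ Subgroup.centralizer {t} →
      v * z * v⁻¹ ∈ Subgroup.centralizer {t}) {S S' : Set (I → ℤ)} (hS : ∀ a ∈ S, IsRoot cs h a)
    (hSS : ∀ a ∈ S, (∃ z ∈ X a, z ≠ 1 ∧ z ∈ Subgroup.centralizer {t}) → rep cs h w' a ∈ S') {g : Y}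
    (hg : g ∈ RGD.Sup (fun x => X x ⊓ Subgroup.centralizer {t}) S) :
    v * g * v⁻¹ ∈ RGD.Sup (fun x => X x ⊓ Subgroup.centralizer {t}) S' := by
  have key : RGD.Sup (fun x => X x ⊓ Subgroup.centralizer {t}) S ≤
      (RGD.Sup (fun x => X x ⊓ Subgroup.centralizer {t}) S').comap (MulAut.conj v).toMonoidHom := by
    refine RGD.Sup_le fun a ha => ?_
    rintro z ⟨hz, hzc⟩
    rw [Subgroup.mem_comap]
    show v * z * v⁻¹ ∈ _
    by_cases h1 : z = 1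
    · rw [h1, mul_one, mul_inv_cancel]; exact one_mem _
    · exact RGD.le_Sup (X := fun x => X x ⊓ Subgroup.centralizer {t}) (hSS a ha ⟨z, hz, h1, hzc⟩)
        ⟨R.conj_mem hv (hS a ha) hz, hc z hzc⟩
  exact key hg

include R C in
theorem rep_mem_Sx {t v : Y} (ht : t ∈ T) {w' : W} (hv : Rp cs R.nsys w' v) (hinv : v * t * v⁻¹ = t⁻¹)
    {a : I → ℤ} (ha : a ∈ Sx cs h χ t) : rep cs h w' a ∈ Sx cs h χ t := by
  refine ⟨ha.1.act w', ?_⟩
  have h1 := C.chi_rp R.nsys hv ha.1 ht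
  rw [hinv, ha.2] at h1
  -- `χ (w' a) (t⁻¹) = 1`
  have hco := C.coord _ (ha.1.act w')
  have h2 := hco.act _ (inv_mem ht) 1
  rw [h1, one_mul] at h2
  have h3 := hco.act _ ht 1
  have h4 : t * (t⁻¹ * xx (rep cs h w' a) 1 * t⁻¹⁻¹) * t⁻¹ = xx (rep cs h w' a) 1 := by group
  rw [h2, h3] at h4
  have h5 := hco.inj h4
  rwa [mul_one] at h5

theorem conj_centralizer {t v : Y} (hinv : v * t * v⁻¹ = t⁻¹) {z : Y} (hz : z ∈ Subgroup.centralizer {t}) :
    v * z * v⁻¹ ∈ Subgroup.centralizer {t} := by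
  rw [Subgroup.mem_centralizer_singleton_iff] at hz ⊢
  have h1 : t = v * t⁻¹ * v⁻¹ := by
    have h2 : (v * t * v⁻¹)⁻¹ = t := by rw [hinv, inv_inv]
    calc t = (v * t * v⁻¹)⁻¹ := h2.symm
      _ = v * t⁻¹ * v⁻¹ := by group
  have hz' : z * t⁻¹ = t⁻¹ * z := by
    calc z * t⁻¹ = t⁻¹ * (t * z) * t⁻¹ := by group
      _ = t⁻¹ * (z * t) * t⁻¹ := by rw [hz]
      _ = t⁻¹ * z := by group
  calc v * z * v⁻¹ * t = v * z * v⁻¹ * (v * t⁻¹ * v⁻¹) := by rw [← h1]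
    _ = v * (z * t⁻¹) * v⁻¹ := by group
    _ = v * (t⁻¹ * z) * v⁻¹ := by rw [hz']
    _ = (v * t⁻¹ * v⁻¹) * (v * z * v⁻¹) := by group
    _ = t * (v * z * v⁻¹) := by rw [← h1]

variable {t v : Y} (ht : t ∈ T) {w' : W} (hv : Rp cs R.nsys w' v) (hinv : v * t * v⁻¹ = t⁻¹)
  (hChar : ChAdd cs h T χ) (hA : ∀ a ∈ Sx cs h χ t, 0 ≤ a → 0 ≤ rep cs h w' a)

include R C ht hChar hA in
theorem nonpos_of_nonpos {a : I → ℤ} (ha : a ∈ Sx cs h χ t) (h0 : a ≤ 0) : rep cs h w' a ≤ 0 := by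
  have h1 := hA (-a) (chi_neg C ht hChar ha) (neg_nonneg.2 h0)
  rw [map_neg] at h1
  exact neg_nonneg.1 h1

include R C ht hv hinv hChar hA in
/-- **The parts of the normal form of an element of `C(t) ∩ C(v)` commute with `v`.** -/
theorem parts_commute [Finite W] {w : W} {u k b : Y}
    (hu : u ∈ RGD.Sup (fun x => X x ⊓ Subgroup.centralizer {t}) (RGD.Pos cs h))
    (hk : Rp cs R.nsys w k) (hkc : k ∈ Subgroup.centralizer {t})
    (hb : b ∈ RGD.Sup (fun x => X x ⊓ Subgroup.centralizer {t}) (NW cs h w))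
    (hg : v * (u * k * b) = u * k * b * v) :
    v * u = u * v ∧ v * k = k * v ∧ v * b = b * v ∧ w' * w = w * w' := by
  have hcen := fun z => conj_centralizer (v := v) (t := t) hinv (z := z)
  have e0 : (v * u * v⁻¹) * (v * k * v⁻¹) * (v * b * v⁻¹) = u * k * b := by
    have : (v * u * v⁻¹) * (v * k * v⁻¹) * (v * b * v⁻¹) = v * (u * k * b) * v⁻¹ := by group
    rw [this, hg]; group
  have hu' : v * u * v⁻¹ ∈ RGD.Sup (fun x => X x ⊓ Subgroup.centralizer {t}) (RGD.Pos cs h) := by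
    refine conj_Sup_mem R hv (fun z hz => hcen z hz) (fun a ha => ha.1) (fun a ha => ?_) hu
    rintro ⟨z, hz, hz1, hzc⟩
    exact ⟨ha.1.act w', hA a (mem_Sx_of_centralizer C ht ha.1 hz hz1 hzc) ha.2⟩
  have hb' : v * b * v⁻¹ ∈ RGD.Sup (fun x => X x ⊓ Subgroup.centralizer {t}) (NW cs h (w' * w * w'⁻¹)) := by
    refine conj_Sup_mem R hv (fun z hz => hcen z hz) (fun a ha => ha.1) (fun a ha => ?_) hb
    rintro ⟨z, hz, hz1, hzc⟩
    have h1 := mem_Sx_of_centralizer C ht ha.1 hz hz1 hzc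
    refine ⟨ha.1.act w', hA a h1 ha.2.1, ?_⟩
    rw [rep_mul_apply, rep_mul_apply, rep_inv_apply]
    refine nonpos_of_nonpos R C ht hChar hA ⟨ha.1.act w, ?_⟩ ha.2.2
    rw [chi_of_centralizer R C ht hk hkc ha.1]
    exact h1.2
  have hk' : Rp cs R.nsys (w' * w * w'⁻¹) (v * k * v⁻¹) := (hv.mul hk).mul hv.inv
  have hSup : ∀ S : Set (I → ℤ), RGD.Sup (fun x => X x ⊓ Subgroup.centralizer {t}) S ≤ RGD.Sup X S := fun S =>
    RGD.Sup_le fun a ha => le_trans inf_le_left (RGD.le_Sup ha)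
  have hNW : ∀ w : W, RGD.Sup X (NW cs h w) ≤ RGD.B cs h T X := fun w =>
    le_trans (RGD.Sup_mono (S := NW cs h w) (S' := RGD.Pos cs h) fun x hx => ⟨hx.1, hx.2.1⟩) RGD.U_le_B
  have hcell : Cell R.nsys cs h X w (u * k * b) :=
    ⟨u, RGD.U_le_B (hSup _ hu), k, hk, b, hNW w (hSup _ hb), rfl⟩
  have hcell' : Cell R.nsys cs h X (w' * w * w'⁻¹) (u * k * b) := by
    rw [← e0]
    exact ⟨_, RGD.U_le_B (hSup _ hu'), _, hk', _, hNW _ (hSup _ hb'), rfl⟩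
  have hww : w' * w * w'⁻¹ = w := Cell.unique R hcell' hcell
  rw [hww] at hk' hb'
  obtain ⟨h1, h2, h3⟩ := normal_form_unique R (hSup _ hu') (hSup _ hu) hk' hk (hSup _ hb') (hSup _ hb) e0
  exact ⟨mul_inv_eq_iff_eq_mul.1 h1, mul_inv_eq_iff_eq_mul.1 h2, mul_inv_eq_iff_eq_mul.1 h3,
    mul_inv_eq_iff_eq_mul.1 hww⟩

/-- `K` is closed under the normal form. -/
def NF (R : RGD cs h p T n X) (K : Subgroup Y) : Prop :=
  ∀ (w : W) (u k b : Y), u ∈ RGD.Sup X (RGD.Pos cs h) → Rp cs R.nsys w k → b ∈ RGD.Sup X (NW cs h w) →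
    u * k * b ∈ K → u ∈ K ∧ k ∈ K ∧ b ∈ K

include R C ht hv hinv hChar hA in
/-- **A `p`-subgroup of `H = K ∩ C(t) ∩ C(v)` containing `H ∩ U` lies in `U`.** -/
theorem le_U [Finite W] [Finite Y] [Fact p.Prime] {l : ℕ} (hl : l.Prime) (hlp : l ≠ p)
    (htl : ∀ a, IsRoot cs h a → χ a t ^ l = 1) (hvp : ∃ m : ℕ, v ^ p ^ m = 1) (hG : GG cs h T X = ⊤)
    {K : Subgroup Y} (hK : NF R K) (hvK : v ∈ K)
    (hB : ∀ w : W, (∃ k ∈ K ⊓ Subgroup.centralizer {t}, Rp cs R.nsys w k) → ∀ a ∈ Sx cs h χ t, 0 ≤ a →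
      rep cs h w a ≤ 0 → K ⊓ RGD.Sup (fun x => X x ⊓ Subgroup.centralizer {t}) (NW cs h w) ≠ ⊥)
    {P : Subgroup Y} (hP : IsPGroup p P) (hPH : P ≤ K ⊓ Subgroup.centralizer {t} ⊓ Subgroup.centralizer {v})
    (hUP : K ⊓ Subgroup.centralizer {t} ⊓ Subgroup.centralizer {v} ⊓ RGD.Sup X (RGD.Pos cs h) ≤ P) :
    P ≤ RGD.Sup X (RGD.Pos cs h) := by
  set U : Subgroup Y := RGD.Sup X (RGD.Pos cs h) with hUdef
  set H : Subgroup Y := K ⊓ Subgroup.centralizer {t} ⊓ Subgroup.centralizer {v} with hH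
  have hSup : ∀ S : Set (I → ℤ), RGD.Sup (fun x => X x ⊓ Subgroup.centralizer {t}) S ≤ RGD.Sup X S := fun S =>
    RGD.Sup_le fun a ha => le_trans inf_le_left (RGD.le_Sup ha)
  have hSupc : ∀ S : Set (I → ℤ), RGD.Sup (fun x => X x ⊓ Subgroup.centralizer {t}) S ≤
      Subgroup.centralizer {t} := fun S => RGD.Sup_le fun a ha => inf_le_right
  have hNU : ∀ w : W, RGD.Sup X (NW cs h w) ≤ U := fun w =>
    RGD.Sup_mono (S := NW cs h w) (S' := RGD.Pos cs h) fun x hx => ⟨hx.1, hx.2.1⟩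
  by_contra hne
  -- normalisers grow in `P`
  have hlt : (H ⊓ U) < P := lt_of_le_of_ne hUP (by rintro h0; exact hne (h0 ▸ inf_le_right))
  have hnil : Group.IsNilpotent P := hP.isNilpotent
  have h1 : (H ⊓ U).subgroupOf P < ⊤ := by
    rw [lt_top_iff_ne_top]
    intro h2
    rw [Subgroup.subgroupOf_eq_top] at h2
    exact absurd (lt_of_lt_of_le hlt h2) (lt_irrefl _)
  have h2 := (Group.normalizerCondition_of_isNilpotent (h := hnil)) _ h1
  obtain ⟨y, hy, hyU⟩ := SetLike.exists_of_lt h2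
  have hyn : ∀ x ∈ H ⊓ U, (y : Y) * x * (y : Y)⁻¹ ∈ H ⊓ U := by
    intro x hx
    have h4 := (Subgroup.mem_normalizer_iff.1 hy ⟨x, hUP hx⟩).1 (Subgroup.mem_subgroupOf.2 hx)
    exact Subgroup.mem_subgroupOf.1 h4
  have hyH : (y : Y) ∈ H := hPH y.2
  have hyK : (y : Y) ∈ K := (Subgroup.mem_inf.1 (Subgroup.mem_inf.1 hyH).1).1
  have hyt : (y : Y) ∈ Subgroup.centralizer {t} := (Subgroup.mem_inf.1 (Subgroup.mem_inf.1 hyH).1).2
  have hyv : (y : Y) ∈ Subgroup.centralizer {v} := (Subgroup.mem_inf.1 hyH).2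
  obtain ⟨u, hu, w, k, hk, hkc, b, hb, e⟩ := exists_cform R ht (hG ▸ Subgroup.mem_top (y : Y)) hyt
  obtain ⟨huv, hkv, hbv, -⟩ := parts_commute R C ht hv hinv hChar hA hu hk hkc hb (by
    rw [← e]; exact (Subgroup.mem_centralizer_singleton_iff.1 hyv).symm)
  obtain ⟨huK, hkK, hbK⟩ := hK w u k b (hSup _ hu) hk (hSup _ hb) (e ▸ hyK)
  have mkH : ∀ {z : Y}, z ∈ K → z ∈ Subgroup.centralizer {t} → v * z = z * v → z ∈ H := fun h1 h2 h3 =>
    ⟨⟨h1, h2⟩, Subgroup.mem_centralizer_singleton_iff.2 h3.symm⟩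
  have huH : u ∈ H ⊓ U := ⟨mkH huK (hSupc _ hu) huv, hSup _ hu⟩
  have hbH : b ∈ H ⊓ U := ⟨mkH hbK (hSupc _ hb) hbv, hNU w (hSup _ hb)⟩
  have hkP : k ∈ P := by
    have : k = u⁻¹ * y * b⁻¹ := by rw [e]; group
    rw [this]
    exact mul_mem (mul_mem (inv_mem (hUP huH)) y.2) (inv_mem (hUP hbH))
  have hkn : ∀ x ∈ H ⊓ U, k * x * k⁻¹ ∈ U := by
    intro x hx
    have hxb : b⁻¹ * x * b ∈ H ⊓ U := (H ⊓ U).mul_mem ((H ⊓ U).mul_mem ((H ⊓ U).inv_mem hbH) hx) hbH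
    have h3 : u⁻¹ * ((y : Y) * (b⁻¹ * x * b) * (y : Y)⁻¹) * u ∈ H ⊓ U :=
      (H ⊓ U).mul_mem ((H ⊓ U).mul_mem ((H ⊓ U).inv_mem huH) (hyn _ hxb)) huH
    have h4 : u⁻¹ * ((y : Y) * (b⁻¹ * x * b) * (y : Y)⁻¹) * u = k * x * k⁻¹ := by rw [e]; group
    rw [h4] at h3
    exact h3.2
  -- `w` preserves the positive roots of `Sx t`
  have hpos : ∀ a ∈ Sx cs h χ t, 0 ≤ a → 0 ≤ rep cs h w a := by
    intro a ha h0
    rcases (ha.1.act w).pos_or_neg with h3 | h3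
    · exact h3
    exfalso
    have hne1 := hB w ⟨k, ⟨hkK, hkc⟩, hk⟩ a ha h0 h3
    have hcen := fun z => conj_centralizer (v := v) (t := t) hinv (z := z)
    have hQp : IsPGroup p (K ⊓ RGD.Sup (fun x => X x ⊓ Subgroup.centralizer {t}) (NW cs h w) : Subgroup Y) := by
      have h5 : IsPGroup p U := R.isPGroup_Upos
      exact h5.to_le (le_trans inf_le_right (le_trans (hSup _) (hNU w)))
    obtain ⟨z, ⟨hzK, hz⟩, hz1, hzv⟩ := exists_fixed hQp hne1 hvp (by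
      rintro z ⟨hzK, hz⟩
      refine ⟨K.mul_mem (K.mul_mem hvK hzK) (K.inv_mem hvK), ?_⟩
      refine conj_Sup_mem R hv (fun z hz => hcen z hz) (fun a ha => ha.1) (fun a ha => ?_) hz
      rintro ⟨z, hz, hz1, hzc⟩
      have h5 := mem_Sx_of_centralizer C ht ha.1 hz hz1 hzc
      refine ⟨ha.1.act w', hA a h5 ha.2.1, ?_⟩
      have hww : w * w' = w' * w := by
        have h7 := parts_commute R C ht hv hinv hChar hA (one_mem _) hk hkc (one_mem _) (by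
          rw [one_mul, mul_one]; exact hkv)
        exact h7.2.2.2.symm
      rw [← rep_mul_apply, hww, rep_mul_apply]
      refine nonpos_of_nonpos R C ht hChar hA ⟨ha.1.act w, ?_⟩ ha.2.2
      rw [chi_of_centralizer R C ht hk hkc ha.1]
      exact h5.2)
    have hzU : z ∈ H ⊓ U := ⟨mkH hzK (hSupc _ hz) hzv, hNU w (hSup _ hz)⟩
    have h6 := hkn z hzU
    have h7 : k * z * k⁻¹ ∈ UN cs h X :=
      conj_mem_Sup R hk (S' := Neg cs h) (fun x hx => hx.1) (fun x hx => ⟨hx.1.act _, hx.2.2⟩) (hSup _ hz)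
    have h8 := eq_one_of_mem_UN_of_mem_B R h7 (RGD.U_le_B h6)
    apply hz1
    have : z = k⁻¹ * (k * z * k⁻¹) * k := by group
    rw [this, h8]; group
  -- `w = 1`
  have hwPP : w ∈ PP cs h χ t := mem_PP.2 ⟨fun a ha => chi_of_centralizer R C ht hk hkc ha, hpos⟩
  obtain ⟨m, hm⟩ := isPGroup_PP hChar ht hl htl ⟨w, hwPP⟩
  have hwl : w ^ l ^ m = 1 := congrArg Subtype.val hm
  obtain ⟨m', hm'⟩ := hP ⟨k, hkP⟩
  have hkp : k ^ p ^ m' = 1 := by simpa using congrArg Subtype.val hm'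
  have hpw : ∀ j : ℕ, Rp cs R.nsys (w ^ j) (k ^ j) := by
    intro j
    induction j with
    | zero => rw [pow_zero, pow_zero]; exact rp_one
    | succ j ih => rw [pow_succ, pow_succ]; exact ih.mul hk
  have hwp : w ^ p ^ m' = 1 := by
    have h3 := hpw (p ^ m')
    rw [hkp] at h3
    exact R.eq_one_of_mem_B h3 (one_mem _)
  have hw1 : w = 1 := by
    have hco : Nat.Coprime (l ^ m) (p ^ m') :=
      Nat.Coprime.pow _ _ ((Nat.coprime_primes hl (Fact.out : p.Prime)).2 hlp)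
    exact (orderOf_eq_one_iff.1 (Nat.eq_one_of_dvd_coprimes hco (orderOf_dvd_of_pow_eq_one hwl)
      (orderOf_dvd_of_pow_eq_one hwp)))
  subst hw1
  have hkT : k ∈ T := hk.mem_of_one
  have hk1 : k = 1 := by
    have h3 : orderOf k ∣ Nat.card T := Subgroup.orderOf_dvd_natCard T hkT
    have h4 : orderOf k ∣ p ^ m' := orderOf_dvd_of_pow_eq_one hkp
    have h5 : Nat.Coprime (Nat.card T) (p ^ m') := Nat.Coprime.pow_right _ R.tcop
    exact orderOf_eq_one_iff.1 (Nat.eq_one_of_dvd_coprimes h5 h3 h4)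
  apply hyU
  rw [Subgroup.mem_subgroupOf]
  have : (y : Y) = u * b := by rw [e, hk1, mul_one]
  rw [this]
  exact mul_mem huH hbH

include R C ht hv hinv hChar hA in
/-- **A normal `p`-subgroup of `H = K ∩ C(t) ∩ C(v)` lies in `U`.** -/
theorem normal_le_U [Finite W] [Finite Y] [Fact p.Prime] {l : ℕ} (hl : l.Prime) (hlp : l ≠ p)
    (htl : ∀ a, IsRoot cs h a → χ a t ^ l = 1) (hvp : ∃ m : ℕ, v ^ p ^ m = 1) (hG : GG cs h T X = ⊤)
    {K : Subgroup Y} (hK : NF R K) (hvK : v ∈ K)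
    (hB : ∀ w : W, (∃ k ∈ K ⊓ Subgroup.centralizer {t}, Rp cs R.nsys w k) → ∀ a ∈ Sx cs h χ t, 0 ≤ a →
      rep cs h w a ≤ 0 → K ⊓ RGD.Sup (fun x => X x ⊓ Subgroup.centralizer {t}) (NW cs h w) ≠ ⊥)
    {N : Subgroup Y} (hN : IsPGroup p N) (hNH : N ≤ K ⊓ Subgroup.centralizer {t} ⊓ Subgroup.centralizer {v})
    (hn : ∀ g ∈ K ⊓ Subgroup.centralizer {t} ⊓ Subgroup.centralizer {v}, ∀ z ∈ N, g * z * g⁻¹ ∈ N) :
    N ≤ RGD.Sup X (RGD.Pos cs h) := by
  set H : Subgroup Y := K ⊓ Subgroup.centralizer {t} ⊓ Subgroup.centralizer {v} with hH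
  have h1 : H ≤ Subgroup.normalizer (N : Set Y) := by
    intro g hg
    rw [Subgroup.mem_normalizer_iff]
    intro z
    refine ⟨hn g hg z, fun hz => ?_⟩
    have h2 := hn g⁻¹ (inv_mem hg) _ hz
    have h3 : g⁻¹ * (g * z * g⁻¹) * g⁻¹⁻¹ = z := by group
    rwa [h3] at h2
  have hUp : IsPGroup p (H ⊓ RGD.Sup X (RGD.Pos cs h) : Subgroup Y) :=
    (show IsPGroup p (RGD.Sup X (RGD.Pos cs h)) from R.isPGroup_Upos).to_le inf_le_right
  have hP : IsPGroup p (N ⊔ (H ⊓ RGD.Sup X (RGD.Pos cs h)) : Subgroup Y) :=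
    hN.to_sup_of_normal_left' hUp (le_trans inf_le_left h1)
  exact le_trans le_sup_left (le_U R C ht hv hinv hChar hA hl hlp htl hvp hG hK hvK hB hP
    (sup_le hNH inf_le_left) le_sup_right)

include R C ht hv hinv hA in
/-- **`O_p(K ∩ C(t) ∩ C(v)) = 1`.** -/
theorem normal_eq_bot [Finite W] [Finite Y] [Fact p.Prime] {l : ℕ} (hl : l.Prime) (hlp : l ≠ p)
    (hChar : ChAdd cs h T χ)
    (htl : ∀ a, IsRoot cs h a → χ a t ^ l = 1) (hvp : ∃ m : ℕ, v ^ p ^ m = 1) (hG : GG cs h T X = ⊤)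
    {K : Subgroup Y} (hK : NF R K) (hvK : v ∈ K)
    (hB : ∀ w : W, (∃ k ∈ K ⊓ Subgroup.centralizer {t}, Rp cs R.nsys w k) → ∀ a ∈ Sx cs h χ t, 0 ≤ a →
      rep cs h w a ≤ 0 → K ⊓ RGD.Sup (fun x => X x ⊓ Subgroup.centralizer {t}) (NW cs h w) ≠ ⊥)
    {m : Y} (hm : Rp cs R.nsys (w0 cs) m) (hmK : m ∈ K)
    (hB' : ∀ w : W, (∃ k ∈ K ⊓ Subgroup.centralizer {m * t * m⁻¹}, Rp cs R.nsys w k) →
      ∀ a ∈ Sx cs h χ (m * t * m⁻¹), 0 ≤ a → rep cs h w a ≤ 0 →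
      K ⊓ RGD.Sup (fun x => X x ⊓ Subgroup.centralizer {m * t * m⁻¹}) (NW cs h w) ≠ ⊥)
    {N : Subgroup Y} (hN : IsPGroup p N) (hNH : N ≤ K ⊓ Subgroup.centralizer {t} ⊓ Subgroup.centralizer {v})
    (hn : ∀ g ∈ K ⊓ Subgroup.centralizer {t} ⊓ Subgroup.centralizer {v}, ∀ z ∈ N, g * z * g⁻¹ ∈ N) : N = ⊥ := by
  have h1 := normal_le_U R C ht hv hinv hChar hA hl hlp htl hvp hG hK hvK hB hN hNH hn
  -- the conjugate situation
  have ht0 : m * t * m⁻¹ ∈ T := (Subgroup.mem_normalizer_iff.1 hm.mem_normalizer t).1 ht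
  have hchi : ∀ a, IsRoot cs h a → χ (rep cs h (w0 cs) a) (m * t * m⁻¹) = χ a t := fun a ha =>
    C.chi_rp R.nsys hm ha ht
  have hw0 : ∀ a : I → ℤ, rep cs h (w0 cs) (rep cs h (w0 cs) a) = a := by
    intro a
    have : w0 cs * w0 cs = 1 := by
      have := w0_inv cs
      rw [inv_eq_iff_mul_eq_one] at this
      exact this
    rw [← rep_mul_apply, this, map_one, Module.End.one_apply]
  have hSx : ∀ a ∈ Sx cs h χ (m * t * m⁻¹), rep cs h (w0 cs) a ∈ Sx cs h χ t := by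
    intro a ha
    refine ⟨ha.1.act _, ?_⟩
    have h2 := hchi _ (ha.1.act (w0 cs))
    rw [hw0, ha.2] at h2
    exact h2.symm
  have hA0 : ∀ a ∈ Sx cs h χ (m * t * m⁻¹), 0 ≤ a → 0 ≤ rep cs h (w0 cs * w' * (w0 cs)⁻¹) a := by
    intro a ha h0
    rw [rep_mul_apply, rep_mul_apply, w0_inv]
    have h2 := nonpos_of_nonpos R C ht hChar hA (hSx a ha) (rep_w0_nonpos ha.1 h0)
    have h3 := rep_w0_nonpos (cs := cs) (h := h) (((hSx a ha).1.act w').neg) (neg_nonneg.2 h2)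
    rw [map_neg] at h3
    exact neg_nonpos.1 h3
  have hcj : ∀ {z y : Y}, z ∈ Subgroup.centralizer {m * y * m⁻¹} ↔ m⁻¹ * z * m ∈ Subgroup.centralizer {y} := by
    intro z y
    rw [Subgroup.mem_centralizer_singleton_iff, Subgroup.mem_centralizer_singleton_iff]
    constructor
    · intro h2
      calc m⁻¹ * z * m * y = m⁻¹ * (z * (m * y * m⁻¹)) * m := by group
        _ = m⁻¹ * (m * y * m⁻¹ * z) * m := by rw [h2]
        _ = y * (m⁻¹ * z * m) := by group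
    · intro h2
      calc z * (m * y * m⁻¹) = m * (m⁻¹ * z * m * y) * m⁻¹ := by group
        _ = m * (y * (m⁻¹ * z * m)) * m⁻¹ := by rw [h2]
        _ = m * y * m⁻¹ * z := by group
  have hH0 : ∀ {z : Y}, z ∈ K ⊓ Subgroup.centralizer {m * t * m⁻¹} ⊓ Subgroup.centralizer {m * v * m⁻¹} ↔
      m⁻¹ * z * m ∈ K ⊓ Subgroup.centralizer {t} ⊓ Subgroup.centralizer {v} := by
    intro z
    rw [Subgroup.mem_inf, Subgroup.mem_inf, Subgroup.mem_inf, Subgroup.mem_inf, hcj, hcj]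
    have h2 : z ∈ K ↔ m⁻¹ * z * m ∈ K := by
      constructor
      · intro hz
        exact K.mul_mem (K.mul_mem (K.inv_mem hmK) hz) hmK
      · intro hz
        have h3 := K.mul_mem (K.mul_mem hmK hz) (K.inv_mem hmK)
        have h4 : m * (m⁻¹ * z * m) * m⁻¹ = z := by group
        rwa [h4] at h3
    rw [h2]
  have h2 : cj m N ≤ RGD.Sup X (RGD.Pos cs h) := by
    refine normal_le_U R C (t := m * t * m⁻¹) (v := m * v * m⁻¹) ht0 ((hm.mul hv).mul hm.inv) ?_ hChar hA0 hl hlp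
      (fun a ha => ?_) ?_ hG hK (K.mul_mem (K.mul_mem hmK hvK) (K.inv_mem hmK)) hB' (N := cj m N) ?_ ?_ ?_
    · calc m * v * m⁻¹ * (m * t * m⁻¹) * (m * v * m⁻¹)⁻¹ = m * (v * t * v⁻¹) * m⁻¹ := by group
        _ = m * t⁻¹ * m⁻¹ := by rw [hinv]
        _ = (m * t * m⁻¹)⁻¹ := by group
    · have h3 := hchi _ (ha.act (w0 cs))
      rw [hw0] at h3
      rw [h3]
      exact htl _ (ha.act _)
    · obtain ⟨j, hj⟩ := hvp
      refine ⟨j, ?_⟩
      have h3 : (m * v * m⁻¹) ^ p ^ j = m * v ^ p ^ j * m⁻¹ := by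
        have := (map_pow (MulAut.conj m) v (p ^ j)).symm
        simpa only [MulAut.conj_apply] using this
      rw [h3, hj, mul_one, mul_inv_cancel]
    · exact hN.map _
    · intro z hz
      rw [hH0]
      rw [mem_cj] at hz
      exact hNH hz
    · intro g hg z hz
      rw [hH0] at hg
      rw [mem_cj] at hz ⊢
      have h3 := hn _ hg _ hz
      have h4 : m⁻¹ * g * m * (m⁻¹ * z * m) * (m⁻¹ * g * m)⁻¹ = m⁻¹ * (g * z * g⁻¹) * m := by group
      rwa [h4] at h3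
  rw [eq_bot_iff]
  intro z hz
  rw [Subgroup.mem_bot]
  have h3 : m * z * m⁻¹ ∈ RGD.Sup X (RGD.Pos cs h) := h2 (conj_mem_cj.2 hz)
  have h4 : z ∈ UN cs h X := by
    have h5 : m⁻¹ * (m * z * m⁻¹) * m⁻¹⁻¹ ∈ UN cs h X := by
      refine conj_mem_Sup R (w := (w0 cs)⁻¹) hm.inv (S := RGD.Pos cs h) (S' := Neg cs h) (fun x hx => hx.1)
        (fun x hx => ⟨hx.1.act _, ?_⟩) h3
      rw [w0_inv]
      exact rep_w0_nonpos hx.1 hx.2
    have h6 : m⁻¹ * (m * z * m⁻¹) * m⁻¹⁻¹ = z := by group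
    rwa [h6] at h5
  exact eq_one_of_mem_UN_of_mem_B R h4 (RGD.U_le_B (h1 hz))

end Main

end Cfsg.Agent.H737.SK.O2
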