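import Cfsg.Agent.H737.SK.O2
import Cfsg.Agent.KFacts.RgdOpp

/-!
# S3010, characteristic two: `O_p(C(t) ∩ Fix(Γ)) = 1` for frame automorphisms (helper737)

* `FrA R α π θ` : `α` maps `X a` to `X (π a)` and representatives of `w` to representatives of `θ w`;
* `Adm R χ t K` : `K` is closed under the normal form of the elements of `C(t)` and meets the unipotent groups
  `Sup (X ⊓ C(t)) (NW w)` it should meet;
* `Adm.top`, `Adm.fix` (`K ⊓ Fix α`, `α` of `p`-power order), `Adm.fix'` (any order);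
* `Adm.normal_le_U`, `normal_eq_bot_of_adm`.
-/

set_option autoImplicit false
set_option linter.unusedSectionVars false

namespace Cfsg.Agent.H737.SK.O2

open CoxeterSystem Cfsg.Agent.ChevalleyStructure.CoxeterGeom Cfsg.Agent.Tits.Roots Cfsg.Agent.Tits.Core
  Cfsg.Agent.Tits.Exchange Cfsg.Agent.Nodes.Reps Cfsg.Agent.Nodes.BNOf Cfsg.Agent.Nodes.StabComb
  Cfsg.Agent.Nodes.Bruhat Cfsg.Agent.Nodes.OppDec Cfsg.Agent.Nodes.LeviDec Cfsg.Agent.Nodes.NormalForm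
  Cfsg.Agent.KFacts.RgdField Cfsg.Agent.BpExc.TorCent Cfsg.Agent.KFacts.RgdOpp

/-- the fixed points of an automorphism -/
def FixA {Y : Type*} [Group Y] (α : MulAut Y) : Subgroup Y where
  carrier := {z | α z = z}
  mul_mem' := by intro a b ha hb; show α (a * b) = a * b; rw [map_mul, ha, hb]
  one_mem' := map_one α
  inv_mem' := by intro a ha; show α a⁻¹ = a⁻¹; rw [map_inv, ha]

theorem mem_FixA {Y : Type*} [Group Y] {α : MulAut Y} {z : Y} : z ∈ FixA α ↔ α z = z := Iff.rfl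

theorem exists_fixed' {Y : Type*} [Group Y] [Finite Y] {p : ℕ} [Fact p.Prime] {Q : Subgroup Y} (hQ : IsPGroup p Q)
    (hQ1 : Q ≠ ⊥) {α : MulAut Y} (hn : ∀ z ∈ Q, α z ∈ Q) (hm : ∃ m : ℕ, ∀ z ∈ Q, (α ^ p ^ m) z = z) :
    ∃ z ∈ Q, z ≠ 1 ∧ α z = z := by
  classical
  have := Fintype.ofFinite Q
  have hiff : ∀ x, α x ∈ Q ↔ x ∈ Q := by
    have h1 : Q.map α.toMonoidHom = Q := by
      refine Subgroup.eq_of_le_of_card_ge ?_ ?_
      · rintro _ ⟨y, hy, rfl⟩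
        exact hn y hy
      · exact le_of_eq (Subgroup.card_map_of_injective (MulEquiv.injective _)).symm
    intro x
    refine ⟨fun hx => ?_, hn x⟩
    rw [← h1] at hx
    obtain ⟨y, hy, e⟩ := hx
    rwa [← α.injective e]
  obtain ⟨m, hm⟩ := hm
  let σ : Equiv.Perm Q := Equiv.Perm.subtypePerm (p := fun x => x ∈ Q) (α : MulAut Y).toEquiv hiff
  have hσ : ∀ z : Q, ((σ z : Q) : Y) = α z := fun z => rfl
  have hpow : ∀ (j : ℕ) (z : Q), (((σ ^ j) z : Q) : Y) = (α ^ j) z := by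
    intro j
    induction j with
    | zero => intro z; rfl
    | succ j ih =>
      intro z
      rw [pow_succ', pow_succ', Equiv.Perm.mul_apply, hσ, ih, MulAut.mul_apply]
  have hd : p ∣ Fintype.card Q := by
    rw [← Nat.card_eq_fintype_card]
    obtain ⟨k, hk⟩ := IsPGroup.iff_card.1 hQ
    rw [hk]
    rcases k with _ | k
    · exfalso
      rw [pow_zero] at hk
      exact hQ1 (Subgroup.card_eq_one.1 hk)
    · exact dvd_pow_self p (Nat.succ_ne_zero k)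
  obtain ⟨b, hb, hb1⟩ := Equiv.Perm.exists_fixed_point_of_prime' (p := p) (n := m) hd (σ := σ) (a := 1) (by
    ext z
    rw [hpow, Equiv.Perm.one_apply, hm z z.2]) (by
    apply Subtype.ext
    rw [hσ]; simp)
  refine ⟨b, b.2, fun h0 => hb1 (Subtype.ext h0), ?_⟩
  rw [← hσ, hb]

variable {I W Y : Type*} [Fintype I] [DecidableEq I] [Group W] [Group Y] {M : CoxeterMatrix I}
  {cs : CoxeterSystem M W} {A : I → I → ℤ} {h : IsCartan M A} {p : ℕ} {T : Subgroup Y} {n : I → Y}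
  {X : (I → ℤ) → Subgroup Y} {F : Type*} [Field F] {xx : (I → ℤ) → F → Y} {χ : (I → ℤ) → Y → F}

/-- A frame automorphism: `π` on the roots, `θ` on `W`. -/
structure FrA (R : RGD cs h p T n X) (α : MulAut Y) (π : (I → ℤ) → (I → ℤ)) (θ : W → W) : Prop where
  root : ∀ a, IsRoot cs h a → IsRoot cs h (π a)
  map : ∀ a, IsRoot cs h a → ∀ z ∈ X a, α z ∈ X (π a)
  rp : ∀ w k, Rp cs R.nsys w k → Rp cs R.nsys (θ w) (α k)
  rep' : ∀ w a, IsRoot cs h a → rep cs h (θ w) (π a) = π (rep cs h w a)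
  neg : ∀ a, π (-a) = - π a

/-- the groups `Sup (X ⊓ C(t)) S` -/
def CS (X : (I → ℤ) → Subgroup Y) (t : Y) (S : Set (I → ℤ)) : Subgroup Y :=
  RGD.Sup (fun x => X x ⊓ Subgroup.centralizer {t}) S

theorem CS_le_Sup {t : Y} (S : Set (I → ℤ)) : CS X t S ≤ RGD.Sup X S :=
  RGD.Sup_le fun _ ha => le_trans inf_le_left (RGD.le_Sup ha)

theorem CS_le_cent {t : Y} (S : Set (I → ℤ)) : CS X t S ≤ Subgroup.centralizer {t} :=
  RGD.Sup_le fun _ _ => inf_le_right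

theorem NW_le_U {w : W} : RGD.Sup X (NW cs h w) ≤ RGD.Sup X (RGD.Pos cs h) :=
  RGD.Sup_mono (S := NW cs h w) (S' := RGD.Pos cs h) fun _ hx => ⟨hx.1, hx.2.1⟩

/-- `K` is admissible for `t`. -/
structure Adm (R : RGD cs h p T n X) (χ : (I → ℤ) → Y → F) (t : Y) (K : Subgroup Y) : Prop where
  nf : ∀ (w : W) (u k b : Y), u ∈ CS X t (RGD.Pos cs h) → Rp cs R.nsys w k → k ∈ Subgroup.centralizer {t} →
    b ∈ CS X t (NW cs h w) → u * k * b ∈ K → u ∈ K ∧ k ∈ K ∧ b ∈ K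
  ex : ∀ w : W, (∃ k ∈ K ⊓ Subgroup.centralizer {t}, Rp cs R.nsys w k) → ∀ a ∈ Sx cs h χ t, 0 ≤ a →
    rep cs h w a ≤ 0 → K ⊓ CS X t (NW cs h w) ≠ ⊥

theorem Adm.top [Finite W] {R : RGD cs h p T n X} (C : Coords cs h T n X xx χ) {t : Y} (ht : t ∈ T) :
    Adm R χ t ⊤ where
  nf := fun _ _ _ _ _ _ _ _ _ => ⟨Subgroup.mem_top _, Subgroup.mem_top _, Subgroup.mem_top _⟩
  ex := by
    rintro w - a ha h0 h1 h2
    have h3 : X a ≤ CS X t (NW cs h w) :=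
      le_trans (le_inf le_rfl (X_le_centralizer C ht ha))
        (RGD.le_Sup (X := fun x => X x ⊓ Subgroup.centralizer {t}) ⟨ha.1, h0, h1⟩)
    rw [top_inf_eq] at h2
    rw [h2, le_bot_iff] at h3
    exact X_ne_bot R ha.1 h3

section Fix

variable {R : RGD cs h p T n X} (C : Coords cs h T n X xx χ) {t : Y} (ht : t ∈ T) {α : MulAut Y}
  {π : (I → ℤ) → (I → ℤ)} {θ : W → W} (hα : FrA R α π θ)
  (hcen : ∀ z ∈ Subgroup.centralizer {t}, α z ∈ Subgroup.centralizer {t})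
  (hpos : ∀ a ∈ Sx cs h χ t, 0 ≤ a → 0 ≤ π a) (hneg : ∀ a ∈ Sx cs h χ t, a ≤ 0 → π a ≤ 0)

include hα hcen in
theorem map_CS_mem {S S' : Set (I → ℤ)} (hS : ∀ a ∈ S, IsRoot cs h a)
    (hSS : ∀ a ∈ S, (∃ z ∈ X a, z ≠ 1 ∧ z ∈ Subgroup.centralizer {t}) → π a ∈ S') {g : Y}
    (hg : g ∈ CS X t S) : α g ∈ CS X t S' := by
  have key : CS X t S ≤ (CS X t S').comap α.toMonoidHom := by
    refine RGD.Sup_le fun a ha => ?_
    rintro z ⟨hz, hzc⟩
    rw [Subgroup.mem_comap]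
    show α z ∈ _
    by_cases h1 : z = 1
    · rw [h1, map_one]; exact one_mem _
    · exact RGD.le_Sup (X := fun x => X x ⊓ Subgroup.centralizer {t}) (hSS a ha ⟨z, hz, h1, hzc⟩)
        ⟨hα.map a (hS a ha) z hz, hcen z hzc⟩
  exact key hg

include C ht hα hcen hpos hneg in
theorem map_NW_mem {w : W} {k : Y} (hk : Rp cs R.nsys w k) (hkc : k ∈ Subgroup.centralizer {t}) {b : Y}
    (hb : b ∈ CS X t (NW cs h w)) : α b ∈ CS X t (NW cs h (θ w)) := by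
  refine map_CS_mem hα hcen (fun a ha => ha.1) (fun a ha => ?_) hb
  rintro ⟨z, hz, hz1, hzc⟩
  have h1 := mem_Sx_of_centralizer C ht ha.1 hz hz1 hzc
  refine ⟨hα.root a ha.1, hpos a h1 ha.2.1, ?_⟩
  rw [hα.rep' w a ha.1]
  refine hneg _ ⟨ha.1.act w, ?_⟩ ha.2.2
  rw [chi_of_centralizer R C ht hk hkc ha.1]
  exact h1.2

include C ht hα hcen hpos hneg in
/-- The parts of the normal form of a fixed element of `C(t)` are fixed. -/
theorem parts_fixed [Finite W] {w : W} {u k b : Y} (hu : u ∈ CS X t (RGD.Pos cs h))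
    (hk : Rp cs R.nsys w k) (hkc : k ∈ Subgroup.centralizer {t}) (hb : b ∈ CS X t (NW cs h w))
    (hg : α (u * k * b) = u * k * b) : α u = u ∧ α k = k ∧ α b = b ∧ θ w = w := by
  have hu' : α u ∈ CS X t (RGD.Pos cs h) := by
    refine map_CS_mem hα hcen (fun a ha => ha.1) (fun a ha => ?_) hu
    rintro ⟨z, hz, hz1, hzc⟩
    exact ⟨hα.root a ha.1, hpos a (mem_Sx_of_centralizer C ht ha.1 hz hz1 hzc) ha.2⟩
  have hb' := map_NW_mem C ht hα hcen hpos hneg hk hkc hb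
  have hk' := hα.rp w k hk
  have e0 : α u * α k * α b = u * k * b := by rw [← map_mul, ← map_mul, hg]
  have hcell : Cell R.nsys cs h X w (u * k * b) :=
    ⟨u, RGD.U_le_B (CS_le_Sup _ hu), k, hk, b, RGD.U_le_B (NW_le_U (CS_le_Sup _ hb)), rfl⟩
  have hcell' : Cell R.nsys cs h X (θ w) (u * k * b) := by
    rw [← e0]
    exact ⟨_, RGD.U_le_B (CS_le_Sup _ hu'), _, hk', _, RGD.U_le_B (NW_le_U (CS_le_Sup _ hb')), rfl⟩
  have hww : θ w = w := Cell.unique R hcell' hcell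
  rw [hww] at hk' hb'
  obtain ⟨h1, h2, h3⟩ := normal_form_unique R (CS_le_Sup _ hu') (CS_le_Sup _ hu) hk' hk (CS_le_Sup _ hb')
    (CS_le_Sup _ hb) e0
  exact ⟨h1, h2, h3, hww⟩

include C ht hα hcen hpos hneg in
theorem theta_eq [Finite W] {w : W} {k : Y} (hk : Rp cs R.nsys w k) (hkc : k ∈ Subgroup.centralizer {t})
    (hkα : α k = k) : θ w = w :=
  (parts_fixed C ht hα hcen hpos hneg (one_mem _) hk hkc (one_mem _) (by rw [one_mul, mul_one]; exact hkα)).2.2.2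

include C ht hα hcen hpos hneg in
/-- `K ⊓ Fix α` is admissible (any order, the second condition assumed). -/
theorem Adm.fix' [Finite W] {K : Subgroup Y} (hK : Adm R χ t K)
    (hex : ∀ w : W, (∃ k ∈ (K ⊓ FixA α) ⊓ Subgroup.centralizer {t}, Rp cs R.nsys w k) → ∀ a ∈ Sx cs h χ t, 0 ≤ a →
      rep cs h w a ≤ 0 → (K ⊓ FixA α) ⊓ CS X t (NW cs h w) ≠ ⊥) : Adm R χ t (K ⊓ FixA α) where
  nf := by
    rintro w u k b hu hk hkc hb ⟨h1, h2⟩
    obtain ⟨h3, h4, h5⟩ := hK.nf w u k b hu hk hkc hb h1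
    obtain ⟨h6, h7, h8, -⟩ := parts_fixed C ht hα hcen hpos hneg hu hk hkc hb h2
    exact ⟨⟨h3, h6⟩, ⟨h4, h7⟩, ⟨h5, h8⟩⟩
  ex := hex

include C ht hα hcen hpos hneg in
/-- `K ⊓ Fix α` is admissible, if `α` normalises `K` and has `p`-power order. -/
theorem Adm.fix [Finite W] [Finite Y] [Fact p.Prime] {K : Subgroup Y} (hK : Adm R χ t K)
    (hαK : ∀ z ∈ K, α z ∈ K) (hm : ∃ m : ℕ, ∀ z ∈ K, (α ^ p ^ m) z = z) : Adm R χ t (K ⊓ FixA α) := by
  refine hK.fix' C ht hα hcen hpos hneg ?_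
  rintro w ⟨k, ⟨⟨hkK, hkα⟩, hkc⟩, hk⟩ a ha h0 h1
  have h2 := hK.ex w ⟨k, ⟨hkK, hkc⟩, hk⟩ a ha h0 h1
  have hQp : IsPGroup p (K ⊓ CS X t (NW cs h w) : Subgroup Y) :=
    (show IsPGroup p (RGD.Sup X (RGD.Pos cs h)) from R.isPGroup_Upos).to_le
      (le_trans inf_le_right (le_trans (CS_le_Sup _) NW_le_U))
  have hθ := theta_eq C ht hα hcen hpos hneg hk hkc hkα
  obtain ⟨m, hm⟩ := hm
  obtain ⟨z, ⟨hzK, hz⟩, hz1, hzα⟩ := exists_fixed' hQp h2 (α := α) (by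
    rintro z ⟨hzK, hz⟩
    refine ⟨hαK z hzK, ?_⟩
    have := map_NW_mem C ht hα hcen hpos hneg hk hkc hz
    rwa [hθ] at this) ⟨m, fun z hz => hm z hz.1⟩
  intro h3
  have h4 : z ∈ (⊥ : Subgroup Y) := by
    rw [← h3]
    exact ⟨⟨hzK, hzα⟩, hz⟩
  exact hz1 (Subgroup.mem_bot.1 h4)

end Fix

section Main

variable {R : RGD cs h p T n X} (C : Coords cs h T n X xx χ) {t : Y} (ht : t ∈ T) (hChar : ChAdd cs h T χ)

include C ht hChar in
/-- **A `p`-subgroup of `H = K ∩ C(t)` containing `H ∩ U` lies in `U`.** -/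
theorem Adm.le_U [Finite W] [Finite Y] [Fact p.Prime] {l : ℕ} (hl : l.Prime) (hlp : l ≠ p)
    (htl : ∀ a, IsRoot cs h a → χ a t ^ l = 1) (hG : GG cs h T X = ⊤) {K : Subgroup Y} (hK : Adm R χ t K)
    {P : Subgroup Y} (hP : IsPGroup p P) (hPH : P ≤ K ⊓ Subgroup.centralizer {t})
    (hUP : K ⊓ Subgroup.centralizer {t} ⊓ RGD.Sup X (RGD.Pos cs h) ≤ P) :
    P ≤ RGD.Sup X (RGD.Pos cs h) := by
  set U : Subgroup Y := RGD.Sup X (RGD.Pos cs h) with hUdef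
  set H : Subgroup Y := K ⊓ Subgroup.centralizer {t} with hH
  by_contra hne
  have hlt : (H ⊓ U) < P := lt_of_le_of_ne hUP (by rintro h0; exact hne (h0 ▸ inf_le_right))
  have hnil : Group.IsNilpotent P := hP.isNilpotent
  have h1 : (H ⊓ U).subgroupOf P < ⊤ := by
    rw [lt_top_iff_ne_top]
    intro h2
    rw [Subgroup.subgroupOf_eq_top] at h2
    exact absurd (lt_of_lt_of_le hlt h2) (lt_irrefl _)
  have h2 := (Group.normalizerCondition_of_isNilpotent (h := hnil)) _ h1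
  obtain ⟨y, hy, hyU⟩ := SetLike.exists_of_lt h2
  have hyn : ∀ x ∈ H ⊓ U, (y : Y) * x * (y : Y)⁻¹ ∈ H ⊓ U := by
    intro x hx
    have h4 := (Subgroup.mem_normalizer_iff.1 hy ⟨x, hUP hx⟩).1 (Subgroup.mem_subgroupOf.2 hx)
    exact Subgroup.mem_subgroupOf.1 h4
  have hyH : (y : Y) ∈ H := hPH y.2
  have hyK : (y : Y) ∈ K := (Subgroup.mem_inf.1 hyH).1
  have hyt : (y : Y) ∈ Subgroup.centralizer {t} := (Subgroup.mem_inf.1 hyH).2
  obtain ⟨u, hu, w, k, hk, hkc, b, hb, e⟩ := exists_cform R ht (hG ▸ Subgroup.mem_top (y : Y)) hyt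
  obtain ⟨huK, hkK, hbK⟩ := hK.nf w u k b hu hk hkc hb (e ▸ hyK)
  have huH : u ∈ H ⊓ U := ⟨⟨huK, CS_le_cent _ hu⟩, CS_le_Sup _ hu⟩
  have hbH : b ∈ H ⊓ U := ⟨⟨hbK, CS_le_cent _ hb⟩, NW_le_U (CS_le_Sup _ hb)⟩
  have hkP : k ∈ P := by
    have : k = u⁻¹ * y * b⁻¹ := by rw [e]; group
    rw [this]
    exact mul_mem (mul_mem (inv_mem (hUP huH)) y.2) (inv_mem (hUP hbH))
  have hkn : ∀ x ∈ H ⊓ U, k * x * k⁻¹ ∈ U := by
    intro x hx
    have hxb : b⁻¹ * x * b⁻¹⁻¹ ∈ H ⊓ U := by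
      rw [inv_inv]
      exact (H ⊓ U).mul_mem ((H ⊓ U).mul_mem ((H ⊓ U).inv_mem hbH) hx) hbH
    rw [inv_inv] at hxb
    have hxb' : b * x * b⁻¹ ∈ H ⊓ U := (H ⊓ U).mul_mem ((H ⊓ U).mul_mem hbH hx) ((H ⊓ U).inv_mem hbH)
    have h3 : u⁻¹ * ((y : Y) * (b⁻¹ * x * b) * (y : Y)⁻¹) * u ∈ H ⊓ U :=
      (H ⊓ U).mul_mem ((H ⊓ U).mul_mem ((H ⊓ U).inv_mem huH) (hyn _ hxb)) huH
    have h4 : u⁻¹ * ((y : Y) * (b⁻¹ * x * b) * (y : Y)⁻¹) * u = k * x * k⁻¹ := by rw [e]; group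
    rw [h4] at h3
    exact h3.2
  have hpos : ∀ a ∈ Sx cs h χ t, 0 ≤ a → 0 ≤ rep cs h w a := by
    intro a ha h0
    rcases (ha.1.act w).pos_or_neg with h3 | h3
    · exact h3
    exfalso
    have hne1 := hK.ex w ⟨k, ⟨hkK, hkc⟩, hk⟩ a ha h0 h3
    apply hne1
    rw [eq_bot_iff]
    rintro z ⟨hzK, hz⟩
    have hzU : z ∈ H ⊓ U := ⟨⟨hzK, CS_le_cent _ hz⟩, NW_le_U (CS_le_Sup _ hz)⟩
    have h6 := hkn z hzU
    have h7 : k * z * k⁻¹ ∈ UN cs h X :=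
      conj_mem_Sup R hk (S' := Neg cs h) (fun x hx => hx.1) (fun x hx => ⟨hx.1.act _, hx.2.2⟩) (CS_le_Sup _ hz)
    have h8 := eq_one_of_mem_UN_of_mem_B R h7 (RGD.U_le_B h6)
    rw [Subgroup.mem_bot]
    have : z = k⁻¹ * (k * z * k⁻¹) * k := by group
    rw [this, h8]; group
  have hwPP : w ∈ PP cs h χ t := mem_PP.2 ⟨fun a ha => chi_of_centralizer R C ht hk hkc ha, hpos⟩
  obtain ⟨m, hm⟩ := isPGroup_PP hChar ht hl htl ⟨w, hwPP⟩
  have hwl : w ^ l ^ m = 1 := congrArg Subtype.val hm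
  obtain ⟨m', hm'⟩ := hP ⟨k, hkP⟩
  have hkp : k ^ p ^ m' = 1 := by simpa using congrArg Subtype.val hm'
  have hpw : ∀ j : ℕ, Rp cs R.nsys (w ^ j) (k ^ j) := by
    intro j
    induction j with
    | zero => rw [pow_zero, pow_zero]; exact rp_one
    | succ j ih => rw [pow_succ, pow_succ]; exact ih.mul hk
  have hwp : w ^ p ^ m' = 1 := by
    have h3 := hpw (p ^ m')
    rw [hkp] at h3
    exact R.eq_one_of_mem_B h3 (one_mem _)
  have hw1 : w = 1 := by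
    have hco : Nat.Coprime (l ^ m) (p ^ m') :=
      Nat.Coprime.pow _ _ ((Nat.coprime_primes hl (Fact.out : p.Prime)).2 hlp)
    exact (orderOf_eq_one_iff.1 (Nat.eq_one_of_dvd_coprimes hco (orderOf_dvd_of_pow_eq_one hwl)
      (orderOf_dvd_of_pow_eq_one hwp)))
  subst hw1
  have hkT : k ∈ T := hk.mem_of_one
  have hk1 : k = 1 := by
    have h3 : orderOf k ∣ Nat.card T := Subgroup.orderOf_dvd_natCard T hkT
    have h4 : orderOf k ∣ p ^ m' := orderOf_dvd_of_pow_eq_one hkp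
    have h5 : Nat.Coprime (Nat.card T) (p ^ m') := Nat.Coprime.pow_right _ R.tcop
    exact orderOf_eq_one_iff.1 (Nat.eq_one_of_dvd_coprimes h5 h3 h4)
  apply hyU
  rw [Subgroup.mem_subgroupOf]
  have : (y : Y) = u * b := by rw [e, hk1, mul_one]
  rw [this]
  exact mul_mem huH hbH

include C ht hChar in
theorem Adm.normal_le_U [Finite W] [Finite Y] [Fact p.Prime] {l : ℕ} (hl : l.Prime) (hlp : l ≠ p)
    (htl : ∀ a, IsRoot cs h a → χ a t ^ l = 1) (hG : GG cs h T X = ⊤) {K : Subgroup Y} (hK : Adm R χ t K)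
    {N : Subgroup Y} (hN : IsPGroup p N) (hNH : N ≤ K ⊓ Subgroup.centralizer {t})
    (hn : ∀ g ∈ K ⊓ Subgroup.centralizer {t}, ∀ z ∈ N, g * z * g⁻¹ ∈ N) :
    N ≤ RGD.Sup X (RGD.Pos cs h) := by
  set H : Subgroup Y := K ⊓ Subgroup.centralizer {t} with hH
  have h1 : H ≤ Subgroup.normalizer (N : Set Y) := by
    intro g hg
    rw [Subgroup.mem_normalizer_iff]
    intro z
    refine ⟨hn g hg z, fun hz => ?_⟩
    have h2 := hn g⁻¹ (inv_mem hg) _ hz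
    have h3 : g⁻¹ * (g * z * g⁻¹) * g⁻¹⁻¹ = z := by group
    rwa [h3] at h2
  have hUp : IsPGroup p (H ⊓ RGD.Sup X (RGD.Pos cs h) : Subgroup Y) :=
    (show IsPGroup p (RGD.Sup X (RGD.Pos cs h)) from R.isPGroup_Upos).to_le inf_le_right
  have hP : IsPGroup p (N ⊔ (H ⊓ RGD.Sup X (RGD.Pos cs h)) : Subgroup Y) :=
    hN.to_sup_of_normal_left' hUp (le_trans inf_le_left h1)
  exact le_trans le_sup_left (hK.le_U C ht hChar hl hlp htl hG hP (sup_le hNH inf_le_left) le_sup_right)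

/-! ### The opposite datum -/

theorem coords_opp (C : Coords cs h T n X xx χ) :
    Coords cs h T n (fun x => X (-x)) (fun x => xx (-x)) (fun x => χ (-x)) where
  coord r hr := C.coord (-r) hr.neg
  nact i r hr := by
    obtain ⟨c, hc, e⟩ := C.nact i (-r) hr.neg
    refine ⟨c, hc, fun a => ?_⟩
    rw [e, map_neg]

theorem chAdd_opp (hChar : ChAdd cs h T χ) : ChAdd cs h T (fun x => χ (-x)) := by
  intro t ht
  obtain ⟨φ, h0, hadd, hφ⟩ := hChar t ht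
  refine ⟨fun x => φ (-x), by simpa using h0, fun x y => ?_, fun a ha => hφ _ ha.neg⟩
  show φ (-(x + y)) = φ (-x) * φ (-y)
  rw [neg_add, hadd]

theorem mem_Sx_opp {a : I → ℤ} {t : Y} : a ∈ Sx cs h (fun x => χ (-x)) t ↔ -a ∈ Sx cs h χ t := by
  constructor
  · rintro ⟨h1, h2⟩
    exact ⟨h1.neg, h2⟩
  · rintro ⟨h1, h2⟩
    exact ⟨by simpa using h1.neg, h2⟩

theorem FrA.opp [Finite W] {α : MulAut Y} {π : (I → ℤ) → (I → ℤ)} {θ : W → W} (hα : FrA R α π θ) :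
    FrA (Cfsg.Agent.KFacts.RgdOpp.opp R) α π θ where
  root := hα.root
  map a ha z hz := by
    have h1 := hα.map (-a) ha.neg z hz
    rwa [hα.neg] at h1
  rp := hα.rp
  rep' := hα.rep'
  neg := hα.neg

/-- `K` is admissible for `t`, for the datum and its opposite. -/
structure Adm2 (R : RGD cs h p T n X) (χ : (I → ℤ) → Y → F) (t : Y) (K : Subgroup Y) [Finite W] : Prop where
  pos : Adm R χ t K
  neg : Adm (Cfsg.Agent.KFacts.RgdOpp.opp R) (fun x => χ (-x)) t K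

theorem Adm2.top [Finite W] (C : Coords cs h T n X xx χ) {t : Y} (ht : t ∈ T) : Adm2 R χ t ⊤ :=
  ⟨Adm.top C ht, Adm.top (coords_opp C) ht⟩

/-- `K ⊓ Fix α` -/
theorem Adm2.fix [Finite W] [Finite Y] [Fact p.Prime] (C : Coords cs h T n X xx χ) {t : Y} (ht : t ∈ T) {α : MulAut Y}
    {π : (I → ℤ) → (I → ℤ)} {θ : W → W} (hα : FrA R α π θ)
    (hcen : ∀ z ∈ Subgroup.centralizer {t}, α z ∈ Subgroup.centralizer {t})
    (hpos : ∀ a ∈ Sx cs h χ t, 0 ≤ a → 0 ≤ π a) (hneg : ∀ a ∈ Sx cs h χ t, a ≤ 0 → π a ≤ 0) {K : Subgroup Y}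
    (hK : Adm2 R χ t K) (hαK : ∀ z ∈ K, α z ∈ K) (hm : ∃ m : ℕ, ∀ z ∈ K, (α ^ p ^ m) z = z) :
    Adm2 R χ t (K ⊓ FixA α) := by
  refine ⟨hK.pos.fix C ht hα hcen hpos hneg hαK hm, hK.neg.fix (coords_opp C) ht hα.opp hcen ?_ ?_ hαK hm⟩
  · intro a ha h0
    rw [mem_Sx_opp] at ha
    have h1 := hneg _ ha (neg_nonpos.2 h0)
    rw [hα.neg] at h1
    exact neg_nonpos.1 h1
  · intro a ha h0
    rw [mem_Sx_opp] at ha
    have h1 := hpos _ ha (neg_nonneg.2 h0)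
    rw [hα.neg] at h1
    exact neg_nonneg.1 h1

include C ht hChar in
/-- **Every normal `p`-subgroup of `K ∩ C(t)` is trivial.** -/
theorem Adm2.eq_bot [Finite W] [Finite Y] [Fact p.Prime] {l : ℕ} (hl : l.Prime) (hlp : l ≠ p)
    (htl : ∀ a, IsRoot cs h a → χ a t ^ l = 1) (hG : GG cs h T X = ⊤) {K : Subgroup Y} (hK : Adm2 R χ t K)
    {N : Subgroup Y} (hN : IsPGroup p N) (hNH : N ≤ K ⊓ Subgroup.centralizer {t})
    (hn : ∀ g ∈ K ⊓ Subgroup.centralizer {t}, ∀ z ∈ N, g * z * g⁻¹ ∈ N) : N = ⊥ := by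
  have h1 := hK.pos.normal_le_U C ht hChar hl hlp htl hG hN hNH hn
  have h2 := hK.neg.normal_le_U (coords_opp C) ht (chAdd_opp hChar) hl hlp (fun a ha => htl _ ha.neg)
    (by rw [GG_opp]; exact hG) hN hNH hn
  rw [U_opp] at h2
  rw [eq_bot_iff]
  intro z hz
  rw [Subgroup.mem_bot]
  exact eq_one_of_mem_UN_of_mem_B R (h2 hz) (RGD.U_le_B (h1 hz))

end Main

end Cfsg.Agent.H737.SK.O2
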