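import Cfsg.Agent.H737.SK.Gra
import Cfsg.Agent.H297.SK.PB

/-!
# S3010, characteristic two: the data `PB` for `J` invariant under the graph automorphism (helper737)
-/

set_option autoImplicit false
set_option linter.unusedSectionVars false

namespace Cfsg.Agent.H737.SK.Gen

open CoxeterSystem Cfsg.Agent.ChevalleyStructure.CoxeterGeom Cfsg.Agent.Tits.Roots Cfsg.Agent.Tits.Core
  Cfsg.Agent.Tits.Exchange Cfsg.Agent.Nodes.Reps Cfsg.Agent.Nodes.BNOf Cfsg.Agent.Nodes.StabComb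
  Cfsg.Agent.Nodes.Bruhat Cfsg.Agent.Nodes.OppDec Cfsg.Agent.Nodes.LeviDec Cfsg.Agent.Nodes.NormalForm
  Cfsg.Agent.Nodes.Coroot Cfsg.Agent.Nodes.Comb
  Cfsg.Agent.KFacts.RgdField Cfsg.Agent.BpExc.TorCent Cfsg.Agent.KFacts.RgdOpp Cfsg.Agent.KFacts.RgdCent
  Cfsg.Agent.KFacts.ChevTwo Cfsg.Agent.KFacts.RgdSys Cfsg.Agent.H737.SK.O2 Cfsg.Agent.H282.SK
  Cfsg.Agent.KFacts.RgdRigid Cfsg.Agent.H297.SK

variable {I W Y K : Type*} [Fintype I] [DecidableEq I] [Group W] [Group Y] [Field K] {M : CoxeterMatrix I}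
variable {cs : CoxeterSystem M W} {A : I → I → ℤ} {h : IsCartan M A} {e : (I → ℤ) → K → Y}
  {T : Subgroup Y} {n : I → Y} {X : (I → ℤ) → Subgroup Y}
variable {Y' K' : Type*} [Group Y'] [Field K'] {e' : (I → ℤ) → K' → Y'}
  {T' : Subgroup Y'} {n' : I → Y'} {X' : (I → ℤ) → Subgroup Y'}

/-- representatives of words act on the root elements -/
theorem word_act [Finite W] {R : RGD cs h 2 T n X} (S : Sys R e) (ω : List I) {x : I → ℤ} (hx : IsRoot cs h x) (a : K) :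
    pr ω (fun j => nel e (sr j)) * e x a * (pr ω fun j => nel e (sr j))⁻¹ = e (rep cs h (cs.wordProd ω) x) a := by
  induction ω with
  | nil => rw [pr_nil, wordProd_nil, map_one, Module.End.one_apply, one_mul, inv_one, mul_one]
  | cons i ω ih =>
    have h1 : (nel e (sr i) * pr ω fun j => nel e (sr j)) * e x a * (nel e (sr i) * pr ω fun j => nel e (sr j))⁻¹ =
        nel e (sr i) * (pr ω (fun j => nel e (sr j)) * e x a * (pr ω fun j => nel e (sr j))⁻¹) * (nel e (sr i))⁻¹ := by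
      group
    rw [pr_cons, h1, ih, S.data.refl i _ (hx.act _), wordProd_cons, rep_mul_apply]

/-- a negative root element is not in `U` -/
theorem ne_of_neg [Finite W] {R : RGD cs h 2 T n X} (S : Sys R e) {x : I → ℤ} (hx : IsRoot cs h x) (h0 : x ≤ 0) {y : Y}
    (hy : y ∈ RGD.Sup X (RGD.Pos cs h)) : e x 1 ≠ y := by
  intro h1
  have h2 : e x 1 ∈ UN cs h X := RGD.le_Sup (S := Neg cs h) (X := X) ⟨hx, h0⟩ (S.mem hx 1)
  exact S.data.ne_one hx one_ne_zero (eq_one_of_mem_UN_of_mem_B R h2 (RGD.U_le_B (h1 ▸ hy)))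

/-- pulling back a statement on normal 2-subgroups from the group over the field of four elements -/
theorem pull_two {α : MulAut Y'} {f : Y →* Y'} (hf : Function.Injective f) (hrange : ∀ y ∈ FixA α, ∃ x, f x = y)
    (hfα : ∀ y, α (f y) = f y) {v x : Y} {γ : MulAut Y} {γ' : MulAut Y'} (hγ : ∀ y, γ' (f y) = f (γ y))
    (H : ∀ N : Subgroup Y', IsPGroup 2 N → N ≤ FixA α ⊓ (Subgroup.centralizer {f v} ⊓ Subgroup.centralizer {f x}) →
      (∀ z ∈ N, γ' z = z) →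
      (∀ g ∈ FixA α ⊓ (Subgroup.centralizer {f v} ⊓ Subgroup.centralizer {f x}), γ' g = g → ∀ z ∈ N,
        g * z * g⁻¹ ∈ N) → N = ⊥)
    (N : Subgroup Y) (hNp : IsPGroup 2 N) (hNc : N ≤ Subgroup.centralizer {v} ⊓ Subgroup.centralizer {x})
    (hNγ : ∀ z ∈ N, γ z = z)
    (hn : ∀ g ∈ (Subgroup.centralizer {v} ⊓ Subgroup.centralizer {x} : Subgroup Y), γ g = g → ∀ z ∈ N,
      g * z * g⁻¹ ∈ N) : N = ⊥ := by
  have h2 : N.map f = ⊥ := by
    refine H _ (hNp.map f) ?_ ?_ ?_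
    · rintro _ ⟨z, hz, rfl⟩
      obtain ⟨h2, h3⟩ := mem_cc.1 (hNc hz)
      refine ⟨hfα z, Subgroup.mem_centralizer_singleton_iff.2 ?_, Subgroup.mem_centralizer_singleton_iff.2 ?_⟩
      · rw [← map_mul, ← map_mul, h2]
      · rw [← map_mul, ← map_mul, h3]
    · rintro _ ⟨z, hz, rfl⟩
      rw [hγ, hNγ z hz]
    · rintro g ⟨h2, h3, h4⟩ hg _ ⟨z, hz, rfl⟩
      obtain ⟨g, rfl⟩ := hrange g h2
      refine ⟨g * z * g⁻¹, hn g (mem_cc.2 ⟨hf ?_, hf ?_⟩) (hf (by rw [← hγ, hg])) z hz,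
        by rw [map_mul, map_mul, map_inv]⟩
      · rw [map_mul, map_mul]
        exact Subgroup.mem_centralizer_singleton_iff.1 h3
      · rw [map_mul, map_mul]
        exact Subgroup.mem_centralizer_singleton_iff.1 h4
  rwa [Subgroup.map_eq_bot_iff_of_injective _ hf] at h2

section

variable [Finite W] [Finite Y] [Finite K] {R : RGD cs h 2 T n X} (S : Sys R e) {J : List I} (hJ : Orth cs h J)
  {γ : MulAut Y} {σ : I → I} (hγ : Gra cs h e γ σ) (hJσ : (J.map σ).Perm J)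
  {H : Subgroup (MulAut Y)} (inn : ∀ k : Y, MulAut.conj k ∈ H) (cube : ∀ δ ∈ H, ∃ k : Y, δ ^ 3 = MulAut.conj k)
  {b : I → ℤ} (hb : IsRoot cs h b) (hbJ : ∀ j ∈ J, cpr cs h b (sr j) = 0)
  (dich : ∀ α : MulAut Y, α * α = 1 → (∀ z ∈ X b, α z = z) → α ∈ H ∨ α * γ ∈ H)
  (hG1 : RGD.Sup X {x | IsRoot cs h x} = ⊤)

include S hJ hγ hJσ inn cube hb hbJ dich hG1

/-- **`PB`, `q ≥ 4`** -/
theorem pb_big (hN : NoCent cs h T X) {l : ℕ} (hl : l.Prime) (hl2 : l ≠ 2) {c : K} (hc : c ≠ 0) (hc1 : c ≠ 1)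
    (hcl : c ^ l = 1) : PB (pr J fun j => nel e (sr j)) (pr J fun j => hel e (sr j) c) γ H where
  odd := by
    have h2 : orderOf (pr J fun j => hel e (sr j) c) ∣ l := by
      refine orderOf_dvd_of_pow_eq_one ?_
      rw [tJ_pow S hJ hG1 hN hc, hcl, pr_congr (g := fun _ => 1) fun j _ => hel_one S hG1 hN j, pr_one]
    exact Odd.of_dvd_nat (hl.odd_of_ne_two hl2) h2
  inv := by rw [nJ_tJ S hJ hG1 hN hc, tJ_inv S hJ hG1 hN hc]
  g2 := Gra.sq S hJ hG1 hγ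
  gv := hγ.pr S hJ hJσ (fun j _ => nel_mem S j) fun j => hγ.nel j
  gx := hγ.pr S hJ hJσ (fun j _ => hel_memS S j c) fun j => hγ.hel j c
  hN := fun N h1 h2 h3 => o2_big S hJ hG1 hN hl hl2 hc hc1 hcl h1 h2 h3
  hNg := fun N h1 h2 h3 h4 => o2_big_gra S hJ hG1 hN hγ hJσ hl hl2 hc hc1 hcl h1 h2 h3 h4
  inn := inn
  cube := cube
  dich := fun α h1 h2 => dich α h1 fun z hz => h2 z (perp_le S hb hbJ c hz)

/-- **`PB`, `q = 2`** -/
theorem pb_two [Finite Y'] [Finite K'] {R' : RGD cs h 2 T' n' X'} (S' : Sys R' e')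
    (hG1' : RGD.Sup X' {x | IsRoot cs h x} = ⊤) (hN' : NoCent cs h T' X') {α : MulAut Y'} (hα : Frb cs h e' α)
    {γ' : MulAut Y'} (hγ' : Gra cs h e' γ' σ) {ζ : K'} (hζ : ζ ^ 2 = ζ + 1)
    {f : Y →* Y'} (hf : Function.Injective f) (hfe : ∀ x, IsRoot cs h x → f (e x 1) = e' x 1)
    (hfα : ∀ y, α (f y) = f y) (hfγ : ∀ y, γ' (f y) = f (γ y)) :
    PB (pr J fun j => nel e (sr j)) (pr J (xl e)) γ H ∧
      (∀ y ∈ FixA α, ∃ x, f x = y) ∧ f (pr J fun j => nel e (sr j)) = (pr J fun j => nel e' (sr j)) ∧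
      f (pr J (xl e)) = pr J (xl e') := by
  have hrange : ∀ y ∈ FixA α, ∃ x, f x = y := by
    intro y hy
    rw [hα.fix_eq S' hG1' hN'] at hy
    have h1 : E1 cs h e' ≤ f.range := by
      unfold E1
      rw [Subgroup.closure_le]
      rintro _ ⟨x, hx, rfl⟩
      exact ⟨e x 1, hfe x hx⟩
    exact h1 hy
  have hfn : ∀ j, f (nel e (sr j)) = nel e' (sr j) := by
    intro j
    rw [nel_def, nel_def, map_mul, map_mul, hfe _ (isRoot_sr cs h j), hfe _ (isRoot_sr cs h j).neg]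
  have hfx : ∀ j, f (xl e j) = xl e' j := by
    intro j
    unfold xl
    rw [map_mul, hfe _ (isRoot_sr cs h j), hfe _ (isRoot_sr cs h j).neg]
  have hv : f (pr J fun j => nel e (sr j)) = pr J fun j => nel e' (sr j) := by
    rw [pr_map]; exact pr_congr fun j _ => hfn j
  have hx : f (pr J (xl e)) = pr J (xl e') := by
    rw [pr_map]; exact pr_congr fun j _ => hfx j
  refine ⟨?_, hrange, hv, hx⟩
  have hodd : Odd (orderOf (pr J (xl e))) := by
    have hζ0 : ζ ≠ 0 := by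
      rintro rfl
      rw [zero_pow two_ne_zero, zero_add] at hζ
      exact zero_ne_one hζ
    have h2K : (2 : K') = 0 := by
      have := S'.data.two (1 : K')
      rwa [one_add_one_eq_two] at this
    have hζ3 : ζ ^ 3 = 1 := by linear_combination (ζ + 1) * hζ + ζ * h2K
    have h2 : (pr J (xl e')) ^ 3 = 1 := by
      have h3 := alJ_xlJ S' hJ hG1' hN' hζ
      have h4 := alJ_sq S' hJ ζ
      have h5 : (pr J (al e' ζ))⁻¹ = pr J (al e' ζ) := inv_eq_of_mul_eq_one_right h4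
      have h6 : pr J (xl e') = pr J (al e' ζ) * pr J (fun j => hel e' (sr j) ζ) * (pr J (al e' ζ))⁻¹ := by
        rw [← h3, h5]
        calc pr J (xl e') = (pr J (al e' ζ) * pr J (al e' ζ)) * pr J (xl e') * (pr J (al e' ζ) * pr J (al e' ζ)) := by
              rw [h4, one_mul, mul_one]
          _ = _ := by group
      rw [h6, conj_pow, tJ_pow S' hJ hG1' hN' hζ0, hζ3,
        pr_congr (g := fun _ => 1) fun j _ => hel_one S' hG1' hN' j, pr_one, mul_one, mul_inv_cancel]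
    have h3 : (pr J (xl e)) ^ 3 = 1 := by
      apply hf
      rw [map_pow, hx, h2, map_one]
    exact Odd.of_dvd_nat (by decide) (orderOf_dvd_of_pow_eq_one h3)
  refine ⟨hodd, nJ_xlJ S hJ, Gra.sq S hJ hG1 hγ, hγ.pr S hJ hJσ (fun j _ => nel_mem S j) fun j => hγ.nel j,
    hγ.pr S hJ hJσ (fun j _ => xl_mem S j) fun j => ?_, ?_, ?_, inn, cube,
    fun α h1 h2 => dich α h1 fun z hz => h2 z (perp_le_xl S hb hbJ hz)⟩
  · unfold xl
    rw [map_mul, hγ.map _ (isRoot_sr cs h j), hγ.map _ (isRoot_sr cs h j).neg, sr_comp hγ.invol]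
    have : (fun k => (-sr j : I → ℤ) (σ k)) = -sr (σ j) := by
      rw [← sr_comp hγ.invol]; rfl
    rw [this]
  · intro N h1 h2 h3
    refine pull_two (γ := 1) (γ' := 1) hf hrange hfα (v := pr J fun j => nel e (sr j)) (x := pr J (xl e))
      (fun y => rfl) ?_ N h1 h2 (fun z _ => rfl) fun g hg _ => h3 g hg
    rw [hv, hx]
    exact fun N h1 h2 _ h3 => o2_two S' hJ hG1' hN' hα hζ h1 h2 fun g hg => h3 g hg rfl
  · intro N h1 h2 h3 h4
    refine pull_two hf hrange hfα (v := pr J fun j => nel e (sr j)) (x := pr J (xl e)) hfγ ?_ N h1 h2 h3 h4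
    rw [hv, hx]
    exact fun N h1 h2 h3 h4 => o2_two_gra S' hJ hG1' hN' hα hζ hγ' hJσ h1 h2 h3 h4

end

end Cfsg.Agent.H737.SK.Gen
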