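import Cfsg.Agent.H737.SK.TwE6El

/-!
# S3010, `²E₆(q)`, `q` even: an explicit element for `J = [1]` (helper737, (A) of helper297)
-/

set_option autoImplicit false
set_option linter.unusedSectionVars false

namespace Cfsg.Agent.H737.SK.E6

open CoxeterSystem Cfsg.Agent.ChevalleyStructure.CoxeterGeom Cfsg.Agent.Tits.Roots Cfsg.Agent.Tits.Core
  Cfsg.Agent.Tits.Exchange Cfsg.Agent.Nodes.Reps Cfsg.Agent.Nodes.BNOf Cfsg.Agent.Nodes.Coroot
  Cfsg.Agent.KFacts.RgdField Cfsg.Agent.KFacts.RgdCent Cfsg.Agent.KFacts.ChevTwo Cfsg.Agent.KFacts.RgdSys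
  Cfsg.Agent.KFacts.ChevTwoInst Cfsg.Agent.H737.SK.O2 Cfsg.Agent.H282.SK Cfsg.Agent.H737.SK.Gen
  Cfsg.Agent.H737.SK.Chev Cfsg.Agent.H297.SK Cfsg.Agent.H297.SK.Dich Cfsg.Agent.Nodes.OppDec Cfsg.Agent.Nodes.Comb
  Cfsg.Agent.KFacts.RgdOpp
open Cfsg.Lie Cfsg.Agent.ChevalleyStructure Cfsg.Agent.ChevalleyStructure.Elts
  Cfsg.Agent.ChevalleyStructure.RootVec Cfsg.Agent.ChevalleyStructure.FieldIso
  Cfsg.Agent.ChevalleyStructure.CoxeterGeomTypes
open Cfsg.Agent.Nodes Cfsg.Agent.Nodes.RGDChev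
open Cfsg.Agent.H129.TwE6Fr (gam)
open Cfsg.Agent.H297.SK.DichE6 (hp)

universe u

section

variable {W Y K : Type*} [Group W] [Group Y] [Field K] {M : CoxeterMatrix (Fin 6)}
variable {cs : CoxeterSystem M W} {h : IsCartan M A6} {e : (Fin 6 → ℤ) → K → Y}
  {T : Subgroup Y} {n : Fin 6 → Y} {X : (Fin 6 → ℤ) → Subgroup Y}
variable [Finite W] {R : RGD cs h 2 T n X} (S : Sys R e) {q : ℕ} {L : Subgroup Y}

include S

theorem t5a_aux {γ : MulAut Y} (hγ : Gra cs h e γ s6) {u : K} (hu : u ^ q ≠ u) (t : Tw e q L) :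
    ∃ z ∈ L, (∀ c, Commute (pr [(1 : Fin 6)] fun j => nc e (sr j) c) z) ∧
      Commute (pr [(1 : Fin 6)] fun j => nel e (sr j)) z ∧
      (∀ c, Commute (pr [(1 : Fin 6)] fun j => hel e (sr j) c) z) ∧
      Commute (pr [(1 : Fin 6)] (xl e)) z ∧ γ z ≠ z := by
  obtain ⟨v, hv⟩ : ∃ v, v = u ^ q := ⟨_, rfl⟩
  obtain ⟨z, hzd⟩ : ∃ z, z = e (V 0) u * e (V 5) v := ⟨_, rfl⟩
  have v7 : V 7 = -sr 1 := by decide +kernel
  have hc : ∀ c, Commute (pr [(1 : Fin 6)] fun j => e (sr j) c) z := by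
    intro c
    rw [pr_cons, pr_nil, mul_one, hzd]
    exact (show Commute _ _ from V_comm S (k := 1) (l := 0) (by decide +kernel) c u).mul_right
      (V_comm S (k := 1) (l := 5) (by decide +kernel) c v)
  have hc' : ∀ c, Commute (pr [(1 : Fin 6)] fun j => e (-sr j) c) z := by
    intro c
    rw [pr_cons, pr_nil, mul_one, hzd, ← v7]
    exact (show Commute _ _ from V_comm S (k := 7) (l := 0) (by decide +kernel) c u).mul_right
      (V_comm S (k := 7) (l := 5) (by decide +kernel) c v)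
  have hJ : Orth cs h [(1 : Fin 6)] := by
    refine ⟨by decide, ?_⟩
    intro i hi j hj hij
    rw [List.mem_singleton] at hi hj
    exact absurd (hi.trans hj.symm) hij
  obtain ⟨k1, k2, k3, k4⟩ := comm_nJ S hJ hc hc'
  refine ⟨z, ?_, k1, k2, k3, k4, ?_⟩
  · rw [hzd, hv]
    exact t.p0 u
  · intro h1
    have g0 : (fun i => V 0 (s6 i)) = V 5 := by decide +kernel
    have g5 : (fun i => V 5 (s6 i)) = V 0 := by decide +kernel
    rw [hzd, map_mul, hγ.map _ (root_V _), hγ.map _ (root_V _), g0, g5] at h1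
    have huv : v + u ≠ 0 := fun h0 => hu (by
      have := S.data.two u
      rw [← hv]
      linear_combination h0 - this)
    have h2 : e (V 0) (v + u) = e (V 5) (v + u) := by
      have a1 := V_comm S (k := 5) (l := 0) (by decide +kernel) u v
      have a2 := S.data.sq (root_V (cs := cs) (h := h) 0) v
      have a3 := S.data.sq (root_V (cs := cs) (h := h) 5) v
      rw [add_comm v u, S.data.add _ (root_V 5), add_comm u v, S.data.add _ (root_V 0)]
      rw [a1] at h1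
      calc e (V 0) v * e (V 0) u = e (V 0) v * (e (V 0) u * e (V 5) v) * e (V 5) v := by
            rw [mul_assoc, mul_assoc, a3, mul_one]
        _ = e (V 0) v * (e (V 0) v * e (V 5) u) * e (V 5) v := by rw [h1]
        _ = e (V 5) u * e (V 5) v := by rw [← mul_assoc, a2, one_mul]
    have h3 := word_act S [0] (root_V (cs := cs) (h := h) 0) (v + u)
    have h4 := word_act S [0] (root_V (cs := cs) (h := h) 5) (v + u)
    rw [rep_word] at h3 h4
    have e3 : ([0] : List (Fin 6)).foldr (step A6) (V 0) = V 6 := by decide +kernel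
    have e4 : ([0] : List (Fin 6)).foldr (step A6) (V 5) = V 5 := by decide +kernel
    rw [e3, h2, h4, e4] at h3
    have hneg : ∀ i, V 6 i ≤ 0 := by decide +kernel
    have hpos : ∀ i, 0 ≤ V 5 i := by decide +kernel
    exact ne_of_neg' S (root_V 6) hneg huv (mem_U S (root_V 5) hpos (v + u)) h3.symm

end

/-- **(A)**: an element of `²E₆(q)`, `q` even, centralising the root `SL₂`, `J = [1]` -/
theorem t5a {K : Type u} [Field K] [Fintype K] [CharP K 2] {q : ℕ} (hq : IsPrimePow q)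
    (hK : Fintype.card K = q ^ 2) :
    ∃ z ∈ (twistedE6 K q).subgroupOf (chevE6.group K),
      Commute (pr [(1 : Fin 6)] fun j => nel (eg hp K) (sr j)) z ∧
      (∀ c, Commute (pr [(1 : Fin 6)] fun j => hel (eg hp K) (sr j) c) z) ∧
      Commute (pr [(1 : Fin 6)] (xl (eg hp K))) z ∧ gam K z ≠ z := by
  obtain ⟨cs, -⟩ : ∃ cs : CoxeterSystem CoxeterMatrix.E₆ CoxeterMatrix.E₆.Group,
    cs = CoxeterMatrix.E₆.toCoxeterSystem := ⟨_, rfl⟩
  have := finite_W hp cs
  have S := sys (K := K) hp twoOK_E6 cs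
  have hγ : Gra cs hp.isCartan (eg hp K) (gam K) s6 := DichE6.gra_E6 cs
  obtain ⟨u, hu⟩ := exists_pow_ne hq.one_lt hK
  obtain ⟨z, hz, -, h1⟩ := t5a_aux S hγ hu (tw_twE6 q)
  exact ⟨z, hz, h1⟩

end Cfsg.Agent.H737.SK.E6
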