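import Cfsg.Agent.H737.SK.E6Core
import Cfsg.Agent.H297.SK.DichE6

/-!
# S3010, `²E₆(q)`, `q` even: an explicit element for `J = [1, 0, 5]` (helper737, (T5-D) of helper297)

* `Tw e q L` : `L` contains the standard generators of `²E₆(q)`;
* `Tw.word`, `Tw.act` : root elements of `L` by words;
* `t5d` : the element `z`.
-/

set_option autoImplicit false
set_option linter.unusedSectionVars false

namespace Cfsg.Agent.H737.SK.E6

open CoxeterSystem Cfsg.Agent.ChevalleyStructure.CoxeterGeom Cfsg.Agent.Tits.Roots Cfsg.Agent.Tits.Core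
  Cfsg.Agent.Tits.Exchange Cfsg.Agent.Nodes.Reps Cfsg.Agent.Nodes.BNOf Cfsg.Agent.Nodes.Coroot
  Cfsg.Agent.KFacts.RgdField Cfsg.Agent.KFacts.RgdCent Cfsg.Agent.KFacts.ChevTwo Cfsg.Agent.KFacts.RgdSys
  Cfsg.Agent.KFacts.ChevTwoInst Cfsg.Agent.H737.SK.O2 Cfsg.Agent.H282.SK Cfsg.Agent.H737.SK.Gen
  Cfsg.Agent.H737.SK.Chev Cfsg.Agent.H297.SK Cfsg.Agent.H297.SK.Dich Cfsg.Agent.Nodes.OppDec Cfsg.Agent.Nodes.Comb
  Cfsg.Agent.KFacts.RgdOpp
open Cfsg.Lie Cfsg.Agent.ChevalleyStructure Cfsg.Agent.ChevalleyStructure.Elts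
  Cfsg.Agent.ChevalleyStructure.RootVec Cfsg.Agent.ChevalleyStructure.FieldIso
  Cfsg.Agent.ChevalleyStructure.CoxeterGeomTypes
open Cfsg.Agent.Nodes Cfsg.Agent.Nodes.RGDChev
open Cfsg.Agent.H129.TwE6Fr (gam)
open Cfsg.Agent.H297.SK.DichE6 (hp)
open scoped commutatorElement

universe u

/-- a subgroup of `E₆(q²)` containing the standard generators of `²E₆(q)` -/
structure Tw {Y K : Type*} [Group Y] [Field K] (e : (Fin 6 → ℤ) → K → Y) (q : ℕ) (L : Subgroup Y) : Prop where
  p1 : ∀ a : K, a ^ q = a → e (sr 1) a ∈ L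
  m1 : ∀ a : K, a ^ q = a → e (-sr 1) a ∈ L
  p3 : ∀ a : K, a ^ q = a → e (sr 3) a ∈ L
  m3 : ∀ a : K, a ^ q = a → e (-sr 3) a ∈ L
  p0 : ∀ a : K, e (sr 0) a * e (sr 5) (a ^ q) ∈ L
  m0 : ∀ a : K, e (-sr 0) a * e (-sr 5) (a ^ q) ∈ L
  p2 : ∀ a : K, e (sr 2) a * e (sr 4) (a ^ q) ∈ L
  m2 : ∀ a : K, e (-sr 2) a * e (-sr 4) (a ^ q) ∈ L

theorem tw_twE6 {K : Type u} [Field K] (q : ℕ) :
    Tw (eg hp K) q ((twistedE6 K q).subgroupOf (chevE6.group K)) := by
  have key : ∀ (r : ℕ) (x : Fin 6 → ℤ), r < chevE6.nroots → vec chevE6 6 r = x → ∀ a : K,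
      ((eg hp K x a : ↥(chevE6.group K)) : GL chevE6.Idx K) = TwE6Basic.x r a := by
    rintro r x hr rfl a
    rw [coe_eg, ev_vec hp hr]
  have k1 := key 46 (sr 1) (by decide) (by decide +kernel)
  have k1' := key 25 (-sr 1) (by decide) (by decide +kernel)
  have k3 := key 39 (sr 3) (by decide) (by decide +kernel)
  have k3' := key 32 (-sr 3) (by decide) (by decide +kernel)
  have k0 := key 56 (sr 0) (by decide) (by decide +kernel)
  have k0' := key 15 (-sr 0) (by decide) (by decide +kernel)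
  have k5 := key 36 (sr 5) (by decide) (by decide +kernel)
  have k5' := key 35 (-sr 5) (by decide) (by decide +kernel)
  have k2 := key 42 (sr 2) (by decide) (by decide +kernel)
  have k2' := key 29 (-sr 2) (by decide) (by decide +kernel)
  have k4 := key 37 (sr 4) (by decide) (by decide +kernel)
  have k4' := key 34 (-sr 4) (by decide) (by decide +kernel)
  refine ⟨fun a ha => ?_, fun a ha => ?_, fun a ha => ?_, fun a ha => ?_, fun a => ?_, fun a => ?_, fun a => ?_,
    fun a => ?_⟩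
  · rw [Subgroup.mem_subgroupOf, k1]; exact TwE6Basic.single_mem ha (by simp)
  · rw [Subgroup.mem_subgroupOf, k1']; exact TwE6Basic.single_mem ha (by simp)
  · rw [Subgroup.mem_subgroupOf, k3]; exact TwE6Basic.single_mem ha (by simp)
  · rw [Subgroup.mem_subgroupOf, k3']; exact TwE6Basic.single_mem ha (by simp)
  · rw [Subgroup.mem_subgroupOf, Subgroup.coe_mul, k0, k5]; exact TwE6Basic.pair_mem a (rs := (56, 36)) (by simp)
  · rw [Subgroup.mem_subgroupOf, Subgroup.coe_mul, k0', k5']; exact TwE6Basic.pair_mem a (rs := (15, 35)) (by simp)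
  · rw [Subgroup.mem_subgroupOf, Subgroup.coe_mul, k2, k4]; exact TwE6Basic.pair_mem a (rs := (42, 37)) (by simp)
  · rw [Subgroup.mem_subgroupOf, Subgroup.coe_mul, k2', k4']; exact TwE6Basic.pair_mem a (rs := (29, 34)) (by simp)

variable {W Y K : Type*} [Group W] [Group Y] [Field K] {M : CoxeterMatrix (Fin 6)}
variable {cs : CoxeterSystem M W} {h : IsCartan M A6} {e : (Fin 6 → ℤ) → K → Y}
  {T : Subgroup Y} {n : Fin 6 → Y} {X : (Fin 6 → ℤ) → Subgroup Y}
section gens

variable [Finite W] {R : RGD cs h 2 T n X} (S : Sys R e) {q : ℕ} {L : Subgroup Y} (t : Tw e q L)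

include S

/-- root elements with non-negative Cartan integer commute -/
theorem cm {x y : Fin 6 → ℤ} (hx : IsRoot cs h x) (hy : IsRoot cs h y) (h1 : 0 ≤ cpr cs h x y) (a b : K) :
    e x a * e y b = e y b * e x a := S.data.comm_of_nonneg hx hy h1 a b

/-- the commutator formula -/
theorem mc {x y z : Fin 6 → ℤ} (hx : IsRoot cs h x) (hy : IsRoot cs h y) (h1 : cpr cs h x y = -1)
    (h2 : cpr cs h y x = -1) (hz : x + y = z) (a b : K) : e x a * e y b = e z (a * b) * (e y b * e x a) := by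
  have h3 := S.data.comm1 x y hx hy h1 h2 a b
  rw [hz, commutatorElement_def] at h3
  rw [← h3]; group

/-- a negative root element is not in `U` -/
theorem ne_of_neg' {x : Fin 6 → ℤ} (hx : IsRoot cs h x) (h0 : x ≤ 0) {a : K} (ha : a ≠ 0) {y : Y}
    (hy : y ∈ RGD.Sup X (RGD.Pos cs h)) : e x a ≠ y := by
  intro h1
  have h2 : e x a ∈ UN cs h X := RGD.le_Sup (S := Neg cs h) (X := X) ⟨hx, h0⟩ (S.mem hx a)
  exact S.data.ne_one hx ha (eq_one_of_mem_UN_of_mem_B R h2 (RGD.U_le_B (h1 ▸ hy)))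

include t

theorem n1 : nel e (sr 1) ∈ L := by
  rw [nel_def]
  exact mul_mem (mul_mem (t.p1 1 (one_pow _)) (t.m1 1 (one_pow _))) (t.p1 1 (one_pow _))

theorem n3 : nel e (sr 3) ∈ L := by
  rw [nel_def]
  exact mul_mem (mul_mem (t.p3 1 (one_pow _)) (t.m3 1 (one_pow _))) (t.p3 1 (one_pow _))

omit t in
theorem nn {i j : Fin 6} (hij : cpr cs h (sr i) (sr j) = 0) :
    nel e (sr i) * nel e (sr j) = (e (sr i) 1 * e (sr j) 1) * (e (-sr i) 1 * e (-sr j) 1) *
      (e (sr i) 1 * e (sr j) 1) := by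
  have hi := isRoot_sr cs h i
  have hj := isRoot_sr cs h j
  have h1 := cm S hi hj (le_of_eq hij.symm) 1 1
  have h2 := cm S hi.neg hj (by rw [cpr_neg _ _ _ hj, hij, neg_zero]) 1 1
  have h3 := cm S hi hj.neg (by rw [cpr_neg_right _ _ _ hj, hij, neg_zero]) 1 1
  rw [nel_def, nel_def]
  calc e (sr i) 1 * e (-sr i) 1 * e (sr i) 1 * (e (sr j) 1 * e (-sr j) 1 * e (sr j) 1)
      = e (sr i) 1 * e (-sr i) 1 * (e (sr i) 1 * e (sr j) 1) * (e (-sr j) 1 * e (sr j) 1) := by group
    _ = e (sr i) 1 * (e (-sr i) 1 * e (sr j) 1) * (e (sr i) 1 * e (-sr j) 1) * e (sr j) 1 := by rw [h1]; group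
    _ = _ := by rw [h2, h3]; group

theorem n05 : nel e (sr 0) * nel e (sr 5) ∈ L := by
  rw [nn S (by rw [cpr_sr]; decide +kernel)]
  have h1 := t.p0 1
  have h2 := t.m0 1
  rw [one_pow] at h1 h2
  exact mul_mem (mul_mem h1 h2) h1

theorem n24 : nel e (sr 2) * nel e (sr 4) ∈ L := by
  rw [nn S (by rw [cpr_sr]; decide +kernel)]
  have h1 := t.p2 1
  have h2 := t.m2 1
  rw [one_pow] at h1 h2
  exact mul_mem (mul_mem h1 h2) h1

end gens

/-- a table of roots -/
def tab : Fin 24 → List (Fin 6) × Fin 6 :=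
  ![([], 0), ([], 1), ([], 2), ([], 3), ([], 4), ([], 5), ([0], 0), ([1], 1), ([2], 2), ([3], 3), ([4], 4),
    ([5], 5), ([2, 3], 1), ([3, 2], 0), ([4, 3], 1), ([5, 4], 3), ([3, 4, 1, 3, 2], 0), ([5, 3, 4, 2, 3], 1),
    ([1, 3, 2], 0), ([3], 2), ([5, 4, 3], 1), ([4], 3), ([5, 3, 4, 1, 3, 2], 0), ([3, 4, 2, 3], 1)]

/-- the roots of the table -/
def V (k : Fin 24) : Fin 6 → ℤ := (tab k).1.foldr (step A6) (sr (tab k).2)

/-- Cartan integers of the table -/
def C (k l : Fin 24) : ℤ := pairing A6 (tab l).2 ((tab l).1.reverse.foldr (step A6) (V k))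

theorem root_V (k : Fin 24) : IsRoot cs h (V k) := isRoot_word rfl

theorem cpr_V [Finite W] (k l : Fin 24) : cpr cs h (V k) (V l) = C k l := cpr_word rfl rfl

section

variable [Finite W] {R : RGD cs h 2 T n X} (S : Sys R e)
include S

theorem V_comm {k l : Fin 24} (h1 : 0 ≤ C k l) (a b : K) : e (V k) a * e (V l) b = e (V l) b * e (V k) a :=
  cm S (root_V k) (root_V l) (by rwa [cpr_V]) a b

theorem V_mc {k l m : Fin 24} (h1 : C k l = -1) (h2 : C l k = -1) (h3 : V k + V l = V m) (a b : K) :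
    e (V k) a * e (V l) b = e (V m) (a * b) * (e (V l) b * e (V k) a) :=
  mc S (root_V k) (root_V l) (by rwa [cpr_V]) (by rwa [cpr_V]) h3 a b

omit S [Finite W] in
/-- the conditions for `lemA` -/
def okA (α β x x' s : Fin 24) : Prop :=
  C α x = -1 ∧ C x α = -1 ∧ C β x' = -1 ∧ C x' β = -1 ∧ V α + V x = V s ∧ V β + V x' = V s ∧
    0 ≤ C β x ∧ 0 ≤ C α s ∧ 0 ≤ C x s ∧ 0 ≤ C α x'

omit S [Finite W] in
instance (α β x x' s : Fin 24) : Decidable (okA α β x x' s) := by unfold okA; infer_instance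

theorem lemA {α β x x' s : Fin 24} (ok : okA α β x x' s) (u c : K) :
    Commute (e (V α) c * e (V β) c) (e (V x) u * e (V x') u) := by
  obtain ⟨h1, h2, h3, h4, h5, h6, h7, h8, h9, h10⟩ := ok
  have k1 := V_comm S h7 c u
  have k2 := V_mc S h1 h2 h5 c u
  have k3 := V_mc S h3 h4 h6 c u
  have k4 := V_comm S h8 c (c * u)
  have k5 := V_comm S h9 u (c * u)
  have k6 := V_comm S h10 c u
  have k7 := S.data.sq (root_V (cs := cs) (h := h) s) (c * u)
  calc e (V α) c * e (V β) c * (e (V x) u * e (V x') u)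
      = e (V α) c * (e (V β) c * e (V x) u) * e (V x') u := by group
    _ = (e (V α) c * e (V x) u) * (e (V β) c * e (V x') u) := by rw [k1]; group
    _ = e (V s) (c * u) * e (V x) u * (e (V α) c * e (V s) (c * u)) * e (V x') u * e (V β) c := by
        rw [k2, k3]; group
    _ = e (V s) (c * u) * (e (V x) u * e (V s) (c * u)) * e (V α) c * e (V x') u * e (V β) c := by rw [k4]; group
    _ = (e (V s) (c * u) * e (V s) (c * u)) * e (V x) u * (e (V α) c * e (V x') u) * e (V β) c := by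
        rw [k5]; group
    _ = e (V x) u * e (V x') u * (e (V α) c * e (V β) c) := by rw [k6, k7]; group

/-- `Commute` with a product over three pairwise orthogonal roots -/
theorem lemB {a b c : Fin 24} (hab : 0 ≤ C a b) {y : Y} {v : K} (h1 : Commute (e (V b) v * e (V a) v) y)
    (h2 : Commute (e (V c) v) y) : Commute (e (V a) v * (e (V b) v * (e (V c) v * 1))) y := by
  rw [mul_one, ← mul_assoc, V_comm S hab]
  exact h1.mul_left h2

theorem lemC {c x x' : Fin 24} (h1 : 0 ≤ C c x) (h2 : 0 ≤ C c x') (u v : K) :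
    Commute (e (V c) v) (e (V x) u * e (V x') u) :=
  (show Commute _ _ from V_comm S h1 v u).mul_right (V_comm S h2 v u)

/-- `y_a`, `y_{σ a}`, `y_c` commute with `e_J(c)`, `J = [1, 0, 5]` -/
theorem comm_pos (u c : K) : Commute (e (V 1) c * (e (V 0) c * (e (V 5) c * 1))) (e (V 12) u * e (V 13) u) ∧
    Commute (e (V 1) c * (e (V 0) c * (e (V 5) c * 1))) (e (V 14) u * e (V 15) u) ∧
    Commute (e (V 1) c * (e (V 0) c * (e (V 5) c * 1))) (e (V 16) u * e (V 17) u) := by
  have o1 : okA 0 1 12 13 18 := by decide +kernel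
  have o2 : okA 5 1 14 15 20 := by decide +kernel
  have o3 : okA 5 0 16 17 22 := by decide +kernel
  refine ⟨lemB S (by decide +kernel) (lemA S o1 u c) (lemC S (by decide +kernel) (by decide +kernel) u c), ?_, ?_⟩
  · have h1 := lemB S (a := 1) (b := 5) (c := 0) (by decide +kernel) (lemA S o2 u c)
      (lemC S (by decide +kernel) (by decide +kernel) u c)
    rwa [mul_one, V_comm S (k := 5) (l := 0) (by decide +kernel), ← mul_one (e (V 5) c)] at h1
  · have h1 := lemA S o3 u c
    rw [V_comm S (k := 5) (l := 0) (by decide +kernel)] at h1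
    rw [mul_one]
    exact (lemC S (by decide +kernel) (by decide +kernel) u c).mul_left h1

/-- the same for the opposite roots -/
theorem comm_neg (u c : K) : Commute (e (V 7) c * (e (V 6) c * (e (V 11) c * 1))) (e (V 12) u * e (V 13) u) ∧
    Commute (e (V 7) c * (e (V 6) c * (e (V 11) c * 1))) (e (V 14) u * e (V 15) u) ∧
    Commute (e (V 7) c * (e (V 6) c * (e (V 11) c * 1))) (e (V 16) u * e (V 17) u) := by
  have o1 : okA 7 6 12 13 19 := by decide +kernel
  have o2 : okA 7 11 14 15 21 := by decide +kernel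
  have o3 : okA 6 11 16 17 23 := by decide +kernel
  have h1 := lemA S o1 u c
  rw [V_comm S (k := 7) (l := 6) (by decide +kernel)] at h1
  have h2 := lemA S o2 u c
  rw [V_comm S (k := 7) (l := 11) (by decide +kernel)] at h2
  refine ⟨lemB S (by decide +kernel) h1 (lemC S (by decide +kernel) (by decide +kernel) u c), ?_, ?_⟩
  · have h1 := lemB S (a := 7) (b := 11) (c := 6) (by decide +kernel) h2
      (lemC S (by decide +kernel) (by decide +kernel) u c)
    rwa [mul_one, V_comm S (k := 11) (l := 6) (by decide +kernel), ← mul_one (e (V 11) c)] at h1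
  · rw [mul_one]
    exact (lemC S (by decide +kernel) (by decide +kernel) u c).mul_left (lemA S o3 u c)

end

section

variable [Finite W] {R : RGD cs h 2 T n X} (S : Sys R e) {q : ℕ} {L : Subgroup Y} (t : Tw e q L)
include S

/-- transport of a pair of root elements -/
theorem pair_word {ω : List (Fin 6)} (hω : (pr ω fun j => nel e (sr j)) ∈ L) {x y x' y' : Fin 6 → ℤ}
    (hx : IsRoot cs h x) (hy : IsRoot cs h y) (h1 : ω.foldr (step A6) x = x') (h2 : ω.foldr (step A6) y = y')
    {a b : K} (hab : e x a * e y b ∈ L) : e x' a * e y' b ∈ L := by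
  have k1 := word_act S ω hx a
  have k2 := word_act S ω hy b
  rw [rep_word, h1] at k1
  rw [rep_word, h2] at k2
  rw [← k1, ← k2]
  have := mul_mem (mul_mem hω hab) (inv_mem hω)
  convert this using 1
  group

include t

theorem w13 : (pr [1, 3] fun j => nel e (sr j)) ∈ L := by
  rw [pr_cons, pr_cons, pr_nil, mul_one]
  exact mul_mem (n1 S t) (n3 S t)

theorem w324 : (pr [3, 2, 4] fun j => nel e (sr j)) ∈ L := by
  rw [pr_cons, pr_cons, pr_cons, pr_nil, mul_one]
  exact mul_mem (n3 S t) (n24 S t)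

theorem w324' : (pr [3, 2, 4, 1, 3, 2, 4] fun j => nel e (sr j)) ∈ L := by
  have h1 : (pr [3, 2, 4, 1, 3, 2, 4] fun j => nel e (sr j)) = nel e (sr 3) * (nel e (sr 2) * nel e (sr 4)) *
      nel e (sr 1) * (nel e (sr 3) * (nel e (sr 2) * nel e (sr 4))) := by
    simp only [pr_cons, pr_nil, mul_one, mul_assoc]
  rw [h1]
  exact mul_mem (mul_mem (mul_mem (n3 S t) (n24 S t)) (n1 S t)) (mul_mem (n3 S t) (n24 S t))

theorem mem1 (u : K) : e (V 12) u * e (V 14) (u ^ q) ∈ L :=
  pair_word S (w13 S t) (isRoot_sr cs h 2) (isRoot_sr cs h 4) (by decide +kernel) (by decide +kernel) (t.p2 u)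

theorem mem2 (u : K) : e (V 13) u * e (V 15) (u ^ q) ∈ L :=
  pair_word S (w324 S t) (isRoot_sr cs h 0) (isRoot_sr cs h 5) (by decide +kernel) (by decide +kernel) (t.p0 u)

theorem mem3 (u : K) : e (V 16) u * e (V 17) (u ^ q) ∈ L :=
  pair_word S (w324' S t) (isRoot_sr cs h 0) (isRoot_sr cs h 5) (by decide +kernel) (by decide +kernel) (t.p0 u)

omit t

/-- the two forms of `z` -/
theorem z_eq {u v w w' : K} (hw : w' = w + u * v) :
    (e (V 12) u * e (V 14) v) * (e (V 13) u * e (V 15) v) * (e (V 16) w' * e (V 17) w) =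
      (e (V 12) u * e (V 13) u) * (e (V 14) v * e (V 15) v) * (e (V 16) w * e (V 17) w) := by
  have k1 := V_mc S (k := 14) (l := 13) (m := 16) (by decide +kernel) (by decide +kernel) (by decide +kernel) v u
  have k2 := V_comm S (k := 16) (l := 13) (by decide +kernel) (v * u) u
  have k3 := V_comm S (k := 16) (l := 14) (by decide +kernel) (v * u) v
  have k4 := V_comm S (k := 16) (l := 15) (by decide +kernel) (v * u) v
  have k5 : e (V 16) w = e (V 16) (v * u) * e (V 16) w' := by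
    rw [← S.data.add _ (root_V 16), hw]
    congr 1
    have := S.data.two (u * v)
    linear_combination -this
  rw [k5]
  calc (e (V 12) u * e (V 14) v) * (e (V 13) u * e (V 15) v) * (e (V 16) w' * e (V 17) w)
      = e (V 12) u * (e (V 14) v * e (V 13) u) * e (V 15) v * (e (V 16) w' * e (V 17) w) := by group
    _ = e (V 12) u * (e (V 16) (v * u) * e (V 13) u) * e (V 14) v * e (V 15) v * (e (V 16) w' * e (V 17) w) := by
        rw [k1]; group
    _ = e (V 12) u * e (V 13) u * (e (V 16) (v * u) * e (V 14) v) * e (V 15) v * (e (V 16) w' * e (V 17) w) := by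
        rw [k2]; group
    _ = e (V 12) u * e (V 13) u * e (V 14) v * (e (V 16) (v * u) * e (V 15) v) * (e (V 16) w' * e (V 17) w) := by
        rw [k3]; group
    _ = _ := by rw [k4]; group

/-- `nel` over `J` -/
theorem comm_nJ {J : List (Fin 6)} (hJ : Orth cs h J) {y : Y} (h1 : ∀ c, Commute (pr J fun j => e (sr j) c) y)
    (h2 : ∀ c, Commute (pr J fun j => e (-sr j) c) y) :
    (∀ c, Commute (pr J fun j => nc e (sr j) c) y) ∧ Commute (pr J fun j => nel e (sr j)) y ∧
      (∀ c, Commute (pr J fun j => hel e (sr j) c) y) ∧ Commute (pr J (xl e)) y := by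
  have hp := fun (j : Fin 6) (c : K) => e_mem S j c
  have hm := fun (j : Fin 6) (c : K) => e_neg_mem S j c
  have k1 : ∀ c, Commute (pr J fun j => nc e (sr j) c) y := by
    intro c
    have e1 : (pr J fun j => nc e (sr j) c) = (pr J fun j => e (sr j) c) * (pr J fun j => e (-sr j) c⁻¹) *
        (pr J fun j => e (sr j) c) := by
      rw [pr_mul hJ.nodup (commL S hJ (fun j _ => hp j c) fun j _ => hm j c⁻¹),
        pr_mul hJ.nodup (commL S hJ (fun j _ => mul_mem (hp j c) (hm j c⁻¹)) fun j _ => hp j c)]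
      rfl
    rw [e1]
    exact ((h1 c).mul_left (h2 c⁻¹)).mul_left (h1 c)
  have k2 : Commute (pr J fun j => nel e (sr j)) y := k1 1
  refine ⟨k1, k2, fun c => ?_, ?_⟩
  · have e1 : (pr J fun j => hel e (sr j) c) = (pr J fun j => nc e (sr j) c) * pr J fun j => nel e (sr j) := by
      rw [pr_mul hJ.nodup (commL S hJ (f := fun j => nc e (sr j) c)
        (fun j _ => mul_mem (mul_mem (hp j c) (hm j c⁻¹)) (hp j c)) fun j _ => nel_mem S j)]
      rfl
    rw [e1]
    exact (k1 c).mul_left k2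
  · have e1 : pr J (xl e) = (pr J fun j => e (sr j) 1) * (pr J fun j => e (-sr j) 1) := by
      rw [pr_mul hJ.nodup (commL S hJ (fun j _ => hp j 1) fun j _ => hm j 1)]
      rfl
    rw [e1]
    exact (h1 1).mul_left (h2 1)

theorem orth105 : Orth cs h [(1 : Fin 6), 0, 5] := by
  refine ⟨by decide, ?_⟩
  have key : ∀ i ∈ [(1 : Fin 6), 0, 5], ∀ j ∈ [(1 : Fin 6), 0, 5], i ≠ j → pairing A6 j (sr i) = 0 := by
    decide +kernel
  intro i hi j hj hij
  rw [cpr_sr]
  exact key i hi j hj hij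

/-- **(T5-D)**, abstract form -/
theorem t5d_aux {γ : MulAut Y} (hγ : Gra cs h e γ s6) {u w : K} (hu : u ^ q ≠ u) (hw : w ^ q = w + u * u ^ q)
    (hqq : (w ^ q) ^ q = w) (t : Tw e q L) :
    ∃ z ∈ L, Commute (pr [(1 : Fin 6), 0, 5] fun j => nel e (sr j)) z ∧
      (∀ c, Commute (pr [(1 : Fin 6), 0, 5] fun j => hel e (sr j) c) z) ∧
      Commute (pr [(1 : Fin 6), 0, 5] (xl e)) z ∧ γ z ≠ z := by
  obtain ⟨v, hv⟩ : ∃ v, v = u ^ q := ⟨_, rfl⟩
  rw [← hv] at hu hw
  have hz := z_eq S hw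
  obtain ⟨z, hzd⟩ : ∃ z, z = (e (V 12) u * e (V 13) u) * (e (V 14) v * e (V 15) v) * (e (V 16) w * e (V 17) w) :=
    ⟨_, rfl⟩
  have hc : ∀ c, Commute (e (V 1) c * (e (V 0) c * (e (V 5) c * 1))) z := by
    intro c
    rw [hzd]
    exact (((comm_pos S u c).1).mul_right (comm_pos S v c).2.1).mul_right (comm_pos S w c).2.2
  have hc' : ∀ c, Commute (e (V 7) c * (e (V 6) c * (e (V 11) c * 1))) z := by
    intro c
    rw [hzd]
    exact (((comm_neg S u c).1).mul_right (comm_neg S v c).2.1).mul_right (comm_neg S w c).2.2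
  have v6 : V 6 = -sr 0 := by decide +kernel
  have v7 : V 7 = -sr 1 := by decide +kernel
  have v11 : V 11 = -sr 5 := by decide +kernel
  obtain ⟨-, k2, k3, k4⟩ := comm_nJ S (orth105 S) (y := z) hc (by rw [v6, v7, v11] at hc'; exact hc')
  refine ⟨z, ?_, k2, k3, k4, ?_⟩
  · rw [hzd, ← hz]
    refine mul_mem (mul_mem ?_ ?_) ?_
    · rw [hv]; exact mem1 S t u
    · rw [hv]; exact mem2 S t u
    · have := mem3 S t (w ^ q)
      rwa [hqq] at this
  · intro h1
    have g12 : (fun i => V 12 (s6 i)) = V 14 := by decide +kernel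
    have g13 : (fun i => V 13 (s6 i)) = V 15 := by decide +kernel
    have g14 : (fun i => V 14 (s6 i)) = V 12 := by decide +kernel
    have g15 : (fun i => V 15 (s6 i)) = V 13 := by decide +kernel
    have g16 : (fun i => V 16 (s6 i)) = V 17 := by decide +kernel
    have g17 : (fun i => V 17 (s6 i)) = V 16 := by decide +kernel
    rw [hzd] at h1
    simp only [map_mul, hγ.map _ (root_V _)] at h1
    rw [g12, g13, g14, g15, g16, g17] at h1
    -- bring `e (V 12) v` to the front
    have k1 := V_mc S (k := 15) (l := 12) (m := 17) (by decide +kernel) (by decide +kernel) (by decide +kernel) u v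
    have k2 := V_comm S (k := 17) (l := 12) (by decide +kernel) (u * v) v
    have k3 := V_comm S (k := 14) (l := 12) (by decide +kernel) u v
    have h2 : e (V 12) v * (e (V 14) u * e (V 17) (u * v) * e (V 15) u * e (V 13) v * (e (V 17) w * e (V 16) w)) =
        e (V 12) u * (e (V 13) u * (e (V 14) v * e (V 15) v) * (e (V 16) w * e (V 17) w)) := by
      calc e (V 12) v * (e (V 14) u * e (V 17) (u * v) * e (V 15) u * e (V 13) v * (e (V 17) w * e (V 16) w))
          = (e (V 14) u * e (V 12) v) * e (V 17) (u * v) * e (V 15) u * e (V 13) v * (e (V 17) w * e (V 16) w) := by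
            rw [k3]; group
        _ = e (V 14) u * (e (V 17) (u * v) * e (V 12) v) * e (V 15) u * e (V 13) v * (e (V 17) w * e (V 16) w) := by
            rw [k2]; group
        _ = e (V 14) u * (e (V 15) u * e (V 12) v) * e (V 13) v * (e (V 17) w * e (V 16) w) := by
            rw [k1]; group
        _ = _ := by
            refine Eq.trans ?_ (h1.trans ?_) <;> group
    have hinv := S.data.inv (root_V (cs := cs) (h := h) 12) v
    have h3 : e (V 12) (v + u) = (e (V 14) u * e (V 17) (u * v) * e (V 15) u * e (V 13) v * (e (V 17) w * e (V 16) w)) *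
        (e (V 13) u * (e (V 14) v * e (V 15) v) * (e (V 16) w * e (V 17) w))⁻¹ := by
      rw [S.data.add _ (root_V 12), eq_mul_inv_iff_mul_eq, mul_assoc, ← h2, ← mul_assoc, S.data.sq (root_V 12),
        one_mul]
    have huv : v + u ≠ 0 := fun h0 => hu (by
      have := S.data.two u
      linear_combination h0 - this)
    -- the group of elements mapped into `U`
    obtain ⟨g, hg⟩ : ∃ g, g = pr [3, 1, 2] fun j => nel e (sr j) := ⟨_, rfl⟩
    obtain ⟨P, hP⟩ : ∃ P : Subgroup Y, P = (RGD.Sup X (RGD.Pos cs h)).comap (MulAut.conj g).toMonoidHom := ⟨_, rfl⟩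
    have hact : ∀ (k : Fin 24) (a : K), g * e (V k) a * g⁻¹ = e (([3, 1, 2] : List (Fin 6)).foldr (step A6) (V k)) a := by
      intro k a
      have := word_act S [3, 1, 2] (root_V (cs := cs) (h := h) k) a
      rw [rep_word] at this
      rw [hg, this]
    have hroot : ∀ k : Fin 24, IsRoot cs h (([3, 1, 2] : List (Fin 6)).foldr (step A6) (V k)) := by
      intro k
      rw [← rep_word (cs := cs) (h := h)]
      exact (root_V k).act _
    have hmem : ∀ k : Fin 24, (∀ i, 0 ≤ ([3, 1, 2] : List (Fin 6)).foldr (step A6) (V k) i) → ∀ a : K,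
        e (V k) a ∈ P := by
      intro k hk a
      rw [hP, Subgroup.mem_comap]
      show g * e (V k) a * g⁻¹ ∈ _
      rw [hact]
      exact mem_U S (hroot k) hk a
    have m13 := hmem 13 (by decide +kernel)
    have m14 := hmem 14 (by decide +kernel)
    have m15 := hmem 15 (by decide +kernel)
    have m16 := hmem 16 (by decide +kernel)
    have m17 := hmem 17 (by decide +kernel)
    have h4 : e (V 12) (v + u) ∈ P := by
      rw [h3]
      exact mul_mem (mul_mem (mul_mem (mul_mem (mul_mem (m14 _) (m17 _)) (m15 _)) (m13 _)) (mul_mem (m17 _) (m16 _)))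
        (inv_mem (mul_mem (mul_mem (m13 _) (mul_mem (m14 _) (m15 _))) (mul_mem (m16 _) (m17 _))))
    rw [hP, Subgroup.mem_comap] at h4
    have h5 : g * e (V 12) (v + u) * g⁻¹ ∈ RGD.Sup X (RGD.Pos cs h) := h4
    rw [hact] at h5
    have hneg : ∀ i, ([3, 1, 2] : List (Fin 6)).foldr (step A6) (V 12) i ≤ 0 := by decide +kernel
    exact ne_of_neg' S (hroot 12) hneg huv h5 rfl

end

/-- an element of `F_{q²}` outside `F_q` -/
theorem exists_pow_ne {K : Type*} [Field K] [Fintype K] {q : ℕ} (hq : 1 < q) (hK : Fintype.card K = q ^ 2) :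
    ∃ u : K, u ^ q ≠ u := by
  by_contra hcon
  push Not at hcon
  have h1 := FiniteField.X_pow_card_sub_X_ne_zero K hq
  have h2 := FiniteField.X_pow_card_sub_X_natDegree_eq K hq
  refine h1 (Polynomial.eq_zero_of_natDegree_lt_card_of_eval_eq_zero _ Function.injective_id (fun a => ?_) ?_)
  · simp [hcon]
  · rw [h2, hK]
    nlinarith

/-- **(T5-D)**: an element of `²E₆(q)`, `q` even, centralising the diagonal `SL₂` in `A₁³`, `J = [1, 0, 5]` -/
theorem t5d {K : Type u} [Field K] [Fintype K] [CharP K 2] {q : ℕ} (hq : IsPrimePow q)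
    (hK : Fintype.card K = q ^ 2) :
    ∃ z ∈ (twistedE6 K q).subgroupOf (chevE6.group K),
      Commute (pr [(1 : Fin 6), 0, 5] fun j => nel (eg hp K) (sr j)) z ∧
      (∀ c, Commute (pr [(1 : Fin 6), 0, 5] fun j => hel (eg hp K) (sr j) c) z) ∧
      Commute (pr [(1 : Fin 6), 0, 5] (xl (eg hp K))) z ∧ gam K z ≠ z := by
  obtain ⟨cs, -⟩ : ∃ cs : CoxeterSystem CoxeterMatrix.E₆ CoxeterMatrix.E₆.Group,
    cs = CoxeterMatrix.E₆.toCoxeterSystem := ⟨_, rfl⟩
  have := finite_W hp cs
  have S := sys (K := K) hp twoOK_E6 cs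
  have hγ : Gra cs hp.isCartan (eg hp K) (gam K) s6 := DichE6.gra_E6 cs
  obtain ⟨φ, hφ, hqq⟩ := TwE6Basic.exists_frob hq hK
  obtain ⟨u, hu⟩ := exists_pow_ne hq.one_lt hK
  have h0 : u + u ^ q ≠ 0 := by
    intro h0
    apply hu
    have := CharTwo.add_self_eq_zero u
    linear_combination h0 - this
  obtain ⟨w, hw⟩ : ∃ w, w = u * (u * u ^ q) / (u + u ^ q) := ⟨_, rfl⟩
  have hwq : w ^ q = u ^ q * (u ^ q * u) / (u ^ q + u) := by
    rw [hw, ← hφ, map_div₀, map_mul, map_mul, map_add, ← hφ u, hφ (φ u), hφ u, hqq]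
  refine t5d_aux S hγ hu ?_ (hqq w) (tw_twE6 q)
  rw [hwq, hw, add_comm (u ^ q) u]
  have h2 := CharTwo.two_eq_zero (R := K)
  field_simp
  linear_combination (-(u * u ^ q) * u) * h2

end Cfsg.Agent.H737.SK.E6
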