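import Cfsg.Agent.H737.SK.Big
import Cfsg.Agent.Nodes.BN

/-!
# S3010, characteristic two, `q = 2` inside `q = 4` (helper737)

`α : MulAut Y` with `α (e x a) = e x (a ^ 2)`, `K` of four elements.

* `Frb.fix_eq` : the fixed points of `α` are generated by the `e x 1`;
* `o2_two` : in `Fix α`, `C(nJ) ∩ C(xJ)` has no nontrivial normal 2-subgroup, `xJ = ∏ e (sr j) 1 * e (-sr j) 1`.
-/

set_option autoImplicit false
set_option linter.unusedSectionVars false

namespace Cfsg.Agent.H737.SK.Gen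

open CoxeterSystem Cfsg.Agent.ChevalleyStructure.CoxeterGeom Cfsg.Agent.Tits.Roots Cfsg.Agent.Tits.Core
  Cfsg.Agent.Tits.Exchange Cfsg.Agent.Nodes.Reps Cfsg.Agent.Nodes.BNOf Cfsg.Agent.Nodes.StabComb
  Cfsg.Agent.Nodes.Bruhat Cfsg.Agent.Nodes.OppDec Cfsg.Agent.Nodes.LeviDec Cfsg.Agent.Nodes.NormalForm
  Cfsg.Agent.Nodes.Coroot Cfsg.Agent.Nodes.Comb
  Cfsg.Agent.KFacts.RgdField Cfsg.Agent.BpExc.TorCent Cfsg.Agent.KFacts.RgdOpp Cfsg.Agent.KFacts.RgdCent
  Cfsg.Agent.KFacts.ChevTwo Cfsg.Agent.KFacts.RgdSys Cfsg.Agent.H737.SK.O2 Cfsg.Agent.H282.SK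
  Cfsg.Agent.KFacts.RgdRigid

variable {I W Y K : Type*} [Fintype I] [DecidableEq I] [Group W] [Group Y] [Field K] {M : CoxeterMatrix I}
variable {cs : CoxeterSystem M W} {A : I → I → ℤ} {h : IsCartan M A} {e : (I → ℤ) → K → Y}
  {p : ℕ} {T : Subgroup Y} {n : I → Y} {X : (I → ℤ) → Subgroup Y}

/-- the group generated by the `e x 1` -/
def E1 (cs : CoxeterSystem M W) (h : IsCartan M A) (e : (I → ℤ) → K → Y) : Subgroup Y :=
  Subgroup.closure {g | ∃ x, IsRoot cs h x ∧ g = e x 1}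

theorem e1_mem {x : I → ℤ} (hx : IsRoot cs h x) : e x 1 ∈ E1 cs h e := Subgroup.subset_closure ⟨x, hx, rfl⟩

/-- the field automorphism `a ↦ a ^ 2` -/
structure Frb (cs : CoxeterSystem M W) (h : IsCartan M A) (e : (I → ℤ) → K → Y) (α : MulAut Y) : Prop where
  map : ∀ x, IsRoot cs h x → ∀ a, α (e x a) = e x (a ^ 2)
  four : ∀ a : K, a ^ 4 = a

section

variable [Finite W] {R : RGD cs h p T n X} (S : Sys R e) (hG1 : RGD.Sup X {x | IsRoot cs h x} = ⊤)
  (hN : NoCent cs h T X) {α : MulAut Y} (hα : Frb cs h e α)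

include hα

theorem Frb.nel (j : I) : α (nel e (sr j)) = nel e (sr j) := by
  rw [nel_def, map_mul, map_mul, hα.map _ (isRoot_sr cs h j), hα.map _ (isRoot_sr cs h j).neg, one_pow]

theorem Frb.E1_le : E1 cs h e ≤ FixA α := by
  unfold E1
  rw [Subgroup.closure_le]
  rintro _ ⟨x, hx, rfl⟩
  show α (e x 1) = e x 1
  rw [hα.map x hx, one_pow]

include S

theorem Frb.map_n (j : I) : α (n j) = n j := by rw [S.n_eq, hα.nel]

include hG1

theorem Frb.map_T {t : Y} (ht : t ∈ T) : α t ∈ T := by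
  refine mem_T_of_norm S hG1 fun r hr => ?_
  obtain ⟨χ, hχ⟩ := S.chi t ht
  refine ⟨((χ r).toMul : Kˣ) ^ 2, pow_ne_zero 2 (Units.ne_zero _), fun a => ?_⟩
  have h1 := congrArg α (hχ r hr (a ^ 2))
  rw [map_mul, map_mul, map_inv, hα.map r hr, hα.map r hr, ← pow_mul, hα.four, mul_pow, ← pow_mul, hα.four] at h1
  exact h1

theorem Frb.frA : FrA R α (fun a => a) (fun w => w) where
  root _ ha := ha
  map a ha z hz := by
    obtain ⟨c, rfl⟩ := (S.mem_X a ha z).1 hz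
    rw [hα.map a ha]
    exact S.mem ha _
  rp w k hk := by
    obtain ⟨g, hg, hr⟩ := exists_rp_closure (cs := cs) (hN := R.nsys) w
    have h1 : α g = g := by
      have h2 : Subgroup.closure (Set.range n) ≤ FixA α := by
        rw [Subgroup.closure_le]
        rintro _ ⟨i, rfl⟩
        exact hα.map_n S i
      exact h2 hg
    have h3 : k = g * (g⁻¹ * k) := by group
    rw [h3, map_mul, h1]
    exact hr.mul_mem_right (hα.map_T S hG1 (hr.unique hk))
  rep' w a _ := rfl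
  neg a := rfl

include hN in
/-- a fixed torus element is trivial -/
theorem Frb.T_fix {t : Y} (ht : t ∈ T) (h1 : α t = t) : t = 1 := by
  refine hN t ht fun b hb v hv => ?_
  obtain ⟨c, rfl⟩ := (S.mem_X b hb v).1 hv
  obtain ⟨χ, hχ⟩ := S.chi t ht
  have h2 := hχ b hb c
  have h3 : (((χ b).toMul : Kˣ) : K) = 1 := by
    have h4 := congrArg α (hχ b hb 1)
    rw [map_mul, map_mul, map_inv, hα.map b hb, hα.map b hb, one_pow, h1, hχ b hb, mul_one] at h4
    have h5 := S.data.injective hb h4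
    have h6 : (((χ b).toMul : Kˣ) : K) ≠ 0 := Units.ne_zero _
    have h7 : (((χ b).toMul : Kˣ) : K) * (((χ b).toMul : Kˣ) - 1) = 0 := by
      linear_combination -h5
    rcases mul_eq_zero.1 h7 with h8 | h8
    · exact absurd h8 h6
    · exact sub_eq_zero.1 h8
  rw [h3, one_mul] at h2
  exact mul_inv_eq_iff_eq_mul.1 h2

omit hG1 in
/-- a fixed element of a root group -/
theorem Frb.X_fix {x : I → ℤ} (hx : IsRoot cs h x) {u : Y} (hu : u ∈ X x) (h1 : α u = u) : u ∈ E1 cs h e := by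
  obtain ⟨c, rfl⟩ := (S.mem_X x hx u).1 hu
  rw [hα.map x hx] at h1
  have h2 := S.data.injective hx h1
  have h3 : c * (c - 1) = 0 := by linear_combination h2
  rcases mul_eq_zero.1 h3 with h4 | h4
  · rw [h4, S.data.zero hx]; exact one_mem _
  · rw [sub_eq_zero.1 h4]; exact e1_mem hx

/-- fixed elements of `Sup X (NW w)` -/
theorem Frb.NW_fix : ∀ (w : W) {a : Y}, a ∈ RGD.Sup X (NW cs h w) → α a = a → a ∈ E1 cs h e := by
  intro w
  induction hn : cs.length w using Nat.strong_induction_on generalizing w with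
  | _ N ih =>
  intro a ha hfix
  by_cases hw1 : w = 1
  · subst hw1
    have h1 : RGD.Sup X (NW cs h (1 : W)) ≤ ⊥ := by
      refine RGD.Sup_le fun x hx => ?_
      exfalso
      have h2 := hx.2.2
      rw [map_one, Module.End.one_apply] at h2
      exact hx.1.not_pos_neg hx.2.1 h2
    rw [Subgroup.mem_bot.1 (h1 ha)]
    exact one_mem _
  obtain ⟨i, hi⟩ := cs.exists_rightDescent_of_ne_one hw1
  have hi' : cs.length (w * cs.simple i) < cs.length w := hi
  set w' := w * cs.simple i with hw'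
  have hww : w' * cs.simple i = w := by rw [hw', mul_assoc, simple_mul_simple_self, mul_one]
  have hpos : 0 ≤ rep cs h w' (sr i) := (lt_iff' cs h w' i).1 (by rw [hww]; omega)
  have hws : ∀ x : I → ℤ, rep cs h w' (rep cs h (cs.simple i) x) = rep cs h w x := by
    intro x; rw [← rep_mul_apply, hww]
  have hneg : rep cs h w (sr i) ≤ 0 := by
    have h1 := hws (sr i)
    rw [rep_simple_sr, map_neg] at h1
    rw [← h1]
    exact neg_nonpos.2 hpos
  obtain ⟨r, hr, u, hu, rfl⟩ := exists_mul R (S := NW cs h w) (i := i) (fun x hx => ⟨hx.1, hx.2.1⟩)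
    ⟨isRoot_sr cs h i, sr_nonneg i, hneg⟩ (fun y hy _ z hz => ⟨hz.1, btwn_nonneg hz (sr_nonneg i) hy.2.1, by
      have h2 := btwn_nonneg (cs := cs) (h := h) (x := -rep cs h w (sr i)) (y := -rep cs h w y)
        (z := -rep cs h w z) ?_ (neg_nonneg.2 hneg) (neg_nonneg.2 hy.2.2)
      · exact neg_nonneg.1 h2
      · obtain ⟨h3, m, a, b, hm, ha, hb, he⟩ := hz.act w
        refine ⟨h3.neg, m, a, b, hm, ha, hb, ?_⟩
        rw [smul_neg, smul_neg, smul_neg, he, neg_add]⟩) ha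
  have hF := hα.frA S hG1
  have hsd : NW cs h w \ {sr i} ⊆ RGD.PosNe cs h i := fun x hx => ⟨hx.1.1, hx.1.2.1, hx.2⟩
  have hαr : α r ∈ RGD.Sup X (RGD.PosNe cs h i) := by
    have h1 : RGD.Sup X (RGD.PosNe cs h i) ≤ (RGD.Sup X (RGD.PosNe cs h i)).comap α.toMonoidHom :=
      RGD.Sup_le fun x hx z hz => RGD.le_Sup (S := RGD.PosNe cs h i) hx (hF.map x hx.1 z hz)
    exact h1 (RGD.Sup_mono hsd hr)
  have hαu : α u ∈ X (sr i) := hF.map _ (isRoot_sr cs h i) u hu
  have hu1 : α u * u⁻¹ = 1 := by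
    refine eq_one_of_mem_PosNe R (mul_mem hαu (inv_mem hu)) ?_
    have h1 : α u * u⁻¹ = (α r)⁻¹ * r := by
      rw [map_mul] at hfix
      rw [mul_inv_eq_iff_eq_mul, mul_assoc, ← hfix]; group
    rw [h1]
    exact mul_mem (inv_mem hαr) (RGD.Sup_mono hsd hr)
  have hu2 : α u = u := mul_inv_eq_one.1 hu1
  have hr2 : α r = r := by
    rw [map_mul, hu2] at hfix
    exact mul_right_cancel hfix
  refine mul_mem ?_ (hα.X_fix S (isRoot_sr cs h i) hu hu2)
  have hrs : n i * r * (n i)⁻¹ ∈ RGD.Sup X (NW cs h w') := by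
    refine conj_mem_Sup R (rp_simple cs R.nsys i) (fun x hx => hx.1.1) (fun x hx => ?_) hr
    refine ⟨hx.1.1.act _, hx.1.1.simple_nonneg hx.1.2.1 i hx.2, ?_⟩
    rw [hws]
    exact hx.1.2.2
  have h2 := ih (cs.length w') (by omega) w' rfl hrs (by rw [map_mul, map_mul, map_inv, hα.map_n S, hr2])
  have h3 : n i ∈ E1 cs h e := by
    rw [S.n_eq, nel_def]
    exact mul_mem (mul_mem (e1_mem (isRoot_sr cs h i)) (e1_mem (isRoot_sr cs h i).neg)) (e1_mem (isRoot_sr cs h i))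
  have h4 : r = (n i)⁻¹ * (n i * r * (n i)⁻¹) * n i := by group
  rw [h4]
  exact mul_mem (mul_mem (inv_mem h3) h2) h3

include hN in
/-- **The fixed points are generated by the `e x 1`.** -/
theorem Frb.fix_eq [Finite K] : FixA α = E1 cs h e := by
  refine le_antisymm ?_ hα.E1_le
  intro g hg
  have C := coords S hG1
  have hF := hα.frA S hG1
  obtain ⟨u, hu, w, k, hk, hkc, b, hb, rfl⟩ := exists_cform R (one_mem T)
    ((GG_eq_top (T := T) hG1) ▸ Subgroup.mem_top g) (by rw [Subgroup.mem_centralizer_singleton_iff]; group)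
  obtain ⟨h1, h2, h3, -⟩ := parts_fixed C (one_mem T) hF
    (fun z _ => by rw [Subgroup.mem_centralizer_singleton_iff]; group) (fun a _ h0 => h0) (fun a _ h0 => h0)
    hu hk hkc hb hg
  have hU : ∀ z ∈ RGD.Sup X (RGD.Pos cs h), α z = z → z ∈ E1 cs h e := by
    obtain ⟨w₀, hw₀⟩ := Cfsg.Agent.Nodes.Sys.exists_longest cs h
    intro z hz hz1
    refine hα.NW_fix S hG1 w₀⁻¹ (RGD.Sup_mono (fun x hx => ?_) hz) hz1
    exact ⟨hx.1, hx.2, hw₀ x hx.1 hx.2⟩
  refine mul_mem (mul_mem (hU u (CS_le_Sup _ hu) h1) ?_) (hU b (NW_le_U (CS_le_Sup _ hb)) h3)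
  obtain ⟨g, hg, hr⟩ := exists_rp_closure (cs := cs) (hN := R.nsys) w
  have hgE : g ∈ E1 cs h e := by
    have h4 : Subgroup.closure (Set.range n) ≤ E1 cs h e := by
      rw [Subgroup.closure_le]
      rintro _ ⟨i, rfl⟩
      show n i ∈ E1 cs h e
      rw [S.n_eq, nel_def]
      exact mul_mem (mul_mem (e1_mem (isRoot_sr cs h i)) (e1_mem (isRoot_sr cs h i).neg)) (e1_mem (isRoot_sr cs h i))
    exact h4 hg
  have h5 := hr.unique hk
  have h6 : g⁻¹ * k = 1 := hα.T_fix S hG1 hN h5 (by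
    rw [map_mul, map_inv, h2, (hα.E1_le hgE : α g = g)])
  rw [← inv_mul_eq_one.1 h6]
  exact hgE

end

/-! ### rank one identities -/

/-- `a = x(1) x₋(ζ²) x(1)` -/
def al (e : (I → ℤ) → K → Y) (ζ : K) (j : I) : Y := e (sr j) 1 * e (-sr j) (ζ ^ 2) * e (sr j) 1

/-- `x = x(1) x₋(1)` -/
def xl (e : (I → ℤ) → K → Y) (j : I) : Y := e (sr j) 1 * e (-sr j) 1

section

variable [Finite W] {R : RGD cs h p T n X} (S : Sys R e) (hG1 : RGD.Sup X {x | IsRoot cs h x} = ⊤)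
  (hN : NoCent cs h T X) {α : MulAut Y} (hα : Frb cs h e α) {ζ : K} (hζ : ζ ^ 2 = ζ + 1)

include S

theorem al_mem (ζ : K) (j : I) : al e ζ j ∈ SS X j :=
  mul_mem (mul_mem (e_mem S j _) (e_neg_mem S j _)) (e_mem S j _)

theorem xl_mem (j : I) : xl e j ∈ SS X j := mul_mem (e_mem S j _) (e_neg_mem S j _)

theorem al_sq (ζ : K) (j : I) : al e ζ j * al e ζ j = 1 := by
  have hr := isRoot_sr cs h j
  unfold al
  calc e (sr j) 1 * e (-sr j) (ζ ^ 2) * e (sr j) 1 * (e (sr j) 1 * e (-sr j) (ζ ^ 2) * e (sr j) 1)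
      = e (sr j) 1 * e (-sr j) (ζ ^ 2) * (e (sr j) 1 * e (sr j) 1) * e (-sr j) (ζ ^ 2) * e (sr j) 1 := by group
    _ = e (sr j) 1 * (e (-sr j) (ζ ^ 2) * e (-sr j) (ζ ^ 2)) * e (sr j) 1 := by rw [S.data.sq hr]; group
    _ = 1 := by rw [S.data.sq hr.neg, mul_one, S.data.sq hr]

include hζ in
theorem al_nel (j : I) : al e ζ j * nel e (sr j) = e (sr j) 1 * e (-sr j) ζ * e (sr j) 1 := by
  have hr := isRoot_sr cs h j
  have h1 : ζ ^ 2 + 1 = ζ := by rw [hζ, add_assoc, S.data.two, add_zero]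
  rw [nel_def]
  unfold al
  calc e (sr j) 1 * e (-sr j) (ζ ^ 2) * e (sr j) 1 * (e (sr j) 1 * e (-sr j) 1 * e (sr j) 1)
      = e (sr j) 1 * e (-sr j) (ζ ^ 2) * (e (sr j) 1 * e (sr j) 1) * e (-sr j) 1 * e (sr j) 1 := by group
    _ = e (sr j) 1 * (e (-sr j) (ζ ^ 2) * e (-sr j) 1) * e (sr j) 1 := by rw [S.data.sq hr]; group
    _ = _ := by rw [← S.data.add _ hr.neg, h1]

include hζ in
theorem nel_al (j : I) : nel e (sr j) * al e ζ j = e (sr j) 1 * e (-sr j) ζ * e (sr j) 1 := by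
  have hr := isRoot_sr cs h j
  have h1 : 1 + ζ ^ 2 = ζ := by rw [hζ, add_comm, add_assoc, S.data.two, add_zero]
  rw [nel_def]
  unfold al
  calc e (sr j) 1 * e (-sr j) 1 * e (sr j) 1 * (e (sr j) 1 * e (-sr j) (ζ ^ 2) * e (sr j) 1)
      = e (sr j) 1 * e (-sr j) 1 * (e (sr j) 1 * e (sr j) 1) * e (-sr j) (ζ ^ 2) * e (sr j) 1 := by group
    _ = e (sr j) 1 * (e (-sr j) 1 * e (-sr j) (ζ ^ 2)) * e (sr j) 1 := by rw [S.data.sq hr]; group
    _ = _ := by rw [← S.data.add _ hr.neg, h1]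

include hα hζ in
theorem map_al (j : I) : α (al e ζ j) = al e ζ j * nel e (sr j) := by
  have hr := isRoot_sr cs h j
  rw [al_nel S hζ]
  unfold al
  rw [map_mul, map_mul, hα.map _ hr, hα.map _ hr.neg, one_pow, ← pow_mul, hα.four]

include hG1 hN hζ in
theorem al_xl (j : I) : al e ζ j * xl e j * al e ζ j = hel e (sr j) ζ := by
  have hr := isRoot_sr cs h j
  have h0 : ζ ≠ 0 := by
    rintro rfl
    rw [zero_pow two_ne_zero, zero_add] at hζ
    exact zero_ne_one hζ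
  have h3 : ζ ^ 2 * ζ = 1 := by
    have h4 : (2 : K) = 0 := by
      have := S.data.two (1 : K)
      rwa [one_add_one_eq_two] at this
    linear_combination (ζ + 1) * hζ + ζ * h4
  have h2 : ζ ^ 2 ≠ 0 := pow_ne_zero 2 h0
  have hi1 : (ζ ^ 2)⁻¹ = ζ := inv_eq_of_mul_eq_one_right h3
  have hi2 : ζ⁻¹ = ζ ^ 2 := inv_eq_of_mul_eq_one_left h3
  have h1 : ζ ^ 2 + 1 = ζ := by rw [hζ, add_assoc, S.data.two, add_zero]
  have h5 : ζ ^ 2 + ζ = 1 := by rw [hζ, add_comm, ← add_assoc, S.data.two, zero_add]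
  -- the torus element
  obtain ⟨t, ht⟩ : ∃ t, t = nc e (sr j) (ζ ^ 2) * nc e (sr j) ζ := ⟨_, rfl⟩
  have ht1 : t = hel e (sr j) ζ := by
    have e1 : ∀ c, nc e (sr j) c = hel e (sr j) c * nel e (sr j) := by
      intro c
      rw [hel_def, mul_assoc, nel_mul_nel S hr, mul_one]
    have e2 : nc e (sr j) ζ = nel e (sr j) * hel e (sr j) ζ⁻¹ := by
      rw [e1, ← inv_inv ζ, ← nel_hel S hG1 hN hr (inv_ne_zero h0), inv_inv]
    rw [ht, e1, e2, mul_assoc, ← mul_assoc (nel e (sr j)) (nel e (sr j)), nel_mul_nel S hr, one_mul,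
      hel_mul S hG1 hN hr h2 (inv_ne_zero h0), hi2]
    congr 1
    linear_combination ζ * h3
  have ht2 : t = e (sr j) (ζ ^ 2) * e (-sr j) ζ * e (sr j) 1 * e (-sr j) (ζ ^ 2) * e (sr j) ζ := by
    rw [ht, nc_def, nc_def, hi1, hi2]
    calc e (sr j) (ζ ^ 2) * e (-sr j) ζ * e (sr j) (ζ ^ 2) * (e (sr j) ζ * e (-sr j) (ζ ^ 2) * e (sr j) ζ)
        = e (sr j) (ζ ^ 2) * e (-sr j) ζ * (e (sr j) (ζ ^ 2) * e (sr j) ζ) * e (-sr j) (ζ ^ 2) * e (sr j) ζ := by group
      _ = _ := by rw [← S.data.add _ hr, h5]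
  have ht3 : t * e (sr j) (ζ ^ 2) = e (sr j) ζ * t := by
    have h6 := S.data.hel_conj hr hr h0 (ζ ^ 2)
    rw [cpr_self cs h hr, ← ht1] at h6
    have h7 : ζ ^ (2 : ℤ) * ζ ^ 2 = ζ := by
      have : ζ ^ (2 : ℤ) = ζ ^ 2 := by norm_cast
      rw [this]
      linear_combination ζ * h3
    rw [h7] at h6
    exact mul_inv_eq_iff_eq_mul.1 h6
  rw [← ht1]
  unfold al xl
  have h8 : e (sr j) 1 = e (sr j) ζ * e (sr j) (ζ ^ 2) := by rw [← S.data.add _ hr, add_comm, h5]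
  have h9 : e (sr j) 1 = e (sr j) ζ * e (sr j) (ζ ^ 2) := h8
  calc e (sr j) 1 * e (-sr j) (ζ ^ 2) * e (sr j) 1 * (e (sr j) 1 * e (-sr j) 1) *
        (e (sr j) 1 * e (-sr j) (ζ ^ 2) * e (sr j) 1)
      = e (sr j) 1 * e (-sr j) (ζ ^ 2) * (e (sr j) 1 * e (sr j) 1) * e (-sr j) 1 *
        e (sr j) 1 * e (-sr j) (ζ ^ 2) * e (sr j) 1 := by group
    _ = e (sr j) 1 * (e (-sr j) (ζ ^ 2) * e (-sr j) 1) * e (sr j) 1 * e (-sr j) (ζ ^ 2) * e (sr j) 1 := by
        rw [S.data.sq hr]; group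
    _ = e (sr j) 1 * e (-sr j) ζ * e (sr j) 1 * e (-sr j) (ζ ^ 2) * e (sr j) 1 := by
        rw [← S.data.add _ hr.neg, h1]
    _ = (e (sr j) ζ * e (sr j) (ζ ^ 2)) * e (-sr j) ζ * e (sr j) 1 * e (-sr j) (ζ ^ 2) *
        (e (sr j) ζ * e (sr j) (ζ ^ 2)) := by rw [← h8]
    _ = e (sr j) ζ * (e (sr j) (ζ ^ 2) * e (-sr j) ζ * e (sr j) 1 * e (-sr j) (ζ ^ 2) * e (sr j) ζ) *
        e (sr j) (ζ ^ 2) := by group
    _ = e (sr j) ζ * (t * e (sr j) (ζ ^ 2)) := by rw [← ht2, mul_assoc]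
    _ = e (sr j) ζ * e (sr j) ζ * t := by rw [ht3, mul_assoc]
    _ = t := by rw [S.data.sq hr, one_mul]

end

/-! ### The products -/

/-- abstract conjugation step -/
theorem conj_fix {α : MulAut Y} {a v z : Y} (hv : v * v = 1) (hav : a * v = v * a) (hαa : α a = a * v)
    (hz : α z = z) (hzv : z * v = v * z) : α (a * z * a) = a * z * a := by
  rw [map_mul, map_mul, hαa, hz]
  calc a * v * z * (a * v) = a * (v * z) * (a * v) := by group
    _ = a * (z * v) * (v * a) := by rw [hzv, hav]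
    _ = a * z * (v * v) * a := by group
    _ = a * z * a := by rw [hv, mul_one]

theorem conj_comm {a z s : Y} (ha : a * a = 1) (hz : z * s = s * z) :
    (a * z * a) * (a * s * a) = (a * s * a) * (a * z * a) := by
  calc (a * z * a) * (a * s * a) = a * z * (a * a) * s * a := by group
    _ = a * (z * s) * a := by rw [ha]; group
    _ = a * (s * z) * a := by rw [hz]
    _ = a * s * (a * a) * z * a := by rw [ha]; group
    _ = (a * s * a) * (a * z * a) := by group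

section

variable [Finite W] [Finite Y] [Finite K] {R : RGD cs h 2 T n X} (S : Sys R e) {J : List I} (hJ : Orth cs h J)
  (hG1 : RGD.Sup X {x | IsRoot cs h x} = ⊤) (hN : NoCent cs h T X) {α : MulAut Y} (hα : Frb cs h e α) {ζ : K}
  (hζ : ζ ^ 2 = ζ + 1)

omit [Finite Y] [Finite K] in
include S hJ in
theorem alJ_sq (ζ : K) : pr J (al e ζ) * pr J (al e ζ) = 1 := by
  rw [pr_mul hJ.nodup (commL S hJ (fun j _ => al_mem S ζ j) fun j _ => al_mem S ζ j),
    pr_congr (g := fun _ => 1) fun j _ => al_sq S ζ j, pr_one]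

omit [Finite Y] [Finite K] in
include S hJ hζ in
theorem alJ_nJ : pr J (al e ζ) * pr J (fun j => nel e (sr j)) = pr J (fun j => nel e (sr j)) * pr J (al e ζ) := by
  rw [pr_mul hJ.nodup (commL S hJ (fun j _ => al_mem S ζ j) fun j _ => nel_mem S j),
    pr_mul hJ.nodup (commL S hJ (fun j _ => nel_mem S j) fun j _ => al_mem S ζ j)]
  exact pr_congr fun j _ => by rw [al_nel S hζ, nel_al S hζ]

omit [Finite Y] [Finite K] in
include S hJ hα hζ in
theorem map_alJ : α (pr J (al e ζ)) = pr J (al e ζ) * pr J (fun j => nel e (sr j)) := by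
  rw [pr_mul hJ.nodup (commL S hJ (fun j _ => al_mem S ζ j) fun j _ => nel_mem S j)]
  exact (pr_map α.toMonoidHom J _).trans (pr_congr fun j _ => map_al S hα hζ j)

omit [Finite Y] [Finite K] in
include hα in
theorem map_nJ : α (pr J (fun j => nel e (sr j))) = pr J (fun j => nel e (sr j)) :=
  (pr_map α.toMonoidHom J _).trans (pr_congr fun j _ => hα.nel j)

omit [Finite Y] [Finite K] in
include S hJ hG1 hN hζ in
theorem alJ_xlJ : pr J (al e ζ) * pr J (xl e) * pr J (al e ζ) = pr J (fun j => hel e (sr j) ζ) := by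
  rw [pr_mul hJ.nodup (commL S hJ (fun j _ => al_mem S ζ j) fun j _ => xl_mem S j),
    pr_mul hJ.nodup (commL S hJ (fun j _ => mul_mem (al_mem S ζ j) (xl_mem S j)) fun j _ => al_mem S ζ j)]
  exact pr_congr fun j _ => al_xl S hG1 hN hζ j

omit [Finite Y] [Finite K] in
include hα S hJ hG1 hN in
theorem map_tJ (hζ0 : ζ ≠ 0) (hζ3 : ζ ^ 2 = ζ⁻¹) :
    α (pr J (fun j => hel e (sr j) ζ)) = (pr J (fun j => hel e (sr j) ζ))⁻¹ := by
  rw [tJ_inv S hJ hG1 hN hζ0]
  refine (pr_map α.toMonoidHom J _).trans (pr_congr fun j _ => ?_)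
  show α (hel e (sr j) ζ) = _
  have h4 : ζ⁻¹ ^ 2 = (ζ ^ 2)⁻¹ := by rw [inv_pow]
  rw [hel_def, hel_def, map_mul, hα.nel, nc_def, nc_def, map_mul, map_mul, hα.map _ (isRoot_sr cs h j),
    hα.map _ (isRoot_sr cs h j).neg, h4, hζ3]

include S hJ hG1 hN hα hζ in
/-- **`q = 2`: in the fixed points of `α`, `C(nJ) ∩ C(xJ)` has no nontrivial normal 2-subgroup.** -/
theorem o2_two {N : Subgroup Y} (hNp : IsPGroup 2 N)
    (hNH : N ≤ FixA α ⊓ (Subgroup.centralizer {pr J fun j => nel e (sr j)} ⊓ Subgroup.centralizer {pr J (xl e)}))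
    (hn : ∀ g ∈ FixA α ⊓ (Subgroup.centralizer {pr J fun j => nel e (sr j)} ⊓ Subgroup.centralizer {pr J (xl e)}),
      ∀ z ∈ N, g * z * g⁻¹ ∈ N) : N = ⊥ := by
  have : Fact (Nat.Prime 2) := ⟨Nat.prime_two⟩
  have hζ0 : ζ ≠ 0 := by
    rintro rfl
    rw [zero_pow two_ne_zero, zero_add] at hζ
    exact zero_ne_one hζ
  have h2K : (2 : K) = 0 := by
    have := S.data.two (1 : K)
    rwa [one_add_one_eq_two] at this
  have hζ3 : ζ ^ 3 = 1 := by linear_combination (ζ + 1) * hζ + ζ * h2K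
  have hζ1 : ζ ≠ 1 := by
    rintro rfl
    have : (1 : K) = 0 := by linear_combination -hζ
    exact one_ne_zero this
  have hζi : ζ ^ 2 = ζ⁻¹ := eq_inv_of_mul_eq_one_left (by linear_combination hζ3)
  have hc2 : ζ ^ (2 : ℤ) ≠ 1 := by
    intro h0
    have h1 : ζ ^ 2 = 1 := by exact_mod_cast h0
    exact hζ0 (by linear_combination h1 - hζ)
  set v : Y := pr J fun j => nel e (sr j) with hv
  set t : Y := pr J fun j => hel e (sr j) ζ with ht
  set a : Y := pr J (al e ζ) with ha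
  set x : Y := pr J (xl e) with hx
  have ha2 : a * a = 1 := alJ_sq S hJ ζ
  have hv2 : v * v = 1 := nJ_sq S hJ
  have hav : a * v = v * a := alJ_nJ S hJ hζ
  have hαa : α a = a * v := map_alJ S hJ hα hζ
  have hαv : α v = v := map_nJ hα
  have haxa : a * x * a = t := alJ_xlJ S hJ hG1 hN hζ
  have hαt : α t = t⁻¹ := map_tJ S hJ hG1 hN hα hζ0 hζi
  have hvt : v * t * v⁻¹ = t⁻¹ := by
    rw [hv, ht, nJ_tJ S hJ hG1 hN hζ0, tJ_inv S hJ hG1 hN hζ0]
  have hata : a * t * a = x := by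
    rw [← haxa]
    calc a * (a * x * a) * a = (a * a) * x * (a * a) := by group
      _ = x := by rw [ha2, one_mul, mul_one]
  have C := coords S hG1
  have htT : t ∈ T := tJ_mem S hG1 hζ0 J
  have hF := hα.frA S hG1
  -- admissibility
  have hcen : ∀ z ∈ Subgroup.centralizer {t}, MulAut.conj v z ∈ Subgroup.centralizer {t} := by
    intro z hz
    rw [Subgroup.mem_centralizer_singleton_iff] at hz ⊢
    rw [MulAut.conj_apply]
    have h1 : Commute (v * z * v⁻¹) t⁻¹ := by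
      rw [← hvt]
      show v * z * v⁻¹ * (v * t * v⁻¹) = v * t * v⁻¹ * (v * z * v⁻¹)
      calc v * z * v⁻¹ * (v * t * v⁻¹) = v * (z * t) * v⁻¹ := by group
        _ = v * (t * z) * v⁻¹ := by rw [hz]
        _ = v * t * v⁻¹ * (v * z * v⁻¹) := by group
    exact (Commute.inv_right_iff.1 h1).eq
  have hA : Adm2 R (chS e) t (⊤ ⊓ FixA (MulAut.conj v)) := by
    refine Adm2.fix C htT (frA_conj (nJ_rp S J)) hcen ?_ ?_ (Adm2.top C htT) (fun _ _ => Subgroup.mem_top _) ⟨1, ?_⟩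
    · intro a ha h0
      exact nonneg_conv hJ ha.1 (fun j hj h1 => sr_not_mem_Sx S hJ hG1 hζ0 hc2 hj (h1 ▸ ha)) h0
    · intro a ha h0
      exact nonpos_conv hJ ha.1 (fun j hj h1 => neg_sr_not_mem_Sx S hJ hG1 hζ0 hc2 hj (h1 ▸ ha)) h0
    · intro z _
      rw [pow_one, pow_two, ← map_mul, hv2, map_one, MulAut.one_apply]
  have hfix : ∀ z, z ∈ (⊤ : Subgroup Y) ⊓ FixA (MulAut.conj v) ↔ z * v = v * z := by
    intro z
    rw [top_inf_eq, mem_FixA, MulAut.conj_apply, mul_inv_eq_iff_eq_mul]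
    exact eq_comm
  have hα2 : ∀ z, α (α z) = z := by
    intro z
    have h1 : (RGD.Sup X {x | IsRoot cs h x}) ≤ FixA (α * α) := by
      refine RGD.Sup_le fun y hy u hu => ?_
      obtain ⟨c, rfl⟩ := (S.mem_X y hy u).1 hu
      show α (α (e y c)) = e y c
      rw [hα.map y hy, hα.map y hy, ← pow_mul, hα.four]
    rw [hG1] at h1
    exact h1 (Subgroup.mem_top z)
  have hB : Adm2 R (chS e) t ((⊤ ⊓ FixA (MulAut.conj v)) ⊓ FixA α) := by
    refine Adm2.fix C htT hF ?_ (fun _ _ h0 => h0) (fun _ _ h0 => h0) hA ?_ ⟨1, ?_⟩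
    · intro z hz
      rw [Subgroup.mem_centralizer_singleton_iff] at hz ⊢
      have h1 : Commute (α z) t⁻¹ := by
        rw [← hαt]
        show α z * α t = α t * α z
        rw [← map_mul, ← map_mul, hz]
      exact (Commute.inv_right_iff.1 h1).eq
    · intro z hz
      rw [hfix] at hz ⊢
      have h1 := congrArg α hz
      rwa [map_mul, map_mul, hαv] at h1
    · intro z _
      rw [pow_one, pow_two, MulAut.mul_apply, hα2]
  -- conjugation by `a`
  have key : ∀ z s, z ∈ FixA α → z * v = v * z → z * s = s * z →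
      α (a * z * a) = a * z * a ∧ (a * z * a) * v = v * (a * z * a) ∧ (a * z * a) * (a * s * a) = (a * s * a) * (a * z * a) := by
    intro z s h1 h2 h3
    refine ⟨conj_fix hv2 hav hαa h1 h2, ?_, conj_comm ha2 h3⟩
    calc a * z * a * v = a * z * (a * v) := by group
      _ = a * (z * v) * a := by rw [hav]; group
      _ = a * (v * z) * a := by rw [h2]
      _ = (a * v) * z * a := by group
      _ = v * (a * z * a) := by rw [hav]; group
  have hconj : ∀ z : Y, MulAut.conj a z = a * z * a := by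
    intro z
    rw [MulAut.conj_apply, inv_eq_of_mul_eq_one_right ha2]
  have h0 : N.map (MulAut.conj a).toMonoidHom = ⊥ := by
    refine hB.eq_bot C htT (chAdd S) Nat.prime_three (by norm_num) ?_ (GG_eq_top (T := T) hG1) (hNp.map _) ?_ ?_
    · intro b hb
      rw [ht, chi_tJ S hG1 hb hζ0, ← zpow_natCast, ← zpow_mul, mul_comm, zpow_mul, zpow_natCast, hζ3, one_zpow]
    · rintro _ ⟨z, hz, rfl⟩
      obtain ⟨h1, h2, h3⟩ := hNH hz
      obtain ⟨h4, h5, h6⟩ := key z x h1 (Subgroup.mem_centralizer_singleton_iff.1 h2)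
        (Subgroup.mem_centralizer_singleton_iff.1 h3)
      rw [haxa] at h6
      show MulAut.conj a z ∈ _
      rw [hconj]
      exact ⟨⟨(hfix _).2 h5, h4⟩, Subgroup.mem_centralizer_singleton_iff.2 h6⟩
    · rintro g ⟨⟨h1, h2⟩, h3⟩ _ ⟨z, hz, rfl⟩
      have h1' := (hfix g).1 h1
      obtain ⟨h4, h5, h6⟩ := key g t h2 h1' (Subgroup.mem_centralizer_singleton_iff.1 h3)
      rw [hata] at h6
      have h7 := hn (a * g * a) ⟨h4, Subgroup.mem_centralizer_singleton_iff.2 h5,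
        Subgroup.mem_centralizer_singleton_iff.2 h6⟩ z hz
      refine ⟨_, h7, ?_⟩
      show MulAut.conj a _ = g * MulAut.conj a z * g⁻¹
      have hai : a⁻¹ = a := inv_eq_of_mul_eq_one_right ha2
      rw [hconj, hconj]
      calc a * (a * g * a * z * (a * g * a)⁻¹) * a = (a * a) * g * (a * z * a⁻¹) * g⁻¹ * (a⁻¹ * a) := by group
        _ = g * (a * z * a) * g⁻¹ := by rw [ha2, hai, ha2, one_mul, mul_one]
  rw [Subgroup.map_eq_bot_iff_of_injective _ (MulEquiv.injective _)] at h0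
  exact h0

end

end Cfsg.Agent.H737.SK.Gen
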